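import Mathlib

set_option linter.unusedSectionVars false

namespace Cfsg.Agent.Lib.Helper75.BrandtBLK

universe u v

section
variable {A : Type v} [Ring A]

/-- the left ideal `{x | x * e = 0}` -/
def blkI (e : A) : Ideal A where
  carrier := {x | x * e = 0}
  add_mem' := by
    intro a b ha hb
    simp only [Set.mem_ofPred_eq] at *
    rw [add_mul, ha, hb, add_zero]
  zero_mem' := by simp
  smul_mem' := by
    intro c x hx
    simp only [Set.mem_ofPred_eq, smul_eq_mul] at *
    rw [mul_assoc, hx, mul_zero]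

theorem mem_blkI (e x : A) : x ∈ blkI e ↔ x * e = 0 := Iff.rfl

theorem blkI_twoSided (e : A) (hec : ∀ x, e * x = x * e) : (blkI e).IsTwoSided :=
  ⟨fun {a} b ha => by
    rw [mem_blkI] at *
    rw [mul_assoc, ← hec b, ← mul_assoc, ha, zero_mul]⟩

/-- right multiplication by `e` as a map of left modules -/
def mulR (e : A) : A →ₗ[A] A where
  toFun x := x * e
  map_add' := fun x y => add_mul x y e
  map_smul' := fun c x => by simp [mul_assoc]

theorem mulR_apply (e x : A) : mulR e x = x * e := rfl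

end

section
variable {K : Type u} {A : Type v} [Field K] [Ring A] [Algebra K A]
variable {e : A} [(blkI e).IsTwoSided]

/-- the quotient map -/
abbrev qm (e : A) [(blkI e).IsTwoSided] : A →+* A ⧸ blkI e := Ideal.Quotient.mk (blkI e)

theorem qm_surj : Function.Surjective (qm e) := Ideal.Quotient.mk_surjective

theorem qm_eq_zero {x : A} : qm e x = 0 ↔ x * e = 0 := Ideal.Quotient.eq_zero_iff_mem

theorem qm_e (he : e * e = e) : qm e e = 1 := by
  have : qm e (e - 1) = 0 := by rw [qm_eq_zero, sub_mul, he, one_mul, sub_self]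
  rw [map_sub, map_one, sub_eq_zero] at this
  exact this

/-- the section `q x ↦ x * e`, as a map of left `A`-modules -/
def sigA (e : A) [(blkI e).IsTwoSided] : A ⧸ blkI e →ₗ[A] A :=
  (blkI e).liftQ (mulR e) (fun x hx => by rw [LinearMap.mem_ker]; exact hx)

theorem sigA_q (x : A) : sigA e (qm e x) = x * e := rfl

/-- the section `q x ↦ x * e`, as a `K`-linear map -/
def sigK (K : Type u) [Field K] [Algebra K A] (e : A) [(blkI e).IsTwoSided] :
    A ⧸ blkI e →ₗ[K] A where
  toFun := sigA e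
  map_add' := (sigA e).map_add
  map_smul' := by
    intro c y
    obtain ⟨x, rfl⟩ := qm_surj (e := e) y
    have : c • qm e x = qm e (c • x) := (map_smul (Ideal.Quotient.mkₐ K (blkI e)) c x).symm
    simp only [RingHom.id_apply]
    rw [this, sigA_q, sigA_q, smul_mul_assoc]

theorem sigK_q (x : A) : sigK K e (qm e x) = x * e := rfl

theorem sigK_inj : Function.Injective (sigK K e) := by
  rw [injective_iff_map_eq_zero]
  intro y hy
  obtain ⟨x, rfl⟩ := qm_surj (e := e) y
  rw [sigK_q] at hy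
  exact qm_eq_zero.2 hy

theorem sigK_range (hec : ∀ x, e * x = x * e) :
    LinearMap.range (sigK K e) = LinearMap.range (LinearMap.mulLeft K e) := by
  ext w
  simp only [LinearMap.mem_range, LinearMap.mulLeft_apply]
  constructor
  · rintro ⟨y, rfl⟩
    obtain ⟨x, rfl⟩ := qm_surj (e := e) y
    exact ⟨x, by rw [sigK_q, hec]⟩
  · rintro ⟨x, rfl⟩
    exact ⟨qm e x, by rw [sigK_q, hec]⟩

end

theorem brandt_blk {K : Type u} {A : Type v} [Field K] [Ring A] [Algebra K A]
    [FiniteDimensional K A]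
    (lam : A →ₗ[K] K) (hsymm : ∀ x y, lam (x * y) = lam (y * x))
    (hnd : ∀ x, (∀ y, lam (x * y) = 0) → x = 0)
    (e : A) (he : e * e = e) (hec : ∀ x, e * x = x * e)
    (Z : Submodule K A) (hZ : ∀ c, c ∈ Z ↔ (c ∈ Subalgebra.center K A ∧ e * c = c))
    (hZdim : Module.finrank K Z = 2)
    (z : A) (hz : z ∈ Z) (hz0 : z ≠ 0) (hznil : IsNilpotent z) :
    ∃ (A' : Type v) (_ : Ring A') (_ : Algebra K A') (_ : FiniteDimensional K A')
      (lam' : A' →ₗ[K] K),
      (∀ x y, lam' (x * y) = lam' (y * x)) ∧ (∀ x, (∀ y, lam' (x * y) = 0) → x = 0) ∧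
      Module.finrank K (Subalgebra.center K A') = 2 ∧
      (∃ z' ∈ Subalgebra.center K A', z' ≠ 0 ∧ IsNilpotent z') ∧
      Module.finrank K A' = Module.finrank K (LinearMap.range (LinearMap.mulLeft K e)) := by
  have : (blkI e).IsTwoSided := blkI_twoSided e hec
  have hfd : FiniteDimensional K (A ⧸ blkI e) :=
    Module.Finite.of_surjective (Ideal.Quotient.mkₐ K (blkI e)).toLinearMap
      (qm_surj (e := e))
  -- the centre
  have hcen : ∀ c, c ∈ Z → qm e c ∈ Subalgebra.center K (A ⧸ blkI e) := by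
    intro c hc
    rw [Subalgebra.mem_center_iff]
    intro b'
    obtain ⟨b, rfl⟩ := qm_surj (e := e) b'
    have h1 := ((hZ c).1 hc).1
    rw [Subalgebra.mem_center_iff] at h1
    rw [← map_mul, ← map_mul, h1 b]
  have hinjZ : ∀ c, c ∈ Z → qm e c = 0 → c = 0 := by
    intro c hc h0
    rw [qm_eq_zero] at h0
    have h2 := ((hZ c).1 hc).2
    rw [← h2, hec, h0]
  have hsurjZ : ∀ c', c' ∈ Subalgebra.center K (A ⧸ blkI e) → ∃ c ∈ Z, qm e c = c' := by
    intro c' hc'
    obtain ⟨c, rfl⟩ := qm_surj (e := e) c'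
    rw [Subalgebra.mem_center_iff] at hc'
    refine ⟨c * e, ?_, ?_⟩
    · rw [hZ]
      refine ⟨?_, ?_⟩
      · rw [Subalgebra.mem_center_iff]
        intro y
        have h3 : qm e (y * c - c * y) = 0 := by
          rw [map_sub, map_mul, map_mul, hc' (qm e y), sub_self]
        rw [qm_eq_zero, sub_mul, sub_eq_zero] at h3
        calc y * (c * e) = y * c * e := (mul_assoc _ _ _).symm
          _ = c * y * e := h3
          _ = c * (e * y) := by rw [mul_assoc, hec y]
          _ = c * e * y := (mul_assoc _ _ _).symm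
      · rw [hec, mul_assoc, he]
    · rw [map_mul, qm_e he, mul_one]
  let f : Z →ₗ[K] Subalgebra.toSubmodule (Subalgebra.center K (A ⧸ blkI e)) :=
    LinearMap.codRestrict _ ((Ideal.Quotient.mkₐ K (blkI e)).toLinearMap ∘ₗ Z.subtype)
      (fun c => hcen c.1 c.2)
  have hf_inj : Function.Injective f := by
    rw [injective_iff_map_eq_zero]
    intro c hc
    have h4 : qm e c.1 = 0 := congrArg Subtype.val hc
    exact Subtype.ext (hinjZ c.1 c.2 h4)
  have hf_surj : Function.Surjective f := by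
    rintro ⟨c', hc'⟩
    obtain ⟨c, hcZ, rfl⟩ := hsurjZ c' hc'
    exact ⟨⟨c, hcZ⟩, rfl⟩
  have hdim : Module.finrank K (Subalgebra.center K (A ⧸ blkI e)) = 2 := by
    rw [← Subalgebra.finrank_toSubmodule, ← hZdim]
    exact (LinearEquiv.finrank_eq (LinearEquiv.ofBijective f ⟨hf_inj, hf_surj⟩)).symm
  refine ⟨A ⧸ blkI e, inferInstance, inferInstance, hfd, lam ∘ₗ sigK K e, ?_, ?_, hdim, ?_, ?_⟩
  · intro x' y'
    obtain ⟨x, rfl⟩ := qm_surj (e := e) x'
    obtain ⟨y, rfl⟩ := qm_surj (e := e) y'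
    rw [← map_mul, ← map_mul, LinearMap.comp_apply, LinearMap.comp_apply, sigK_q, sigK_q]
    calc lam (x * y * e) = lam (x * (y * e)) := by rw [mul_assoc]
      _ = lam (y * e * x) := hsymm _ _
      _ = lam (y * x * e) := by rw [mul_assoc, hec x, mul_assoc]
  · intro x' hx'
    obtain ⟨x, rfl⟩ := qm_surj (e := e) x'
    rw [qm_eq_zero]
    apply hnd
    intro y
    have h5 := hx' (qm e y)
    rw [← map_mul, LinearMap.comp_apply, sigK_q] at h5
    rw [mul_assoc, hec y, ← mul_assoc]
    exact h5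
  · refine ⟨qm e z, hcen z hz, ?_, hznil.map (qm e)⟩
    intro h0
    exact hz0 (hinjZ z hz h0)
  · rw [← sigK_range (K := K) hec]
    exact LinearEquiv.finrank_eq (LinearEquiv.ofInjective (sigK K e) sigK_inj)

end Cfsg.Agent.Lib.Helper75.BrandtBLK
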