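import Mathlib
import Cfsg.Agent.Lib.Helper59.XS0

/-!
# Piece T of S3054 / S3055: groups in which every non-identity element has exactly two fixed points
-/

set_option autoImplicit false

namespace Cfsg.Agent.Lib.Helper75.XST

open MulAction

variable {H : Type*} {X : Type*} [Group H] [MulAction H X]

/-- The order of the stabilizer of a point. -/
noncomputable def stOrd (H : Type*) {X : Type*} [Group H] [MulAction H X] (x : X) : ℕ :=
  Nat.card (stabilizer H x)

theorem stOrd_smul (g : H) (x : X) : stOrd H (g • x) = stOrd H x := by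
  unfold stOrd
  exact Nat.card_congr
    (stabilizerEquivStabilizerOfOrbitRel ((orbitRel_apply).2 (mem_orbit x g))).toEquiv

theorem orbit_mul_stOrd [Finite H] (x : X) : (orbit H x).ncard * stOrd H x = Nat.card H := by
  unfold stOrd
  rw [← index_stabilizer, mul_comm]
  exact Subgroup.card_mul_index _

theorem stOrd_pos [Finite H] (x : X) : 0 < stOrd H x := Nat.card_pos

theorem contrib (k e N : ℕ) (h : k * e = N) (he : 1 ≤ e) : k * (e - 1) + k = N := by
  obtain ⟨e', rfl⟩ : ∃ e', e = e' + 1 := ⟨e - 1, by omega⟩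
  rw [Nat.add_sub_cancel, ← h, Nat.mul_succ]

/-- Removing an orbit from an invariant finite set. -/
theorem peel [Finite H] (A : Finset X) (hA : ∀ y ∈ A, ∀ g : H, g • y ∈ A) (x : X)
    (hx : x ∈ A) :
    ∃ A' : Finset X, A' ⊆ A ∧ (∀ y ∈ A', ∀ g : H, g • y ∈ A') ∧
      (∀ y ∈ A, y ∉ A' → stOrd H y = stOrd H x) ∧
      ∃ k : ℕ, k * stOrd H x = Nat.card H ∧ A.card = k + A'.card ∧
        ∑ y ∈ A, (stOrd H y - 1) = ∑ y ∈ A', (stOrd H y - 1) + k * (stOrd H x - 1) := by
  classical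
  have hset : ((A.filter (fun y => y ∈ orbit H x) : Finset X) : Set X) = orbit H x := by
    ext y
    simp only [Finset.coe_filter, Set.mem_ofPred_eq]
    constructor
    · exact fun h => h.2
    · intro h
      obtain ⟨g, rfl⟩ := h
      exact ⟨hA x hx g, mem_orbit x g⟩
  have hcard : (A.filter (fun y => y ∈ orbit H x)).card = (orbit H x).ncard := by
    have h := Set.ncard_coe_finset (A.filter (fun y => y ∈ orbit H x))
    rw [hset] at h
    exact h.symm
  refine ⟨A.filter (fun y => y ∉ orbit H x), Finset.filter_subset _ _, ?_, ?_,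
    (orbit H x).ncard, orbit_mul_stOrd x, ?_, ?_⟩
  · intro y hy g
    rw [Finset.mem_filter] at hy ⊢
    refine ⟨hA y hy.1 g, fun h => hy.2 ?_⟩
    obtain ⟨h', hh⟩ := h
    refine ⟨g⁻¹ * h', ?_⟩
    show (g⁻¹ * h') • x = y
    have hh' : h' • x = g • y := hh
    rw [mul_smul, hh', inv_smul_smul]
  · intro y hy hy'
    have hyo : y ∈ orbit H x := by
      by_contra h
      exact hy' (Finset.mem_filter.2 ⟨hy, h⟩)
    obtain ⟨g, rfl⟩ := hyo
    exact stOrd_smul g x
  · rw [← hcard]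
    exact (Finset.card_filter_add_card_filter_not (s := A) (fun y => y ∈ orbit H x)).symm
  · rw [← Finset.sum_filter_add_sum_filter_not A (fun y => y ∈ orbit H x), add_comm]
    congr 1
    rw [← hcard, ← smul_eq_mul, ← Finset.sum_const]
    apply Finset.sum_congr rfl
    intro y hy
    obtain ⟨g, rfl⟩ := (Finset.mem_filter.1 hy).2
    show stOrd H (g • x) - 1 = stOrd H x - 1
    rw [stOrd_smul]

/-- The count of the pairs `(g, x)` with `g ≠ 1` and `g x = x`. -/
theorem count [Finite H] (hfix : ∀ g : H, g ≠ 1 → (fixedBy X g).ncard = 2) (T : Finset X)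
    (hT : ∀ x : X, x ∈ T ↔ stabilizer H x ≠ ⊥) :
    ∑ x ∈ T, (stOrd H x - 1) + 2 = 2 * Nat.card H := by
  classical
  have : Fintype H := Fintype.ofFinite H
  have h1 : ∀ g ∈ (Finset.univ : Finset H).erase 1,
      (T.filter (fun x => g • x = x)).card = 2 := by
    intro g hg
    have hg1 : g ≠ 1 := Finset.ne_of_mem_erase hg
    rw [← hfix g hg1, ← Set.ncard_coe_finset]
    congr 1
    ext x
    simp only [Finset.coe_filter, Set.mem_ofPred_eq, mem_fixedBy]
    constructor
    · exact fun h => h.2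
    · intro h
      refine ⟨(hT x).2 ?_, h⟩
      intro hbot
      have hmem : g ∈ stabilizer H x := h
      rw [hbot, Subgroup.mem_bot] at hmem
      exact hg1 hmem
  have h2 : ∀ x : X, (((Finset.univ : Finset H).erase 1).filter (fun g => g • x = x)).card =
      stOrd H x - 1 := by
    intro x
    have e1 : ((Finset.univ : Finset H).erase 1).filter (fun g => g • x = x) =
        ((Finset.univ : Finset H).filter (fun g => g • x = x)).erase 1 := by
      ext g
      simp only [Finset.mem_filter, Finset.mem_erase, Finset.mem_univ, true_and]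
      tauto
    have e2 : stOrd H x = ((Finset.univ : Finset H).filter (fun g => g • x = x)).card := by
      unfold stOrd
      rw [← Fintype.card_subtype, ← Nat.card_eq_fintype_card]
      rfl
    rw [e1, Finset.card_erase_of_mem (by simp), e2]
  have h3 : ∑ g ∈ (Finset.univ : Finset H).erase 1, (T.filter (fun x => g • x = x)).card =
      ∑ x ∈ T, (stOrd H x - 1) := by
    simp_rw [Finset.card_filter]
    rw [Finset.sum_comm]
    apply Finset.sum_congr rfl
    intro x _
    rw [← h2 x, Finset.card_filter]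
  rw [← h3, Finset.sum_congr rfl h1, Finset.sum_const, Finset.card_erase_of_mem (Finset.mem_univ _),
    Finset.card_univ, smul_eq_mul, ← Nat.card_eq_fintype_card]
  have : 0 < Nat.card H := Nat.card_pos
  omega

theorem arith (N k₁ k₂ k₃ e₁ e₂ e₃ : ℕ) (h₁ : k₁ * e₁ = N) (h₂ : k₂ * e₂ = N)
    (h₃ : k₃ * e₃ = N) (he₁ : 4 ≤ e₁) (he₂ : 2 ≤ e₂) (he₃ : 2 ≤ e₃)
    (hsum : k₁ + k₂ + k₃ = N + 2) :
    e₂ ≤ 3 ∧ e₃ ≤ 3 ∧ k₁ ≤ 12 ∧ (6 ≤ e₁ → k₁ ≤ 2) := by
  have a1 : k₁ * 4 ≤ N := by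
    have h := Nat.mul_le_mul_left k₁ he₁
    rwa [h₁] at h
  have a2 : k₂ * 2 ≤ N := by
    have h := Nat.mul_le_mul_left k₂ he₂
    rwa [h₂] at h
  have a3 : k₃ * 2 ≤ N := by
    have h := Nat.mul_le_mul_left k₃ he₃
    rwa [h₃] at h
  have b2 : e₂ ≤ 3 := by
    by_contra hcon
    have h := Nat.mul_le_mul_left k₂ (show 4 ≤ e₂ by omega)
    rw [h₂] at h
    omega
  have b3 : e₃ ≤ 3 := by
    by_contra hcon
    have h := Nat.mul_le_mul_left k₃ (show 4 ≤ e₃ by omega)
    rw [h₃] at h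
    omega
  refine ⟨b2, b3, ?_⟩
  have c1 : e₁ ≤ 5 ∨ 6 ≤ e₁ := by omega
  interval_cases e₂ <;> interval_cases e₃ <;> rcases c1 with c1 | c1
  all_goals first
    | (interval_cases e₁ <;> exact ⟨by omega, fun h => by omega⟩)
    | (have h := Nat.mul_le_mul_left k₁ c1
       rw [h₁] at h
       exact ⟨by omega, fun _ => by omega⟩)

theorem main [Finite H] (hfix : ∀ g : H, g ≠ 1 → (fixedBy X g).ncard = 2) (s : Finset X)
    (hs : ∀ x ∈ s, 4 ≤ stOrd H x) :
    s.card ≤ 12 ∧ ((∀ x ∈ s, 6 ≤ stOrd H x) → s.card ≤ 2) := by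
  classical
  rcases s.eq_empty_or_nonempty with rfl | ⟨x, hx⟩
  · simp
  have hfin : {y : X | stabilizer H y ≠ ⊥}.Finite := by
    apply Set.Finite.subset (s := ⋃ g ∈ {g : H | g ≠ 1}, fixedBy X g)
    · exact Set.Finite.biUnion (Set.toFinite _)
        (fun g hg => Set.finite_of_ncard_ne_zero (by rw [hfix g hg]; norm_num))
    · intro y hy
      obtain ⟨⟨g, hg⟩, hg1⟩ := (Subgroup.ne_bot_iff_exists_ne_one).1 hy
      exact Set.mem_biUnion (show g ∈ {g : H | g ≠ 1} from fun h => hg1 (Subtype.ext h)) hg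
  have hT : ∀ y, y ∈ hfin.toFinset ↔ stabilizer H y ≠ ⊥ := fun y => by
    rw [Set.Finite.mem_toFinset]
    rfl
  have hT2 : ∀ y, y ∈ hfin.toFinset ↔ 2 ≤ stOrd H y := by
    intro y
    rw [hT, ← Subgroup.one_lt_card_iff_ne_bot]
    rfl
  have hTcl : ∀ y ∈ hfin.toFinset, ∀ g : H, g • y ∈ hfin.toFinset := by
    intro y hy g
    rw [hT2] at hy ⊢
    rwa [stOrd_smul]
  have hcount := count hfix hfin.toFinset hT
  have hNpos : 0 < Nat.card H := Nat.card_pos
  have he₁ := hs x hx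
  have hxT : x ∈ hfin.toFinset := (hT2 x).2 (by omega)
  have hsT : s ⊆ hfin.toFinset := fun p hp => (hT2 p).2 (by have := hs p hp; omega)
  obtain ⟨T₁, hT₁sub, hT₁cl, hT₁e, k₁, hk₁, hc₁, hsum₁⟩ := peel hfin.toFinset hTcl x hxT
  have hcon₁ := contrib k₁ (stOrd H x) _ hk₁ (by omega)
  have a1 : k₁ * 4 ≤ Nat.card H := by
    have h := Nat.mul_le_mul_left k₁ he₁
    rwa [hk₁] at h
  have hk₁pos : 0 < k₁ := by
    rcases Nat.eq_zero_or_pos k₁ with h | h
    · rw [h, zero_mul] at hk₁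
      omega
    · exact h
  rcases T₁.eq_empty_or_nonempty with h₁ | ⟨y, hy⟩
  · exfalso
    rw [h₁, Finset.sum_empty, zero_add] at hsum₁
    omega
  have he₂ : 2 ≤ stOrd H y := (hT2 y).1 (hT₁sub hy)
  obtain ⟨T₂, hT₂sub, hT₂cl, hT₂e, k₂, hk₂, hc₂, hsum₂⟩ := peel T₁ hT₁cl y hy
  have hcon₂ := contrib k₂ (stOrd H y) _ hk₂ (by omega)
  have a2 : k₂ * 2 ≤ Nat.card H := by
    have h := Nat.mul_le_mul_left k₂ he₂
    rwa [hk₂] at h
  have hk₂pos : 0 < k₂ := by
    rcases Nat.eq_zero_or_pos k₂ with h | h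
    · rw [h, zero_mul] at hk₂
      omega
    · exact h
  rcases T₂.eq_empty_or_nonempty with h₂ | ⟨z, hz⟩
  · rw [h₂, Finset.sum_empty, zero_add] at hsum₂
    rw [h₂, Finset.card_empty] at hc₂
    have hle := Finset.card_le_card hsT
    have : s.card ≤ 2 := by omega
    exact ⟨by omega, fun _ => this⟩
  have he₃ : 2 ≤ stOrd H z := (hT2 z).1 (hT₁sub (hT₂sub hz))
  obtain ⟨T₃, hT₃sub, hT₃cl, hT₃e, k₃, hk₃, hc₃, hsum₃⟩ := peel T₂ hT₂cl z hz
  have hcon₃ := contrib k₃ (stOrd H z) _ hk₃ (by omega)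
  have a3 : k₃ * 2 ≤ Nat.card H := by
    have h := Nat.mul_le_mul_left k₃ he₃
    rwa [hk₃] at h
  rcases T₃.eq_empty_or_nonempty with h₃ | ⟨w, hw⟩
  · rw [h₃, Finset.sum_empty, zero_add] at hsum₃
    have hsumk : k₁ + k₂ + k₃ = Nat.card H + 2 := by omega
    obtain ⟨b2, b3, b12, b6⟩ := arith _ k₁ k₂ k₃ _ _ _ hk₁ hk₂ hk₃ he₁ he₂ he₃ hsumk
    have hsub : s ⊆ hfin.toFinset \ T₁ := by
      intro p hp
      rw [Finset.mem_sdiff]
      refine ⟨hsT hp, fun hp₁ => ?_⟩
      have h4 := hs p hp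
      by_cases hp₂ : p ∈ T₂
      · have := hT₃e p hp₂ (by rw [h₃]; exact Finset.notMem_empty p)
        omega
      · have := hT₂e p hp₁ hp₂
        omega
    have hle := Finset.card_le_card hsub
    rw [Finset.card_sdiff_of_subset hT₁sub] at hle
    exact ⟨by omega, fun h6 => by have := b6 (h6 x hx); omega⟩
  · exfalso
    have he₄ : 2 ≤ stOrd H w := (hT2 w).1 (hT₁sub (hT₂sub (hT₃sub hw)))
    obtain ⟨T₄, hT₄sub, hT₄cl, hT₄e, k₄, hk₄, hc₄, hsum₄⟩ := peel T₃ hT₃cl w hw
    have hcon₄ := contrib k₄ (stOrd H w) _ hk₄ (by omega)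
    have a4 : k₄ * 2 ≤ Nat.card H := by
      have h := Nat.mul_le_mul_left k₄ he₄
      rwa [hk₄] at h
    omega

end Cfsg.Agent.Lib.Helper75.XST

namespace Cfsg.Agent.Lib.Helper59.XS

/-- Piece T: if every non-identity element of the finite group `H` has exactly two fixed points,
then at most `2` points have a stabilizer of order at least `6` and at most `12` points have a
stabilizer of order at least `4`. -/
theorem two_fixed_points {H : Type*} {X : Type*} [Group H] [Finite H] [MulAction H X]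
    (hfix : ∀ g : H, g ≠ 1 → (MulAction.fixedBy X g).ncard = 2) :
    (∀ s : Finset X, (∀ x ∈ s, 6 ≤ Nat.card (MulAction.stabilizer H x)) → s.card ≤ 2) ∧
    (∀ s : Finset X, (∀ x ∈ s, 4 ≤ Nat.card (MulAction.stabilizer H x)) → s.card ≤ 12) := by
  constructor
  · intro s hs
    exact (Cfsg.Agent.Lib.Helper75.XST.main hfix s
      (fun x hx => le_trans (by norm_num) (hs x hx))).2 hs
  · intro s hs
    exact (Cfsg.Agent.Lib.Helper75.XST.main hfix s hs).1

end Cfsg.Agent.Lib.Helper59.XS
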