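import Mathlib
import Cfsg.Agent.Lib.Helper18.LSDefs
import Cfsg.Agent.Lib.Helper18.WRDefs

/-!
Project WR (S2347, helper18), piece WTR: the Weyl operator `W ψ v`, `v ≠ 0`, has trace zero.
-/

set_option autoImplicit false

namespace Cfsg.Agent.Lib.Helper18.WR

open Matrix

universe u

variable {F : Type u} [Field F] {n : ℕ}

theorem trace_W [Fintype F] (ψ : AddChar F ℂ)
    (hψ : ∀ d : F, (∀ c : F, ψ (c * d) = 1) → d = 0) (v : Fin n ⊕ Fin n → F) (hv : v ≠ 0) :
    LinearMap.trace ℂ ((Fin n → F) → ℂ) (W ψ v) = 0 := by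
  classical
  rw [LinearMap.trace_eq_matrix_trace ℂ (Pi.basisFun ℂ (Fin n → F)), Matrix.trace]
  simp only [Matrix.diag_apply, LinearMap.toMatrix_apply, Pi.basisFun_apply, Pi.basisFun_repr,
    W_apply]
  by_cases ha : v ∘ Sum.inl = 0
  · -- a = 0
    have hb : v ∘ Sum.inr ≠ 0 := by
      intro hb
      apply hv
      funext j
      rcases j with j | j
      · exact congrFun ha j
      · exact congrFun hb j
    obtain ⟨i, hi⟩ : ∃ i, (v ∘ Sum.inr) i ≠ 0 := by
      by_contra h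
      push Not at h
      exact hb (funext h)
    obtain ⟨c, hc⟩ : ∃ c, ψ (c * (v ∘ Sum.inr) i) ≠ 1 := by
      by_contra h
      push Not at h
      exact hi (hψ _ h)
    obtain ⟨b, hbdef⟩ : ∃ b : Fin n → F, b = v ∘ Sum.inr := ⟨_, rfl⟩
    rw [← hbdef] at hi hc ⊢
    have hterm : ∀ x : Fin n → F, ψ (b ⬝ᵥ x + 2⁻¹ * ((v ∘ Sum.inl) ⬝ᵥ b)) *
        (Pi.single x (1 : ℂ) : (Fin n → F) → ℂ) (x + v ∘ Sum.inl) = ψ (b ⬝ᵥ x) := by
      intro x
      rw [ha, zero_dotProduct, mul_zero, add_zero, add_zero, Pi.single_eq_same, mul_one]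
    rw [Finset.sum_congr rfl (fun x _ => hterm x)]
    have hshift : ∑ x : Fin n → F, ψ (b ⬝ᵥ x) = ψ (c * b i) * ∑ x : Fin n → F, ψ (b ⬝ᵥ x) := by
      rw [Finset.mul_sum]
      rw [← Equiv.sum_comp (Equiv.addRight (Pi.single i c : Fin n → F)) (fun x => ψ (b ⬝ᵥ x))]
      refine Finset.sum_congr rfl (fun x _ => ?_)
      rw [Equiv.coe_addRight, dotProduct_add, dotProduct_single, AddChar.map_add_eq_mul,
        mul_comm (b i) c, mul_comm]
    have h0 : (ψ (c * b i) - 1) * ∑ x : Fin n → F, ψ (b ⬝ᵥ x) = 0 := by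
      rw [sub_mul, one_mul, ← hshift, sub_self]
    rcases mul_eq_zero.mp h0 with h | h
    · exact absurd (sub_eq_zero.mp h) hc
    · exact h
  · apply Finset.sum_eq_zero
    intro x _
    have hne : x + v ∘ Sum.inl ≠ x := by
      intro h
      exact ha (by simpa using h)
    rw [Pi.single_eq_of_ne hne, mul_zero]

end Cfsg.Agent.Lib.Helper18.WR
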