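import Cfsg.Agent.Lib.Helper36.E8Facts
import Cfsg.Agent.Lib.Helper25.ChevLevi
import Cfsg.Agent.S1048

/-!
# S5751, piece UB4: an element of the parabolic with identity diagonal blocks lies in `U`
-/

set_option autoImplicit false

namespace Cfsg.Agent.Lib.Helper36.E8C

open Cfsg.Lie Cfsg.Agent.Lib.Helper24 Cfsg.Agent.Lib.Helper25

private theorem UB4_lv_eq : lv c0 = lvl chevE8 E8C.lev := by
  funext a
  cases a <;> rfl

private theorem UB4_graded : AddGraded chevE8 E8C.lev := addGraded_coW [c0] chevE8 hE8' 0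

/-- The Levi subgroup is block diagonal for the level. -/
private theorem UB4_levi_blkD (g : GL chevE8.Idx K2) (hg : g ∈ chevE8.leviSubgroup K2 Jn) :
    BlkD (lv c0) (g : Matrix chevE8.Idx chevE8.Idx K2) := by
  have hw := UB4_graded
  unfold ChevalleyDatum.leviSubgroup at hg
  have hdiag : ∀ h : GL chevE8.Idx K2, h ∈ chevE8.diagonalSubgroup K2 →
      BlkD (lv c0) (h : Matrix chevE8.Idx chevE8.Idx K2) := by
    intro h hh a b hab
    by_contra hne
    have hab' : a ≠ b := fun e => hne (by rw [e])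
    exact hab ((mem_dgSubgroup.1 (diagonalSubgroup_le_dg chevE8 hE8' hh)) a b hab')
  rw [← Subgroup.closure_eq (chevE8.diagonalSubgroup K2), ← Subgroup.closure_union] at hg
  refine closure_pred _
    (fun g : GL chevE8.Idx K2 => BlkD (lv c0) (g : Matrix chevE8.Idx chevE8.Idx K2))
    ?_ ?_ ?_ g hg
  · show BlkD _ ((1 : GL chevE8.Idx K2) : Matrix chevE8.Idx chevE8.Idx K2)
    rw [Units.val_one]
    exact blkD_one _
  · intro a b ha hb
    show BlkD _ ((a * b : GL chevE8.Idx K2) : Matrix chevE8.Idx chevE8.Idx K2)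
    rw [Units.val_mul]
    exact ha.mul hb
  · rintro x (hx | ⟨r, t, hr, hx⟩)
    · exact ⟨hdiag x hx, hdiag x⁻¹ (inv_mem hx)⟩
    · have h0 := lev_zero r hr
      constructor
      · show BlkD _ (x : Matrix chevE8.Idx chevE8.Idx K2)
        rw [hx, UB4_lv_eq]
        exact x_blkD chevE8 hE8 _ hw r hr.1 h0 t
      · show BlkD _ ((x⁻¹ : GL chevE8.Idx K2) : Matrix chevE8.Idx chevE8.Idx K2)
        rw [xGL_inv chevE8 hE8 r hr.1 t x hx, UB4_lv_eq]
        exact x_blkD chevE8 hE8 _ hw r hr.1 h0 (-t)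

/-- The unipotent radical is unitriangular for the level. -/
private theorem UB4_radical_upT (g : GL chevE8.Idx K2)
    (hg : g ∈ chevE8.unipotentRadical K2 Jn) :
    UpT (lv c0) 0 (g : Matrix chevE8.Idx chevE8.Idx K2) := by
  have hw := UB4_graded
  unfold ChevalleyDatum.unipotentRadical at hg
  refine closure_pred _
    (fun g : GL chevE8.Idx K2 => UpT (lv c0) 0 (g : Matrix chevE8.Idx chevE8.Idx K2))
    ?_ ?_ ?_ g hg
  · show UpT _ 0 ((1 : GL chevE8.Idx K2) : Matrix chevE8.Idx chevE8.Idx K2)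
    rw [Units.val_one]
    exact upT_one _ _
  · intro a b ha hb
    show UpT _ 0 ((a * b : GL chevE8.Idx K2) : Matrix chevE8.Idx chevE8.Idx K2)
    rw [Units.val_mul]
    exact ha.mul le_rfl hb
  · rintro x ⟨r, t, hr, hnr, hx⟩
    have hpos := lev_pos r hr hnr
    constructor
    · show UpT _ 0 (x : Matrix chevE8.Idx chevE8.Idx K2)
      rw [hx, UB4_lv_eq]
      exact x_upT chevE8 hE8 _ hw r hr 0 le_rfl hpos t
    · show UpT _ 0 ((x⁻¹ : GL chevE8.Idx K2) : Matrix chevE8.Idx chevE8.Idx K2)
      rw [xGL_inv chevE8 hE8 r hr.1 t x hx, UB4_lv_eq]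
      exact x_upT chevE8 hE8 _ hw r hr 0 le_rfl hpos (-t)

/-- an element of the parabolic with identity diagonal blocks lies in `U` -/
theorem mem_unipotent_of_blocks (g : GL chevE8.Idx K2) (hg : g ∈ Pm)
    (hd : ∀ a b, lv c0 a = lv c0 b →
      (g : Matrix chevE8.Idx chevE8.Idx K2) a b = if a = b then 1 else 0) :
    g ∈ chevE8.posUnipotent K2 := by
  obtain ⟨hnorm, hsup, -⟩ := Cfsg.Agent.S1048.result (F := K2) chevE8 hE8 Jn
  have hg' : g ∈ chevE8.unipotentRadical K2 Jn ⊔ chevE8.leviSubgroup K2 Jn := by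
    rw [hsup]
    exact hg
  have hLP : chevE8.leviSubgroup K2 Jn ≤ chevE8.parabolicSubgroup K2 Jn := by
    rw [← hsup]
    exact le_sup_right
  obtain ⟨u, hu, l, hl, e⟩ := mem_sup_of_le_normalizer _ _ (hLP.trans hnorm) g hg'
  have hU := UB4_radical_upT u hu
  have hL := UB4_levi_blkD l hl
  have hl1 : l = 1 := by
    apply Units.ext
    rw [Units.val_one]
    ext a b
    by_cases hab : lv c0 a = lv c0 b
    · have h1 : (g : Matrix chevE8.Idx chevE8.Idx K2) a b =
          (l : Matrix chevE8.Idx chevE8.Idx K2) a b := by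
        rw [e, Units.val_mul, Matrix.mul_apply, Finset.sum_eq_single a]
        · rw [hU.1 a, one_mul]
        · intro k _ hka
          by_contra hne
          have h2 : (u : Matrix chevE8.Idx chevE8.Idx K2) a k ≠ 0 := left_ne_zero_of_mul hne
          have h3 : (l : Matrix chevE8.Idx chevE8.Idx K2) k b ≠ 0 := right_ne_zero_of_mul hne
          rcases hU.2 a k h2 with h4 | h4
          · exact hka h4.symm
          · have := hL k b h3
            omega
        · intro h
          exact absurd (Finset.mem_univ a) h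
      rw [← h1, hd a b hab, Matrix.one_apply]
    · have hne : a ≠ b := fun h => hab (by rw [h])
      rw [Matrix.one_apply_ne hne]
      by_contra h
      exact hab (hL a b h)
  have hgu : g = u := by rw [e, hl1, mul_one]
  rw [hgu]
  revert hu
  unfold ChevalleyDatum.unipotentRadical ChevalleyDatum.posUnipotent
  apply Subgroup.closure_mono
  rintro x ⟨r, t, hr, -, hx⟩
  exact ⟨r, t, hr, hx⟩

end Cfsg.Agent.Lib.Helper36.E8C
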