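import Mathlib
import Cfsg.Agent.Lib.Helper44.SURegBase

/-!
# S2282, piece LEMB: adding a hyperbolic plane to a subspace all of whose isotropic vectors are
centres of transvections
-/

set_option autoImplicit false
set_option linter.unusedSimpArgs false

namespace Cfsg.Agent.Lib.Helper75.SUReg

open Matrix Cfsg.Agent.Lib.Helper7 Cfsg.Agent.Lib.Helper18 Cfsg.Agent.Lib.Helper93
  Cfsg.Agent.Lib.Helper44.SUReg

variable {F : Type*} [Field F] [Fintype F] {q n m : ℕ}

theorem su_lemB (hF : Fintype.card F = q ^ 2) {H : Subgroup (GL (Fin n) F)}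
    (hH : H ≤ Cfsg.GU n F q ⊓ Cfsg.Geo.specialLinear (Fin n) F)
    (W : Submodule F (Fin n → F)) (g g' : Fin n → F)
    (hgg : Cfsg.hermForm n F q g g = 0) (hg'g' : Cfsg.hermForm n F q g' g' = 0)
    (hgg' : Cfsg.hermForm n F q g g' = 1)
    (hWg : ∀ w ∈ W, Cfsg.hermForm n F q w g = 0) (hWg' : ∀ w ∈ W, Cfsg.hermForm n F q w g' = 0)
    (hcenW : ∀ w ∈ W, Cfsg.hermForm n F q w w = 0 → Cen q H w)
    (hcg : Cen q H g) (hcg' : Cen q H g')
    (w₁ : Fin n → F) (hw₁ : w₁ ∈ W) (hw₁0 : w₁ ≠ 0) (hlink : Cen q H (g + w₁))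
    (hT : ∀ w ∈ W, ∀ w' ∈ W, Cfsg.hermForm n F q w w = 0 → Cfsg.hermForm n F q w' w' = 0 →
      w ≠ 0 → w' ≠ 0 → ∃ A : Matrix (Fin n) (Fin n) F, MIn H A ∧ A *ᵥ w = w' ∧ A *ᵥ g = g ∧
        A *ᵥ g' = g')
    (hS : ∀ w ∈ W, Cfsg.hermForm n F q w w ≠ 0 →
      ∃ y ∈ W, Cfsg.hermForm n F q y y = 0 ∧ Cfsg.hermForm n F q y w ≠ 0) :
    ∀ w ∈ W, ∀ α β : F,
      Cfsg.hermForm n F q (w + α • g + β • g') (w + α • g + β • g') = 0 →
      Cen q H (w + α • g + β • g') := by
  have hg'g : Cfsg.hermForm n F q g' g = 1 := by rw [hf_conj hF n g g', hgg', one_pow]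
  have hgW : ∀ w ∈ W, Cfsg.hermForm n F q g w = 0 :=
    fun w hw => hf_eq_zero_symm hF n _ _ (hWg w hw)
  have hg'W : ∀ w ∈ W, Cfsg.hermForm n F q g' w = 0 :=
    fun w hw => hf_eq_zero_symm hF n _ _ (hWg' w hw)
  obtain ⟨c, hc0, hcq⟩ := exists_trace_zero_ne hF
  have hcK : c + c ^ q = 0 := by rw [hcq]; ring
  have hcq0 : c ^ q ≠ 0 := pow_ne_zero _ hc0
  have hsmul_iso : ∀ (μ : F) (w : Fin n → F), Cfsg.hermForm n F q w w = 0 →
      Cfsg.hermForm n F q (μ • w) (μ • w) = 0 := by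
    intro μ w hww
    rw [hf_smul_left, hf_smul_right, hww, mul_zero, mul_zero]
  -- the isotropy formula
  have hform : ∀ w ∈ W, ∀ α β : F,
      Cfsg.hermForm n F q (w + α • g + β • g') (w + α • g + β • g') =
        Cfsg.hermForm n F q w w + α * β ^ q + β * α ^ q := by
    intro w hw α β
    simp only [hf_add_left, hf_add_right hF, hf_smul_left, hf_smul_right, hgg, hg'g', hgg',
      hg'g, hgW w hw, hWg w hw, hg'W w hw, hWg' w hw]
    ring
  have hw₁iso : Cfsg.hermForm n F q w₁ w₁ = 0 := by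
    have h := hlink.1
    rw [hf_add_left, hf_add_right hF, hf_add_right hF, hgg, hgW w₁ hw₁, hWg w₁ hw₁] at h
    simpa using h
  -- B1
  have B1 : ∀ w ∈ W, Cfsg.hermForm n F q w w = 0 → Cen q H (g + w) := by
    intro w hw hww
    by_cases hw0 : w = 0
    · rw [hw0, add_zero]
      exact hcg
    · obtain ⟨A, hA, hAw, hAg, _⟩ := hT w₁ hw₁ w hw hw₁iso hww hw₁0 hw0
      have h := hlink.map hH hA
      rwa [Matrix.mulVec_add, hAg, hAw] at h
  have B2a : ∀ w ∈ W, Cfsg.hermForm n F q w w = 0 → ∀ α : F, Cen q H (w + α • g) := by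
    intro w hw hww α
    by_cases hα : α = 0
    · rw [hα, zero_smul, add_zero]
      exact hcenW w hw hww
    · have h1 := (B1 (α⁻¹ • w) (W.smul_mem _ hw) (hsmul_iso _ w hww)).smul hF α
      have e : α • (g + α⁻¹ • w) = w + α • g := by
        rw [smul_add, smul_smul, mul_inv_cancel₀ hα, one_smul, add_comm]
      rwa [e] at h1
  -- a centre `g' + c⁻¹ • w₁`
  have hp : Cen q H ((1 : F) • (g + w₁) + c • g') := by
    refine cen_plane hF hH hlink hcg' ?_ 1 c ?_
    · rw [hf_add_right hF, hg'g, hg'W w₁ hw₁, add_zero]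
      exact one_ne_zero
    · simp only [hf_add_left, hf_add_right hF, hf_smul_left, hf_smul_right, hgg, hg'g', hgg',
        hg'g, hgW w₁ hw₁, hWg w₁ hw₁, hg'W w₁ hw₁, hWg' w₁ hw₁, hw₁iso, one_pow]
      linear_combination hcK
  have hp2 : Cen q H ((1 : F) • ((1 : F) • (g + w₁) + c • g') + (-1 : F) • g) := by
    refine cen_plane hF hH hp hcg ?_ 1 (-1) ?_
    · simp only [hf_add_left, hf_add_right hF, hf_smul_left, hf_smul_right, hgg, hg'g', hgg',
        hg'g, hgW w₁ hw₁, hWg w₁ hw₁, hg'W w₁ hw₁, hWg' w₁ hw₁, hw₁iso, one_pow]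
      simpa using hcq0
    · have e : (1 : F) • ((1 : F) • (g + w₁) + c • g') + (-1 : F) • g = w₁ + c • g' := by
        rw [one_smul, one_smul, neg_one_smul]
        abel
      rw [e]
      simp only [hf_add_left, hf_add_right hF, hf_smul_left, hf_smul_right, hgg, hg'g', hgg',
        hg'g, hgW w₁ hw₁, hWg w₁ hw₁, hg'W w₁ hw₁, hWg' w₁ hw₁, hw₁iso]
      ring
  have hp3 : Cen q H (g' + c⁻¹ • w₁) := by
    have h := hp2.smul hF c⁻¹
    have e : c⁻¹ • ((1 : F) • ((1 : F) • (g + w₁) + c • g') + (-1 : F) • g) = g' + c⁻¹ • w₁ := by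
      rw [one_smul, one_smul, neg_one_smul]
      have : g + w₁ + c • g' + -g = w₁ + c • g' := by abel
      rw [this, smul_add, smul_smul, inv_mul_cancel₀ hc0, one_smul, add_comm]
    rwa [e] at h
  have B1' : ∀ w ∈ W, Cfsg.hermForm n F q w w = 0 → Cen q H (g' + w) := by
    intro w hw hww
    by_cases hw0 : w = 0
    · rw [hw0, add_zero]
      exact hcg'
    · obtain ⟨A, hA, hAw, _, hAg'⟩ := hT (c⁻¹ • w₁) (W.smul_mem _ hw₁) w hw
        (hsmul_iso _ w₁ hw₁iso) hww (smul_ne_zero (inv_ne_zero hc0) hw₁0) hw0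
      have h := hp3.map hH hA
      rwa [Matrix.mulVec_add, hAg', hAw] at h
  have B2b : ∀ w ∈ W, Cfsg.hermForm n F q w w = 0 → ∀ β : F, Cen q H (w + β • g') := by
    intro w hw hww β
    by_cases hβ : β = 0
    · rw [hβ, zero_smul, add_zero]
      exact hcenW w hw hww
    · have h1 := (B1' (β⁻¹ • w) (W.smul_mem _ hw) (hsmul_iso _ w hww)).smul hF β
      have e : β • (g' + β⁻¹ • w) = w + β • g' := by
        rw [smul_add, smul_smul, mul_inv_cancel₀ hβ, one_smul, add_comm]
      rwa [e] at h1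
  intro w hw α β hiso
  by_cases hww : Cfsg.hermForm n F q w w = 0
  · -- B2
    have hαβ : α * β ^ q + β * α ^ q = 0 := by
      rw [hform w hw, hww] at hiso
      linear_combination hiso
    by_cases hβ : β = 0
    · rw [hβ, zero_smul, add_zero]
      exact B2a w hw hww α
    by_cases hα : α = 0
    · rw [hα, zero_smul, add_zero]
      exact B2b w hw hww β
    have h := cen_plane hF hH (B2a w hw hww α) hcg' ?_ 1 β ?_
    · rwa [one_smul] at h
    · rw [hf_add_right hF, hg'W w hw, hf_smul_right, hg'g, zero_add, mul_one]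
      exact pow_ne_zero _ hα
    · rw [one_smul]
      exact hiso
  · -- B3
    obtain ⟨y₀, hy₀, hy₀iso, hy₀w⟩ := hS w hw hww
    have hsum : Cfsg.hermForm n F q w w + α * β ^ q + β * α ^ q = 0 := by
      rw [← hform w hw]
      exact hiso
    obtain ⟨τ, hτ⟩ : ∃ τ : F, τ = -(α * β ^ q) + c := ⟨_, rfl⟩
    have hτq : τ ^ q = -(α ^ q * β) + c ^ q := by
      rw [hτ, herm_add_pow hF, herm_neg_pow hF, mul_pow, herm_pow_pow hF]
    obtain ⟨u, hu⟩ : ∃ u : Fin n → F, u = (τ / Cfsg.hermForm n F q y₀ w) • y₀ := ⟨_, rfl⟩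
    have huW : u ∈ W := by rw [hu]; exact W.smul_mem _ hy₀
    have huiso : Cfsg.hermForm n F q u u = 0 := by rw [hu]; exact hsmul_iso _ y₀ hy₀iso
    have huw : Cfsg.hermForm n F q u w = τ := by
      rw [hu, hf_smul_left, div_mul_cancel₀ _ hy₀w]
    have hwu : Cfsg.hermForm n F q w u = τ ^ q := by rw [hf_conj hF n u w, huw]
    have hvW : w - u ∈ W := W.sub_mem hw huW
    have hviso : Cfsg.hermForm n F q (w - u) (w - u) = 0 := by
      rw [hf_sub_left, hf_sub_right hF, hf_sub_right hF, huw, hwu, huiso, hτq, hτ]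
      linear_combination hsum - hcK
    have hx := B2a u huW huiso α
    have hy := B2b (w - u) hvW hviso β
    have h := cen_plane hF hH hx hy ?_ 1 1 ?_
    · have e : (1 : F) • (u + α • g) + (1 : F) • (w - u + β • g') = w + α • g + β • g' := by
        rw [one_smul, one_smul]
        abel
      rwa [e] at h
    · simp only [hf_add_left, hf_add_right hF, hf_smul_left, hf_smul_right, hf_sub_left,
        hf_sub_right hF, hgg, hg'g', hgg', hg'g, hgW u huW, hWg u huW, hg'W u huW, hWg' u huW,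
        hgW w hw, hWg w hw, hg'W w hw, hWg' w hw, hwu, huiso]
      rw [hτq]
      intro hcon
      apply hcq0
      linear_combination hcon
    · have e : (1 : F) • (u + α • g) + (1 : F) • (w - u + β • g') = w + α • g + β • g' := by
        rw [one_smul, one_smul]
        abel
      rw [e]
      exact hiso

end Cfsg.Agent.Lib.Helper75.SUReg
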