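import Mathlib
import Cfsg.Agent.Lib.Helper44.SURegBase

/-!
# S2282, piece UDEF: the regular unipotent element `U = X * S_{m-2} * ... * S_0`
-/

set_option autoImplicit false

namespace Cfsg.Agent.Lib.Helper75.SUReg

open Matrix Cfsg.Agent.Lib.Helper7 Cfsg.Agent.Lib.Helper18 Cfsg.Agent.Lib.Helper93
  Cfsg.Agent.Lib.Helper44.SUReg

variable {F : Type*} [Field F] [Fintype F] {q n m : ℕ}

/-- The factor `S_k = heis(e_k, -f_{k+1}, 0)`. -/
noncomputable def sMat (q n : ℕ) (e f : ℕ → Fin n → F) (k : ℕ) : Matrix (Fin n) (Fin n) F :=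
  heis q n (e k) (-(f (k + 1))) 0

/-- The partial products `R_k = S_{k-1} * ... * S_0`. -/
noncomputable def rMat (q n : ℕ) (e f : ℕ → Fin n → F) : ℕ → Matrix (Fin n) (Fin n) F
  | 0 => 1
  | k + 1 => sMat q n e f k * rMat q n e f k

theorem sMat_mulVec (hF : Fintype.card F = q ^ 2) (e f : ℕ → Fin n → F) (k : ℕ)
    (x : Fin n → F) :
    sMat q n e f k *ᵥ x = x - Cfsg.hermForm n F q x (e k) • f (k + 1) +
      Cfsg.hermForm n F q x (f (k + 1)) • e k := by
  unfold sMat
  rw [heis_mulVec, hf_neg_right hF, zero_mul, zero_sub, neg_neg, smul_neg, sub_eq_add_neg]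

section
variable {e f : ℕ → Fin n → F} {d : Fin n → F}

theorem sMat_e (hF : Fintype.card F = q ^ 2) (fr : WFr q n m e f d) (k : ℕ) (hk : k + 1 < m)
    (i : ℕ) (hi : i < m) :
    sMat q n e f k *ᵥ e i = if i = k + 1 then e i + e k else e i := by
  rw [sMat_mulVec hF, fr.ee i k hi (by omega), fr.ef i (k + 1) hi hk, zero_smul, sub_zero]
  by_cases h : i = k + 1
  · rw [if_pos h, if_pos h, one_smul]
  · rw [if_neg h, if_neg h, zero_smul, add_zero]

theorem sMat_d (hF : Fintype.card F = q ^ 2) (fr : WFr q n m e f d) (k : ℕ) (hk : k + 1 < m) :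
    sMat q n e f k *ᵥ d = d := by
  rw [sMat_mulVec hF, fr.de k (by omega), fr.df (k + 1) hk, zero_smul, zero_smul, sub_zero,
    add_zero]

theorem sMat_f (hF : Fintype.card F = q ^ 2) (fr : WFr q n m e f d) (k : ℕ) (hk : k + 1 < m)
    (i : ℕ) (hi : i < m) :
    sMat q n e f k *ᵥ f i = if i = k then f i - f (k + 1) else f i := by
  rw [sMat_mulVec hF, fr.fe hF i k hi (by omega), fr.ff i (k + 1) hi hk, zero_smul, add_zero]
  by_cases h : i = k
  · rw [if_pos h, if_pos h, one_smul]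
  · rw [if_neg h, if_neg h, zero_smul, sub_zero]

theorem sMat_pres (hF : Fintype.card F = q ^ 2) (fr : WFr q n m e f d) (k : ℕ)
    (hk : k + 1 < m) : suPres q n (sMat q n e f k) := by
  intro u v
  unfold sMat
  apply heis_preserves hF n _ _ _ (fr.ee k k (by omega) (by omega))
  · rw [hf_neg_left, fr.fe hF (k + 1) k hk (by omega), if_neg (by omega), neg_zero]
  · rw [hf_neg_left, hf_neg_right hF, fr.ff (k + 1) (k + 1) hk hk,
      zero_pow (herm_q_ne_zero hF)]
    simp

theorem sMat_det (hF : Fintype.card F = q ^ 2) (fr : WFr q n m e f d) (k : ℕ)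
    (hk : k + 1 < m) : (sMat q n e f k).det = 1 := by
  unfold sMat
  apply heis_det hF n _ _ _ (fr.ee k k (by omega) (by omega))
  rw [hf_neg_left, fr.fe hF (k + 1) k hk (by omega), if_neg (by omega), neg_zero]

theorem rMat_spec (hF : Fintype.card F = q ^ 2) (fr : WFr q n m e f d) (k : ℕ)
    (hk : k + 1 ≤ m) :
    (rMat q n e f k).det = 1 ∧ suPres q n (rMat q n e f k) ∧ rMat q n e f k *ᵥ e 0 = e 0 ∧
    (∀ j, j + 1 < m →
      rMat q n e f k *ᵥ e (j + 1) = if j < k then e (j + 1) + e j else e (j + 1)) ∧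
    rMat q n e f k *ᵥ d = d ∧
    (∀ j, j < m → k ≤ j → rMat q n e f k *ᵥ f j = f j) ∧
    (∀ j, j < k → rMat q n e f k *ᵥ (f j + f (j + 1)) = f j) := by
  induction k with
  | zero =>
    refine ⟨Matrix.det_one, suPres_one n, Matrix.one_mulVec _, ?_, Matrix.one_mulVec _, ?_, ?_⟩
    · intro j _
      rw [if_neg (Nat.not_lt_zero j)]
      exact Matrix.one_mulVec _
    · intro j _ _
      exact Matrix.one_mulVec _
    · intro j hj
      exact absurd hj (Nat.not_lt_zero j)
  | succ k ih =>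
    obtain ⟨hdet, hpres, he0, he, hd, hf, hff⟩ := ih (by omega)
    have hk' : k + 1 < m := by omega
    have hR : rMat q n e f (k + 1) = sMat q n e f k * rMat q n e f k := rfl
    rw [hR]
    refine ⟨?_, suPres_mul (sMat_pres hF fr k hk') hpres, ?_, ?_, ?_, ?_, ?_⟩
    · rw [Matrix.det_mul, sMat_det hF fr k hk', hdet, one_mul]
    · rw [← Matrix.mulVec_mulVec, he0, sMat_e hF fr k hk' 0 (by omega), if_neg (by omega)]
    · intro j hj
      rw [← Matrix.mulVec_mulVec, he j hj]
      by_cases h1 : j < k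
      · rw [if_pos h1, Matrix.mulVec_add, sMat_e hF fr k hk' (j + 1) hj, if_neg (by omega),
          sMat_e hF fr k hk' j (by omega), if_neg (by omega), if_pos (by omega)]
      · rw [if_neg h1]
        by_cases h2 : j = k
        · subst h2
          rw [sMat_e hF fr j hk' (j + 1) hj, if_pos rfl, if_pos (by omega)]
        · rw [sMat_e hF fr k hk' (j + 1) hj, if_neg (by omega), if_neg (by omega)]
    · rw [← Matrix.mulVec_mulVec, hd, sMat_d hF fr k hk']
    · intro j hj hkj
      rw [← Matrix.mulVec_mulVec, hf j hj (by omega), sMat_f hF fr k hk' j hj, if_neg (by omega)]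
    · intro j hj
      by_cases h1 : j < k
      · rw [← Matrix.mulVec_mulVec, hff j h1, sMat_f hF fr k hk' j (by omega), if_neg (by omega)]
      · have h2 : j = k := by omega
        subst h2
        rw [← Matrix.mulVec_mulVec, Matrix.mulVec_add, hf j (by omega) le_rfl,
          hf (j + 1) hk' (by omega), Matrix.mulVec_add, sMat_f hF fr j hk' j (by omega),
          if_pos rfl, sMat_f hF fr j hk' (j + 1) hk', if_neg (by omega), sub_add_cancel]

/-- The last factor `X = heis(e_{m-1}, -a^q d, b)`. -/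
noncomputable def xMat (q n m : ℕ) (e : ℕ → Fin n → F) (d : Fin n → F) (a b : F) :
    Matrix (Fin n) (Fin n) F :=
  heis q n (e (m - 1)) ((-(a ^ q)) • d) b

theorem xMat_mulVec (hF : Fintype.card F = q ^ 2) (e : ℕ → Fin n → F) (d : Fin n → F) (a b : F)
    (x : Fin n → F) :
    xMat q n m e d a b *ᵥ x = x + Cfsg.hermForm n F q x (e (m - 1)) • ((-(a ^ q)) • d) +
      (b * Cfsg.hermForm n F q x (e (m - 1)) + a * Cfsg.hermForm n F q x d) • e (m - 1) := by
  unfold xMat
  rw [heis_mulVec, hf_smul_right, herm_neg_pow hF, herm_pow_pow hF, neg_mul, sub_neg_eq_add]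

end

/-- Piece UDEF of S2282: the regular unipotent element. -/
theorem su_udef (hF : Fintype.card F = q ^ 2) {e f : ℕ → Fin n → F} {d : Fin n → F}
    (fr : WFr q n m e f d) (hm : 1 ≤ m) (a b : F) (hb : b + b ^ q + a ^ (q + 1) = 0) :
    ∃ U : Matrix (Fin n) (Fin n) F, U.det = 1 ∧ suPres q n U ∧ U *ᵥ e 0 = e 0 ∧
      (∀ k, k + 1 < m → U *ᵥ e (k + 1) = e (k + 1) + e k) ∧
      U *ᵥ d = d + a • e (m - 1) ∧
      U *ᵥ f (m - 1) = f (m - 1) - a ^ q • d + b • e (m - 1) ∧
      ∀ k, k + 1 < m → U *ᵥ (f k + f (k + 1)) = f k := by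
  obtain ⟨hdet, hpres, he0, he, hd, hf, hff⟩ := rMat_spec hF fr (m - 1) (by omega)
  have hm1 : m - 1 < m := by omega
  have hee := fr.ee (m - 1) (m - 1) hm1 hm1
  have hwe : Cfsg.hermForm n F q ((-(a ^ q)) • d) (e (m - 1)) = 0 := by
    rw [hf_smul_left, fr.de (m - 1) hm1, mul_zero]
  have hXe : ∀ i, i < m → xMat q n m e d a b *ᵥ e i = e i := by
    intro i hi
    rw [xMat_mulVec hF, fr.ee i (m - 1) hi hm1, fr.ed hF i hi, zero_smul, mul_zero, mul_zero,
      add_zero, add_zero, zero_smul, add_zero]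
  have hXf : ∀ i, i < m → i ≠ m - 1 → xMat q n m e d a b *ᵥ f i = f i := by
    intro i hi hne
    rw [xMat_mulVec hF, fr.fe hF i (m - 1) hi hm1, if_neg hne, fr.fd hF i hi, zero_smul,
      mul_zero, mul_zero, add_zero, add_zero, zero_smul, add_zero]
  refine ⟨xMat q n m e d a b * rMat q n e f (m - 1), ?_, ?_, ?_, ?_, ?_, ?_, ?_⟩
  · rw [Matrix.det_mul, hdet, mul_one]
    unfold xMat
    exact heis_det hF n _ _ _ hee hwe
  · refine suPres_mul ?_ hpres
    intro u v
    unfold xMat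
    apply heis_preserves hF n _ _ _ hee hwe
    rw [hf_smul_left, hf_smul_right, fr.dd, herm_neg_pow hF, herm_pow_pow hF]
    linear_combination hb
  · rw [← Matrix.mulVec_mulVec, he0, hXe 0 (by omega)]
  · intro k hk
    rw [← Matrix.mulVec_mulVec, he k hk, if_pos (by omega), Matrix.mulVec_add,
      hXe (k + 1) hk, hXe k (by omega)]
  · rw [← Matrix.mulVec_mulVec, hd, xMat_mulVec hF, fr.de (m - 1) hm1, fr.dd, zero_smul,
      mul_zero, zero_add, mul_one, add_zero]
  · rw [← Matrix.mulVec_mulVec, hf (m - 1) hm1 le_rfl, xMat_mulVec hF,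
      fr.fe hF (m - 1) (m - 1) hm1 hm1, if_pos rfl, fr.fd hF (m - 1) hm1, one_smul, mul_one,
      mul_zero, add_zero, neg_smul, sub_eq_add_neg]
  · intro k hk
    rw [← Matrix.mulVec_mulVec, hff k (by omega), hXf k (by omega) (by omega)]

end Cfsg.Agent.Lib.Helper75.SUReg
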