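import Cfsg.Agent.Lib.Helper46.BSW0
import Cfsg.Agent.Lib.Helper62.Cent4B

/-!
# Brauer–Suzuki–Wall, piece K2: the case `|K| = 2`
-/

set_option autoImplicit false

namespace Cfsg.Agent.Lib.Helper75.BSWK2

open Cfsg Cfsg.Agent.Lib.Helper4 Cfsg.Agent.Lib.Helper46.BSW

universe u

variable {G : Type u} [Group G]

/-- the elements of the group generated by an involution -/
theorem zp_two (v : G) (hv : v * v = 1) (x : G) (hx : x ∈ Subgroup.zpowers v) :
    x = 1 ∨ x = v := by
  obtain ⟨k, hk⟩ := hx
  have hk' : v ^ k = x := hk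
  rw [← hk']
  obtain ⟨m, rfl | rfl⟩ := Int.even_or_odd' k
  · left
    rw [zpow_mul, zpow_two, hv, one_zpow]
  · right
    rw [zpow_add_one, zpow_mul, zpow_two, hv, one_zpow, one_mul]

theorem sq_of_order (v : G) (hv : orderOf v = 2) : v * v = 1 ∧ v ≠ 1 := by
  refine ⟨?_, ?_⟩
  · rw [← pow_two, ← hv, pow_orderOf_eq_one]
  · intro h
    rw [h, orderOf_one] at hv
    omega

theorem order_two (v : G) (hv : v * v = 1) (hv1 : v ≠ 1) : orderOf v = 2 :=
  orderOf_eq_prime (by rw [pow_two, hv]) hv1

theorem conj_invol {t g : G} (ht : t * t = 1) (ht1 : t ≠ 1) (h : IsConj t g) :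
    g * g = 1 ∧ g ≠ 1 := by
  obtain ⟨c, hc⟩ := isConj_iff.1 h
  rw [← hc]
  refine ⟨?_, ?_⟩
  · calc c * t * c⁻¹ * (c * t * c⁻¹) = c * (t * t) * c⁻¹ := by group
      _ = 1 := by rw [ht]; group
  · intro e
    exact ht1 (conj_eq_one_iff.1 e)

/-- two distinct commuting involutions -/
structure Four (t s : G) : Prop where
  ht : t * t = 1
  hs : s * s = 1
  hst : s * t = t * s
  ht1 : t ≠ 1
  hs1 : s ≠ 1
  hne : s ≠ t

theorem Four.ts_sq {t s : G} (h : Four t s) : t * s * (t * s) = 1 := by
  rw [mul_assoc, ← mul_assoc s, h.hst, mul_assoc, h.hs, mul_one, h.ht]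

theorem Four.ts_ne {t s : G} (h : Four t s) : t * s ≠ 1 := by
  intro e
  have h1 : t = s⁻¹ := eq_inv_of_mul_eq_one_left e
  rw [inv_eq_of_mul_eq_one_left h.hs] at h1
  exact h.hne h1.symm

/-- the four-group `{1, t, s, ts}` -/
def fourGroup (t s : G) (h : Four t s) : Subgroup G where
  carrier := {1, t, s, t * s}
  mul_mem' := by
    have htt : ∀ x, t * (t * x) = x := fun x => by rw [← mul_assoc, h.ht, one_mul]
    have hst' : ∀ x, s * (t * x) = t * (s * x) := fun x => by
      rw [← mul_assoc, h.hst, mul_assoc]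
    rintro a b (ea | ea | ea | ea) (eb | eb | eb | eb) <;> rw [ea, eb] <;>
      simp [mul_assoc, h.ht, h.hs, h.hst, htt, hst']
  one_mem' := by simp
  inv_mem' := by
    rintro a (ea | ea | ea | ea) <;> rw [ea]
    · simp
    · have e : t⁻¹ = t := inv_eq_of_mul_eq_one_left h.ht
      rw [e]
      simp
    · have e : s⁻¹ = s := inv_eq_of_mul_eq_one_left h.hs
      rw [e]
      simp
    · have e : (t * s)⁻¹ = t * s := inv_eq_of_mul_eq_one_left h.ts_sq
      rw [e]
      simp

theorem mem_four (t s : G) (h : Four t s) (x : G) :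
    x ∈ fourGroup t s h ↔ x = 1 ∨ x = t ∨ x = s ∨ x = t * s := Iff.rfl

theorem card_four (t s : G) (h : Four t s) : Nat.card (fourGroup t s h) = 4 := by
  have e : ((fourGroup t s h : Subgroup G) : Set G) = {1, t, s, t * s} := rfl
  show Nat.card ((fourGroup t s h : Subgroup G) : Set G) = 4
  rw [Nat.card_coe_set_eq, e]
  have h3 : s ∉ ({t * s} : Set G) := by
    rw [Set.mem_singleton_iff]
    intro e'
    apply h.ht1
    have := congrArg (fun w => w * s⁻¹) e'
    simpa using this.symm
  have h2 : t ∉ ({s, t * s} : Set G) := by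
    rw [Set.mem_insert_iff, Set.mem_singleton_iff]
    rintro (e' | e')
    · exact h.hne e'.symm
    · apply h.hs1
      have := congrArg (fun w => t⁻¹ * w) e'
      simpa using this.symm
  have h1 : (1 : G) ∉ ({t, s, t * s} : Set G) := by
    rw [Set.mem_insert_iff, Set.mem_insert_iff, Set.mem_singleton_iff]
    rintro (e' | e' | e')
    · exact h.ht1 e'.symm
    · exact h.hs1 e'.symm
    · exact h.ts_ne e'.symm
  rw [Set.ncard_insert_of_notMem h1, Set.ncard_insert_of_notMem h2, Set.ncard_insert_of_notMem h3,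
    Set.ncard_singleton]

variable {t s : G} {K : Subgroup G}

theorem four_of_setup (h : Setup t s K) : Four t s := by
  obtain ⟨ht2, ht1⟩ := sq_of_order t h.ht
  obtain ⟨hs2, hs1⟩ := sq_of_order s h.hs
  refine ⟨ht2, hs2, ?_, ht1, hs1, ?_⟩
  · have h1 := h.hsH
    rw [Subgroup.mem_centralizer_iff] at h1
    exact (h1 t rfl).symm
  · intro e
    exact h.hsK (e ▸ h.htK)

theorem cent_eq_four [Finite G] (h : Setup t s K) (hk : Nat.card K = 2) (hF : Four t s) :
    Subgroup.centralizer ({t} : Set G) = fourGroup t s hF := by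
  apply le_antisymm
  · rw [← h.hH]
    apply sup_le
    · have hK : K = Subgroup.zpowers t := by
        symm
        apply Subgroup.eq_of_le_of_card_ge
        · rw [Subgroup.zpowers_le]
          exact h.htK
        · rw [hk, Nat.card_zpowers, h.ht]
      intro x hx
      rw [hK] at hx
      rcases zp_two t hF.ht x hx with e | e
      · rw [e]
        exact Subgroup.one_mem _
      · exact Or.inr (Or.inl e)
    · intro x hx
      rcases zp_two s hF.hs x hx with e | e
      · rw [e]
        exact Subgroup.one_mem _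
      · exact Or.inr (Or.inr (Or.inl e))
  · intro x hx
    rw [Subgroup.mem_centralizer_iff]
    intro y hy
    rw [Set.mem_singleton_iff] at hy
    rw [hy]
    rcases hx with e | e | e | e
    · rw [e, mul_one, one_mul]
    · rw [e]
    · rw [e]
      exact hF.hst.symm
    · rw [e, mul_assoc, hF.hst]

/-- an element commuting with an involution has square one -/
theorem comm_invol [Finite G] (h : Setup t s K) (hk : Nat.card K = 2)
    (v x : G) (hv : orderOf v = 2) (hxv : x * v = v * x) : x * x = 1 := by
  have hF := four_of_setup h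
  obtain ⟨g, hg⟩ := isConj_iff.1 (h.hconj t v h.ht hv)
  have hy : g⁻¹ * x * g ∈ Subgroup.centralizer ({t} : Set G) := by
    rw [Subgroup.mem_centralizer_iff]
    intro y hy
    rw [Set.mem_singleton_iff] at hy
    have ht' : y = g⁻¹ * v * g := by
      rw [hy, ← hg]
      group
    rw [ht']
    calc g⁻¹ * v * g * (g⁻¹ * x * g) = g⁻¹ * (v * x) * g := by group
      _ = g⁻¹ * (x * v) * g := by rw [hxv]
      _ = g⁻¹ * x * g * (g⁻¹ * v * g) := by group
  rw [cent_eq_four h hk hF] at hy
  have hyy : (g⁻¹ * x * g) * (g⁻¹ * x * g) = 1 := by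
    rcases hy with e | e | e | e <;> rw [e]
    · rw [mul_one]
    · exact hF.ht
    · exact hF.hs
    · exact hF.ts_sq
  calc x * x = g * ((g⁻¹ * x * g) * (g⁻¹ * x * g)) * g⁻¹ := by group
    _ = 1 := by rw [hyy]; group

open scoped Classical in
theorem count_two [Fintype G] (h : Setup t s K) (hk : Nat.card K = 2) :
    (Finset.univ.filter (fun g : G => IsConj t g ∧ IsConj t (g⁻¹ * t⁻¹))).card = 2 := by
  have hF := four_of_setup h
  have hsinv : s⁻¹ = s := inv_eq_of_mul_eq_one_left hF.hs
  have htinv : t⁻¹ = t := inv_eq_of_mul_eq_one_left hF.ht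
  have hset : Finset.univ.filter (fun g : G => IsConj t g ∧ IsConj t (g⁻¹ * t⁻¹)) =
      {s, t * s} := by
    ext g
    simp only [Finset.mem_filter, Finset.mem_univ, true_and, Finset.mem_insert,
      Finset.mem_singleton]
    constructor
    · rintro ⟨h1, h2⟩
      obtain ⟨hg2, hg1⟩ := conj_invol hF.ht hF.ht1 h1
      obtain ⟨hgt2, hgt1⟩ := conj_invol hF.ht hF.ht1 h2
      have hginv : g⁻¹ = g := inv_eq_of_mul_eq_one_left hg2
      rw [hginv, htinv] at hgt2 hgt1
      have hcomm : t * g = g * t := by
        have h3 : (g * t)⁻¹ = g * t := inv_eq_of_mul_eq_one_left hgt2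
        rw [mul_inv_rev, hginv, htinv] at h3
        exact h3
      have hmem : g ∈ Subgroup.centralizer ({t} : Set G) := by
        rw [Subgroup.mem_centralizer_iff]
        intro y hy
        rw [Set.mem_singleton_iff] at hy
        rw [hy]
        exact hcomm
      rw [cent_eq_four h hk hF] at hmem
      rcases hmem with e | e | e | e
      · exact absurd e hg1
      · exfalso
        apply hgt1
        rw [e, hF.ht]
      · exact Or.inl e
      · exact Or.inr e
    · rintro (e | e)
      · rw [e]
        refine ⟨h.hconj t s h.ht h.hs, h.hconj _ _ h.ht (order_two _ ?_ ?_)⟩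
        · rw [hsinv, htinv, hF.hst]
          exact hF.ts_sq
        · rw [hsinv, htinv, hF.hst]
          exact hF.ts_ne
      · rw [e]
        have e2 : (t * s)⁻¹ * t⁻¹ = s := by
          rw [mul_inv_rev, hsinv, htinv, mul_assoc, hF.ht, mul_one]
        refine ⟨h.hconj t _ h.ht (order_two _ hF.ts_sq hF.ts_ne), ?_⟩
        rw [e2]
        exact h.hconj t s h.ht h.hs
  rw [hset, Finset.card_pair]
  intro e
  apply hF.ht1
  have := congrArg (fun w => w * s⁻¹) e
  simpa using this.symm

/-- an involution normalizing a group of prime order centralizes or inverts it -/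
theorem conj_prime (x v : G) (p : ℕ) (hp : p.Prime) (hx : orderOf x = p) (hv2 : v * v = 1)
    (hvx : v * x * v⁻¹ ∈ Subgroup.zpowers x) : v * x * v⁻¹ = x ∨ v * x * v⁻¹ = x⁻¹ := by
  obtain ⟨a, ha⟩ := hvx
  have hvinv : v⁻¹ = v := inv_eq_of_mul_eq_one_left hv2
  have h1 : x ^ (a * a) = x := by
    have ha' : x ^ a = v * x * v⁻¹ := ha
    rw [zpow_mul, ha', conj_zpow, ha', hvinv]
    calc v * (v * x * v) * v = (v * v) * x * (v * v) := by group
      _ = x := by rw [hv2, one_mul, mul_one]
  have h2 : x ^ (a * a - 1) = 1 := by rw [zpow_sub, h1, zpow_one, mul_inv_cancel]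
  have h3 : (p : ℤ) ∣ a * a - 1 := by
    rw [← hx]
    exact orderOf_dvd_iff_zpow_eq_one.2 h2
  have h4 : (p : ℤ) ∣ (a - 1) * (a + 1) := by
    have e : (a - 1) * (a + 1) = a * a - 1 := by ring
    rw [e]
    exact h3
  have ha' : x ^ a = v * x * v⁻¹ := ha
  rcases (Nat.prime_iff_prime_int.1 hp).dvd_or_dvd h4 with h5 | h5
  · left
    rw [← ha']
    have h6 : x ^ (a - 1) = 1 := orderOf_dvd_iff_zpow_eq_one.1 (hx ▸ h5)
    have e : x ^ a = x ^ (a - 1) * x := by rw [← zpow_add_one, sub_add_cancel]
    rw [e, h6, one_mul]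
  · right
    rw [← ha']
    have h6 : x ^ (a + 1) = 1 := orderOf_dvd_iff_zpow_eq_one.1 (hx ▸ h5)
    rw [zpow_add_one] at h6
    exact eq_inv_of_mul_eq_one_left h6

/-- the four-group `C(t)` cannot normalize a group of odd prime order -/
theorem no_klein [Finite G] (h : Setup t s K) (hk : Nat.card K = 2)
    (x : G) (p : ℕ) (hp : p.Prime) (hp2 : p ≠ 2) (hx : orderOf x = p)
    (htx : t * x * t⁻¹ ∈ Subgroup.zpowers x) (hsx : s * x * s⁻¹ ∈ Subgroup.zpowers x) :
    False := by
  have hF := four_of_setup h
  have hxx : x * x ≠ 1 := by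
    intro e
    have h1 : orderOf x ∣ 2 := orderOf_dvd_of_pow_eq_one (by rw [pow_two, e])
    rw [hx] at h1
    rcases (Nat.dvd_prime Nat.prime_two).1 h1 with h2 | h2
    · exact hp.one_lt.ne' h2
    · exact hp2 h2
  have key : ∀ v : G, orderOf v = 2 → v * x * v⁻¹ ∈ Subgroup.zpowers x →
      v * x * v⁻¹ = x⁻¹ := by
    intro v hv hvx
    rcases conj_prime x v p hp hx (sq_of_order v hv).1 hvx with e | e
    · exfalso
      apply hxx
      apply comm_invol h hk v x hv
      have h1 : v * x = x * v := by
        calc v * x = (v * x * v⁻¹) * v := by group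
          _ = x * v := by rw [e]
      exact h1.symm
    · exact e
  have h1 := key t h.ht htx
  have h2 := key s h.hs hsx
  have h3 : (t * s) * x * (t * s)⁻¹ = x := by
    calc (t * s) * x * (t * s)⁻¹ = t * (s * x * s⁻¹) * t⁻¹ := by group
      _ = t * x⁻¹ * t⁻¹ := by rw [h2]
      _ = (t * x * t⁻¹)⁻¹ := by group
      _ = x := by rw [h1, inv_inv]
  have hts : orderOf (t * s) = 2 := order_two _ hF.ts_sq hF.ts_ne
  apply hxx
  apply comm_invol h hk (t * s) x hts
  calc x * (t * s) = ((t * s) * x * (t * s)⁻¹) * (t * s) := by rw [h3]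
    _ = (t * s) * x := by group

theorem sylow_card_prime [Finite G] (p m : ℕ) [Fact p.Prime] (hG : Nat.card G = p * m)
    (hm : ¬ p ∣ m) (Q : Sylow p G) : Nat.card Q = p := by
  have hp : p.Prime := Fact.out
  obtain ⟨k, hk⟩ := IsPGroup.iff_card.1 Q.isPGroup'
  have h1 : Nat.card Q * (Q : Subgroup G).index = p * m := by
    rw [Subgroup.card_mul_index, hG]
  have h2 : ¬ p ∣ (Q : Subgroup G).index := Q.not_dvd_index
  rw [hk] at h1 ⊢
  rcases k with _ | _ | k
  · exfalso
    apply h2
    rw [pow_zero, one_mul] at h1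
    rw [h1]
    exact dvd_mul_right p m
  · rw [zero_add, pow_one]
  · exfalso
    apply hm
    have h3 : p * (p ^ (k + 1) * (Q : Subgroup G).index) = p * m := by
      rw [← h1]
      ring
    have h4 := Nat.eq_of_mul_eq_mul_left hp.pos h3
    rw [← h4]
    exact Dvd.dvd.mul_right (dvd_pow_self p (by omega)) _

/-- the Sylow analysis common to the orders `12` and `60` -/
theorem sylow_main [Finite G] (h : Setup t s K) (hk : Nat.card K = 2)
    (p m r : ℕ) [Fact p.Prime] (hp2 : p ≠ 2) (hG : Nat.card G = p * m) (hm : ¬ p ∣ m)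
    (hidx : ∀ d, d ∣ m → d % p = 1 → d = 1 ∨ d * r = m) (hr : r = 1 ∨ r = 2)
    (Q : Sylow p G) :
    Nat.card Q = p ∧ Nat.card (Subgroup.normalizer ((Q : Subgroup G) : Set G)) = p * r ∧
    (∀ x ∈ Q, x ≠ 1 → Subgroup.centralizer ({x} : Set G) = Q) := by
  have hp : p.Prime := Fact.out
  have hQ := sylow_card_prime p m hG hm Q
  have hgen : ∀ x ∈ Q, x ≠ 1 → orderOf x = p ∧ Subgroup.zpowers x = Q := by
    intro x hx hx1
    have h1 : orderOf x ∣ p := by
      rw [← hQ]
      have h2 := orderOf_dvd_natCard (⟨x, hx⟩ : (Q : Subgroup G))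
      rwa [Subgroup.orderOf_mk] at h2
    have h2 : orderOf x = p := by
      rcases (Nat.dvd_prime hp).1 h1 with e | e
      · exact absurd (orderOf_eq_one_iff.1 e) hx1
      · exact e
    refine ⟨h2, Subgroup.eq_of_le_of_card_ge ?_ ?_⟩
    · rw [Subgroup.zpowers_le]
      exact hx
    · rw [Nat.card_zpowers, h2, hQ]
  have hex : ∃ x ∈ Q, x ≠ 1 := by
    by_contra hcon
    push Not at hcon
    have h1 : (Q : Subgroup G) = ⊥ := (Subgroup.eq_bot_iff_forall _).2 hcon
    rw [h1, Subgroup.card_bot] at hQ
    exact hp.one_lt.ne hQ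
  obtain ⟨x0, hx0, hx01⟩ := hex
  have hN : (Subgroup.normalizer ((Q : Subgroup G) : Set G)).index * r = m := by
    have h1 : Nat.card (Sylow p G) = (Subgroup.normalizer ((Q : Subgroup G) : Set G)).index :=
      Sylow.card_eq_index_normalizer Q
    have h2 : Nat.card (Sylow p G) ≡ 1 [MOD p] := card_sylow_modEq_one p G
    have h3 : (Subgroup.normalizer ((Q : Subgroup G) : Set G)).index ∣ m := by
      have h4 : (Subgroup.normalizer ((Q : Subgroup G) : Set G)).index ∣ (Q : Subgroup G).index :=
        Subgroup.index_dvd_of_le Subgroup.le_normalizer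
      have h5 : (Q : Subgroup G).index = m := by
        have h6 := Subgroup.card_mul_index (Q : Subgroup G)
        rw [hQ, hG] at h6
        exact Nat.eq_of_mul_eq_mul_left hp.pos h6
      rwa [h5] at h4
    have h7 : (Subgroup.normalizer ((Q : Subgroup G) : Set G)).index % p = 1 := by
      rw [← h1]
      have h8 := h2
      rw [Nat.ModEq, Nat.mod_eq_of_lt hp.one_lt] at h8
      exact h8
    rcases hidx _ h3 h7 with e | e
    · exfalso
      have htop : Subgroup.normalizer ((Q : Subgroup G) : Set G) = ⊤ := Subgroup.index_eq_one.1 e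
      have hnorm : ∀ g : G, g * x0 * g⁻¹ ∈ Subgroup.zpowers x0 := by
        intro g
        rw [(hgen x0 hx0 hx01).2]
        have hg : g ∈ Subgroup.normalizer ((Q : Subgroup G) : Set G) := by
          rw [htop]
          trivial
        exact (Subgroup.mem_normalizer_iff.1 hg x0).1 hx0
      exact no_klein h hk x0 p hp hp2 (hgen x0 hx0 hx01).1 (hnorm t) (hnorm s)
    · exact e
  have hNcard : Nat.card (Subgroup.normalizer ((Q : Subgroup G) : Set G)) = p * r := by
    have h1 := Subgroup.card_mul_index (Subgroup.normalizer ((Q : Subgroup G) : Set G))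
    rw [hG, ← hN] at h1
    have hpos : 0 < (Subgroup.normalizer ((Q : Subgroup G) : Set G)).index :=
      Nat.pos_of_ne_zero Subgroup.index_ne_zero_of_finite
    apply Nat.eq_of_mul_eq_mul_right hpos
    rw [h1]
    ring
  refine ⟨hQ, hNcard, ?_⟩
  intro x hx hx1
  obtain ⟨hox, hzx⟩ := hgen x hx hx1
  have hle1 : (Q : Subgroup G) ≤ Subgroup.centralizer ({x} : Set G) := by
    rw [← hzx]
    intro y hy
    obtain ⟨k, rfl⟩ := hy
    rw [Subgroup.mem_centralizer_iff]
    intro z hz
    rw [Set.mem_singleton_iff] at hz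
    rw [hz]
    exact ((Commute.refl x).zpow_right k).eq
  have hle2 : Subgroup.centralizer ({x} : Set G) ≤
      Subgroup.normalizer ((Q : Subgroup G) : Set G) := by
    intro g hg
    rw [Subgroup.mem_centralizer_iff] at hg
    have hgx : x * g = g * x := hg x rfl
    rw [Subgroup.mem_normalizer_iff]
    have hfix : ∀ y ∈ (Q : Subgroup G), g * y * g⁻¹ = y := by
      intro y hy
      rw [← hzx] at hy
      obtain ⟨k, rfl⟩ := hy
      have hc : Commute g (x ^ k) := Commute.zpow_right hgx.symm k
      rw [hc.eq, mul_inv_cancel_right]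
    intro y
    constructor
    · intro hy
      rw [hfix y hy]
      exact hy
    · intro hy
      have h1 := hfix _ hy
      have e : g * y * g⁻¹ = y := by
        calc g * y * g⁻¹ = g⁻¹ * (g * (g * y * g⁻¹) * g⁻¹) * g := by group
          _ = g⁻¹ * (g * y * g⁻¹) * g := by rw [h1]
          _ = y := by group
      rw [← e]
      exact hy
  have hpC : p ∣ Nat.card (Subgroup.centralizer ({x} : Set G)) := by
    rw [← hQ]
    exact Subgroup.card_dvd_of_le hle1
  have hCN : Nat.card (Subgroup.centralizer ({x} : Set G)) ∣ p * r := by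
    rw [← hNcard]
    exact Subgroup.card_dvd_of_le hle2
  have hodd : ¬ 2 ∣ Nat.card (Subgroup.centralizer ({x} : Set G)) := by
    intro h2
    have : Fact (Nat.Prime 2) := ⟨Nat.prime_two⟩
    obtain ⟨v, hv⟩ := exists_prime_orderOf_dvd_card'
      (G := Subgroup.centralizer ({x} : Set G)) 2 h2
    have hv' : orderOf (v : G) = 2 := by
      rw [Subgroup.orderOf_coe]
      exact hv
    have hvC := v.2
    rw [Subgroup.mem_centralizer_iff] at hvC
    have hxx := comm_invol h hk (v : G) x hv' (hvC x rfl)
    have h3 : orderOf x ∣ 2 := orderOf_dvd_of_pow_eq_one (by rw [pow_two, hxx])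
    rw [hox] at h3
    rcases (Nat.dvd_prime Nat.prime_two).1 h3 with h4 | h4
    · exact hp.one_lt.ne' h4
    · exact hp2 h4
  have hCcard : Nat.card (Subgroup.centralizer ({x} : Set G)) = p := by
    obtain ⟨j, hj⟩ := hpC
    rw [hj] at hCN hodd
    have hjr : j ∣ r := (Nat.mul_dvd_mul_iff_left hp.pos).1 hCN
    rcases hr with hr1 | hr2
    · rw [hr1] at hjr
      rw [Nat.dvd_one.1 hjr, mul_one] at hj
      exact hj
    · rw [hr2] at hjr
      rcases (Nat.dvd_prime Nat.prime_two).1 hjr with e | e
      · rw [e, mul_one] at hj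
        exact hj
      · exfalso
        apply hodd
        rw [e]
        exact dvd_mul_left 2 p
  exact (Subgroup.eq_of_le_of_card_ge hle1 (by rw [hCcard, hQ])).symm

end Cfsg.Agent.Lib.Helper75.BSWK2

namespace Cfsg.Agent.Lib.Helper46.BSW

open Cfsg Cfsg.Agent.Lib.Helper4

universe u

variable {G : Type u} [Group G]

open Cfsg.Agent.Lib.Helper75 in
/-- The case `|K| = 2`. -/
theorem concl_two [Finite G] {t s : G} {K : Subgroup G} (h : Setup t s K)
    (hk : Nat.card K = 2) : Concl G := by
  classical
  have hF := BSWK2.four_of_setup h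
  let _ : Fintype G := Fintype.ofFinite G
  have : Finite (IrrCharacter G) := irr_finite
  let _ : Fintype (IrrCharacter G) := Fintype.ofFinite _
  have hC4 : Nat.card (Subgroup.centralizer ({t} : Set G)) = 4 := by
    rw [BSWK2.cent_eq_four h hk hF]
    exact BSWK2.card_four t s hF
  have hcnt := BSWK2.count_two h hk
  have hcard : Nat.card G = 12 ∨ Nat.card G = 60 := by
    refine Cfsg.Agent.Lib.Helper62.card_of_all_conj t hF.ht1 hF.ht hC4 ?_
    convert hcnt
  rcases hcard with h12 | h60
  · have : Fact (Nat.Prime 3) := ⟨Nat.prime_three⟩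
    let Q : Sylow 3 G := default
    have hidx : ∀ d, d ∣ 4 → d % 3 = 1 → d = 1 ∨ d * 1 = 4 := by
      intro d hd hmod
      have hle : d ≤ 4 := Nat.le_of_dvd (by norm_num) hd
      interval_cases d <;> simp_all
    obtain ⟨hQ, hN, hcent⟩ := BSWK2.sylow_main h hk 3 4 1 (by norm_num) (by rw [h12])
      (by norm_num) hidx (Or.inl rfl) Q
    refine ⟨(Q : Subgroup G), ⊥, ?_, hcent, ?_, ?_, ?_, ?_, ?_⟩
    · rw [h12, hQ]
    · rw [isMulCommutative_iff]
      intro a b
      exact Subsingleton.elim _ _
    · rw [Subgroup.card_bot, hQ]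
    · exact inf_bot_eq _
    · rw [sup_bot_eq]
      exact (Subgroup.eq_of_le_of_card_ge Subgroup.le_normalizer (by rw [hN, hQ])).symm
    · intro X hX hX1
      exact absurd (le_bot_iff.1 hX) hX1
  · have : Fact (Nat.Prime 5) := ⟨by norm_num⟩
    let Q : Sylow 5 G := default
    have hidx : ∀ d, d ∣ 12 → d % 5 = 1 → d = 1 ∨ d * 2 = 12 := by
      intro d hd hmod
      have hle : d ≤ 12 := Nat.le_of_dvd (by norm_num) hd
      interval_cases d <;> simp_all
    obtain ⟨hQ, hN, hcent⟩ := BSWK2.sylow_main h hk 5 12 2 (by norm_num) (by rw [h60])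
      (by norm_num) hidx (Or.inr rfl) Q
    have : Fact (Nat.Prime 2) := ⟨Nat.prime_two⟩
    obtain ⟨v', hv'⟩ := exists_prime_orderOf_dvd_card'
      (G := Subgroup.normalizer ((Q : Subgroup G) : Set G)) 2 (by rw [hN]; norm_num)
    obtain ⟨v, hvdef⟩ : ∃ v : G, v = (v' : G) := ⟨_, rfl⟩
    have hv : orderOf v = 2 := by
      rw [hvdef, Subgroup.orderOf_coe]
      exact hv'
    have hvN : v ∈ Subgroup.normalizer ((Q : Subgroup G) : Set G) := by
      rw [hvdef]
      exact v'.2
    obtain ⟨hv2, hv1⟩ := BSWK2.sq_of_order v hv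
    have hDcard : Nat.card (Subgroup.zpowers v) = 2 := by rw [Nat.card_zpowers, hv]
    have hDmem : ∀ d ∈ Subgroup.zpowers v, d = 1 ∨ d = v := fun d hd => BSWK2.zp_two v hv2 d hd
    obtain ⟨g, hg⟩ := isConj_iff.1 (h.hconj t v h.ht hv)
    obtain ⟨u, hu⟩ : ∃ u : G, u = g * s * g⁻¹ := ⟨_, rfl⟩
    have hu2 : u * u = 1 := by
      rw [hu]
      calc g * s * g⁻¹ * (g * s * g⁻¹) = g * (s * s) * g⁻¹ := by group
        _ = 1 := by rw [hF.hs]; group
    have hu1 : u ≠ 1 := by
      intro e
      rw [hu] at e
      exact hF.hs1 (conj_eq_one_iff.1 e)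
    have huv : u ≠ v := by
      intro e
      rw [hu, ← hg] at e
      exact hF.hne (mul_left_cancel (mul_right_cancel e))
    have huvc : u * v = v * u := by
      rw [hu, ← hg]
      calc g * s * g⁻¹ * (g * t * g⁻¹) = g * (s * t) * g⁻¹ := by group
        _ = g * (t * s) * g⁻¹ := by rw [hF.hst]
        _ = g * t * g⁻¹ * (g * s * g⁻¹) := by group
    have huord : orderOf u = 2 := BSWK2.order_two u hu2 hu1
    have huD : u ∉ Subgroup.zpowers v := by
      intro hmem
      rcases hDmem u hmem with e | e
      · exact hu1 e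
      · exact huv e
    have hND : Subgroup.normalizer ((Subgroup.zpowers v : Subgroup G) : Set G) =
        Subgroup.centralizer ({v} : Set G) := by
      ext y
      rw [Subgroup.mem_normalizer_iff, Subgroup.mem_centralizer_iff]
      constructor
      · intro hy z hz
        rw [Set.mem_singleton_iff] at hz
        rw [hz]
        have h1 : y * v * y⁻¹ ∈ Subgroup.zpowers v := (hy v).1 (Subgroup.mem_zpowers v)
        rcases hDmem _ h1 with e | e
        · exact absurd (conj_eq_one_iff.1 e) hv1
        · calc v * y = (y * v * y⁻¹) * y := by rw [e]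
            _ = y * v := by group
      · intro hy z
        have hyv : v * y = y * v := hy v rfl
        have hfix : ∀ d ∈ Subgroup.zpowers v, y * d * y⁻¹ = d := by
          intro d hd
          rcases hDmem d hd with e | e
          · rw [e]
            group
          · rw [e, ← hyv]
            group
        constructor
        · intro hz
          rw [hfix z hz]
          exact hz
        · intro hz
          have h1 := hfix _ hz
          have e : y * z * y⁻¹ = z := by
            calc y * z * y⁻¹ = y⁻¹ * (y * (y * z * y⁻¹) * y⁻¹) * y := by group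
              _ = y⁻¹ * (y * z * y⁻¹) * y := by rw [h1]
              _ = z := by group
          rw [← e]
          exact hz
    have hCv : Subgroup.centralizer ({v} : Set G) = Subgroup.zpowers v ⊔ Subgroup.zpowers u := by
      apply le_antisymm
      · intro y hy
        rw [Subgroup.mem_centralizer_iff] at hy
        have hyv : v * y = y * v := hy v rfl
        have hmem : g⁻¹ * y * g ∈ Subgroup.centralizer ({t} : Set G) := by
          rw [Subgroup.mem_centralizer_iff]
          intro z hz
          rw [Set.mem_singleton_iff] at hz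
          have ht' : z = g⁻¹ * v * g := by
            rw [hz, ← hg]
            group
          rw [ht']
          calc g⁻¹ * v * g * (g⁻¹ * y * g) = g⁻¹ * (v * y) * g := by group
            _ = g⁻¹ * (y * v) * g := by rw [hyv]
            _ = g⁻¹ * y * g * (g⁻¹ * v * g) := by group
        rw [BSWK2.cent_eq_four h hk hF] at hmem
        have hy' : g * (g⁻¹ * y * g) * g⁻¹ = y := by group
        rcases hmem with e | e | e | e
        · rw [e] at hy'
          rw [← hy']
          simp
        · rw [e, hg] at hy'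
          rw [← hy']
          exact Subgroup.mem_sup_left (Subgroup.mem_zpowers v)
        · rw [e, ← hu] at hy'
          rw [← hy']
          exact Subgroup.mem_sup_right (Subgroup.mem_zpowers u)
        · have e3 : y = v * u := by
            rw [← hy', e, hu, ← hg]
            group
          rw [e3]
          exact Subgroup.mul_mem _ (Subgroup.mem_sup_left (Subgroup.mem_zpowers v))
            (Subgroup.mem_sup_right (Subgroup.mem_zpowers u))
      · apply sup_le
        · rw [Subgroup.zpowers_le, Subgroup.mem_centralizer_iff]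
          intro z hz
          rw [Set.mem_singleton_iff] at hz
          rw [hz]
        · rw [Subgroup.zpowers_le, Subgroup.mem_centralizer_iff]
          intro z hz
          rw [Set.mem_singleton_iff] at hz
          rw [hz]
          exact huvc.symm
    refine ⟨(Q : Subgroup G), Subgroup.zpowers v, ?_, hcent, ?_, ?_, ?_, ?_, ?_⟩
    · rw [h60, hQ]
    · infer_instance
    · rw [hDcard, hQ]
    · exact (Subgroup.disjoint_of_coprime_natCard (by rw [hQ, hDcard]; norm_num)).eq_bot
    · symm
      apply Subgroup.eq_of_le_of_card_ge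
      · exact sup_le Subgroup.le_normalizer (by rw [Subgroup.zpowers_le]; exact hvN)
      · rw [hN]
        have h5 : 5 ∣ Nat.card ↥((Q : Subgroup G) ⊔ Subgroup.zpowers v) := by
          have h5' := Subgroup.card_dvd_of_le
            (le_sup_left : (Q : Subgroup G) ≤ (Q : Subgroup G) ⊔ Subgroup.zpowers v)
          rwa [hQ] at h5'
        have h2 : 2 ∣ Nat.card ↥((Q : Subgroup G) ⊔ Subgroup.zpowers v) := by
          have h2' := Subgroup.card_dvd_of_le
            (le_sup_right : Subgroup.zpowers v ≤ (Q : Subgroup G) ⊔ Subgroup.zpowers v)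
          rwa [hDcard] at h2'
        have h10 : 5 * 2 ∣ Nat.card ↥((Q : Subgroup G) ⊔ Subgroup.zpowers v) :=
          Nat.Coprime.mul_dvd_of_dvd_of_dvd (by norm_num) h5 h2
        exact Nat.le_of_dvd Nat.card_pos h10
    · intro X hX hX1
      have hXD : X = Subgroup.zpowers v := by
        have h1 : Nat.card X ∣ 2 := by
          rw [← hDcard]
          exact Subgroup.card_dvd_of_le hX
        rcases (Nat.dvd_prime Nat.prime_two).1 h1 with e | e
        · exact absurd (Subgroup.card_eq_one.1 e) hX1
        · exact Subgroup.eq_of_le_of_card_ge hX (by rw [e, hDcard])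
      rw [hXD]
      refine ⟨rfl, u, huord, huD, ?_, ?_⟩
      · intro d hd
        rcases hDmem d hd with e | e
        · rw [e]
          simp
        · rw [e, huvc, mul_inv_cancel_right]
          exact (inv_eq_of_mul_eq_one_left hv2).symm
      · rw [hND]
        exact hCv

end Cfsg.Agent.Lib.Helper46.BSW
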