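import Mathlib
import Cfsg.Agent.Lib.Helper81.ValTwo

/-!
# The `2`-adic valuation of `|GL_n(q)|`, `q` odd (piece ARITH of S2249)
-/

set_option autoImplicit false

namespace Cfsg.Agent.Lib.Helper75.GLSylArith

open Cfsg.Agent.Lib.Helper81.ValTwo

theorem val_prod {ι : Type*} (s : Finset ι) (f : ι → ℕ) (h : ∀ i ∈ s, f i ≠ 0) :
    padicValNat 2 (∏ i ∈ s, f i) = ∑ i ∈ s, padicValNat 2 (f i) := by
  classical
  have hfact : Fact (Nat.Prime 2) := ⟨Nat.prime_two⟩
  induction s using Finset.induction_on with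
  | empty => simp
  | insert a s ha ih =>
    rw [Finset.prod_insert ha, Finset.sum_insert ha,
      padicValNat.mul (h a (Finset.mem_insert_self a s))
        (Finset.prod_ne_zero_iff.2 fun i hi => h i (Finset.mem_insert_of_mem hi)),
      ih (fun i hi => h i (Finset.mem_insert_of_mem hi))]

/-- the `2`-adic valuation of the order formula as a sum -/
theorem val_prod_GL {q : ℕ} (hq1 : 1 < q) (hodd : Odd q) (n : ℕ) :
    padicValNat 2 (∏ i : Fin n, (q ^ n - q ^ (i : ℕ))) =
      ∑ k ∈ Finset.range n, padicValNat 2 (q ^ (k + 1) - 1) := by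
  have hfact : Fact (Nat.Prime 2) := ⟨Nat.prime_two⟩
  rw [Fin.prod_univ_eq_prod_range (fun i => q ^ n - q ^ i) n]
  have hne : ∀ i ∈ Finset.range n, q ^ n - q ^ i ≠ 0 := by
    intro i hi
    rw [Finset.mem_range] at hi
    have := Nat.pow_lt_pow_right hq1 hi
    omega
  have hrefl : ∑ k ∈ Finset.range n, padicValNat 2 (q ^ (k + 1) - 1) =
      ∑ j ∈ Finset.range n, padicValNat 2 (q ^ (n - 1 - j + 1) - 1) :=
    (Finset.sum_range_reflect (fun k => padicValNat 2 (q ^ (k + 1) - 1)) n).symm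
  rw [val_prod _ _ hne, hrefl]
  apply Finset.sum_congr rfl
  intro i hi
  rw [Finset.mem_range] at hi
  have e : q ^ n - q ^ i = q ^ i * (q ^ (n - 1 - i + 1) - 1) := by
    have h1 : n = i + (n - 1 - i + 1) := by omega
    conv_lhs => rw [h1, pow_add]
    rw [Nat.mul_sub, mul_one]
  rw [e, padicValNat.mul (by positivity) (one_lt_pow_sub hq1 (by omega)),
    padicValNat.eq_zero_of_not_dvd
      (fun h => not_two_dvd_of_odd hodd (Nat.prime_two.dvd_of_dvd_pow h)), zero_add]

theorem geom_odd {q : ℕ} (hodd : Odd q) (k : ℕ) :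
    (∑ j ∈ Finset.range k, q ^ j) % 2 = k % 2 := by
  induction k with
  | zero => simp
  | succ k ih =>
    rw [Finset.sum_range_succ, Nat.add_mod, ih]
    have h1 : q ^ k % 2 = 1 := Nat.odd_iff.1 hodd.pow
    rw [h1]
    omega

theorem val_pow_odd_sub_one {q : ℕ} (hq1 : 1 < q) (hodd : Odd q) {k : ℕ} (hk : Odd k) :
    padicValNat 2 (q ^ k - 1) = padicValNat 2 (q - 1) := by
  have hfact : Fact (Nat.Prime 2) := ⟨Nat.prime_two⟩
  have e : q ^ k - 1 = (∑ j ∈ Finset.range k, q ^ j) * (q - 1) := by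
    have h1 : 1 ≤ q ^ k := Nat.one_le_pow _ _ (by omega)
    zify [h1, hq1.le]
    exact (geom_sum_mul (q : ℤ) k).symm
  have hsum : ¬ 2 ∣ ∑ j ∈ Finset.range k, q ^ j := by
    have h1 := geom_odd hodd k
    rw [Nat.odd_iff.1 hk] at h1
    omega
  have hsum0 : (∑ j ∈ Finset.range k, q ^ j) ≠ 0 := by
    intro h
    rw [h] at hsum
    exact hsum (dvd_zero 2)
  rw [e, padicValNat.mul hsum0 (by omega), padicValNat.eq_zero_of_not_dvd hsum, zero_add]

theorem val_two_of_mod_four {x : ℕ} (hx : x % 4 = 2) : padicValNat 2 x = 1 := by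
  have hfact : Fact (Nat.Prime 2) := ⟨Nat.prime_two⟩
  obtain ⟨y, rfl⟩ : ∃ y, x = 2 * y := ⟨x / 2, by omega⟩
  have hy : ¬ 2 ∣ y := by omega
  have hy0 : y ≠ 0 := by
    rintro rfl
    omega
  rw [padicValNat.mul (by norm_num) hy0, padicValNat_self, padicValNat.eq_zero_of_not_dvd hy]

theorem val_pow_sub_one_of_one_mod_four {q : ℕ} (hq : q % 4 = 1) (hq1 : 1 < q) {k : ℕ}
    (hk : k ≠ 0) : padicValNat 2 (q ^ k - 1) = padicValNat 2 (q - 1) + padicValNat 2 k := by
  have hfact : Fact (Nat.Prime 2) := ⟨Nat.prime_two⟩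
  have hodd : Odd q := Nat.odd_iff.2 (by omega)
  rcases Nat.even_or_odd k with hev | hod
  · have h := padicValNat.pow_two_sub_pow (x := q) (y := 1) hq1 (two_dvd_sub_one_of_odd hodd)
      (not_two_dvd_of_odd hodd) (n := k) hk hev
    rw [one_pow, val_two_of_mod_four (x := q + 1) (by omega)] at h
    omega
  · have hk2 : ¬ 2 ∣ k := by
      rcases hod with ⟨j, rfl⟩
      omega
    rw [val_pow_odd_sub_one hq1 hodd hod, padicValNat.eq_zero_of_not_dvd hk2, add_zero]

theorem val_factorial_sum (n : ℕ) :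
    ∑ k ∈ Finset.range n, padicValNat 2 (k + 1) = padicValNat 2 n.factorial := by
  have hfact : Fact (Nat.Prime 2) := ⟨Nat.prime_two⟩
  induction n with
  | zero => simp
  | succ n ih =>
    rw [Finset.sum_range_succ, ih, Nat.factorial_succ,
      padicValNat.mul (by omega) (Nat.factorial_ne_zero n), add_comm]

theorem val_two_card_GL_one_mod_four {q : ℕ} (hq : q % 4 = 1) (hq1 : 1 < q) (n : ℕ) :
    padicValNat 2 (∏ i : Fin n, (q ^ n - q ^ (i : ℕ)))
      = n * padicValNat 2 (q - 1) + padicValNat 2 n.factorial := by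
  have hodd : Odd q := Nat.odd_iff.2 (by omega)
  rw [val_prod_GL hq1 hodd n, ← val_factorial_sum n]
  have h1 : ∀ k ∈ Finset.range n, padicValNat 2 (q ^ (k + 1) - 1) =
      padicValNat 2 (q - 1) + padicValNat 2 (k + 1) :=
    fun k _ => val_pow_sub_one_of_one_mod_four hq hq1 (by omega)
  rw [Finset.sum_congr rfl h1, Finset.sum_add_distrib, Finset.sum_const, Finset.card_range,
    smul_eq_mul]

theorem sum_even {q : ℕ} (hq : q % 4 = 3) (m : ℕ) :
    ∑ k ∈ Finset.range (2 * m), padicValNat 2 (q ^ (k + 1) - 1) =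
      m * (1 + padicValNat 2 (q ^ 2 - 1)) + padicValNat 2 m.factorial := by
  have hfact : Fact (Nat.Prime 2) := ⟨Nat.prime_two⟩
  have hq1 : 1 < q := by omega
  have hodd : Odd q := Nat.odd_iff.2 (by omega)
  induction m with
  | zero => simp
  | succ m ih =>
    have e : 2 * (m + 1) = 2 * m + 1 + 1 := by ring
    rw [e, Finset.sum_range_succ, Finset.sum_range_succ, ih]
    have h1 : padicValNat 2 (q ^ (2 * m + 1) - 1) = 1 := by
      rw [val_pow_odd_sub_one hq1 hodd (odd_two_mul_add_one m)]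
      exact val_two_of_mod_four (by omega)
    have h2 : padicValNat 2 (q ^ (2 * m + 1 + 1) - 1) =
        padicValNat 2 (q ^ 2 - 1) + padicValNat 2 (m + 1) := by
      have e2 : 2 * m + 1 + 1 = 2 * (m + 1) := by ring
      rw [e2]
      exact val_pow_even_sub_one hq1 hodd (by omega)
    rw [h1, h2, Nat.factorial_succ, padicValNat.mul (by omega) (Nat.factorial_ne_zero m)]
    ring

theorem val_two_card_GL_three_mod_four_even {q : ℕ} (hq : q % 4 = 3) (m : ℕ) :
    padicValNat 2 (∏ i : Fin (2 * m), (q ^ (2 * m) - q ^ (i : ℕ)))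
      = m * (1 + padicValNat 2 (q ^ 2 - 1)) + padicValNat 2 m.factorial := by
  have hq1 : 1 < q := by omega
  have hodd : Odd q := Nat.odd_iff.2 (by omega)
  rw [val_prod_GL hq1 hodd, sum_even hq m]

theorem val_two_card_GL_three_mod_four_odd {q : ℕ} (hq : q % 4 = 3) (m : ℕ) :
    padicValNat 2 (∏ i : Fin (2 * m + 1), (q ^ (2 * m + 1) - q ^ (i : ℕ)))
      = m * (1 + padicValNat 2 (q ^ 2 - 1)) + padicValNat 2 m.factorial + 1 := by
  have hq1 : 1 < q := by omega
  have hodd : Odd q := Nat.odd_iff.2 (by omega)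
  rw [val_prod_GL hq1 hodd, Finset.sum_range_succ, sum_even hq m,
    val_pow_odd_sub_one hq1 hodd (odd_two_mul_add_one m),
    val_two_of_mod_four (x := q - 1) (by omega)]

end Cfsg.Agent.Lib.Helper75.GLSylArith
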