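import Mathlib
import Cfsg.Agent.Lib.Helper48.QADefs

/-! Project QA (helper48, S2787): piece `QA-PLIFT`. An element of `PSL₂(F)` (char `p` odd) with
`a ^ p = 1` lifts to `u ∈ SL₂(F)` with `(u - 1)² = 0`. -/

set_option autoImplicit false

universe u

namespace Cfsg.Agent.Lib.Helper48.QA

open Matrix Polynomial

local notation "SL2" F => Matrix.SpecialLinearGroup (Fin 2) F
local notation "PSL2" F => Matrix.ProjectiveSpecialLinearGroup (Fin 2) F
local notation "M2" F => Matrix (Fin 2) (Fin 2) F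

/-- a nilpotent `2 × 2` matrix over a field has square zero -/
theorem plift_sq_zero {F : Type*} [Field F] (N : M2 F) (hN : IsNilpotent N) : N * N = 0 := by
  have htr : N.trace = 0 := (Matrix.isNilpotent_trace_of_isNilpotent hN).eq_zero
  have hdet : N.det = 0 := by
    obtain ⟨k, hk⟩ := hN
    have h3 : N.det ^ k = 0 := by
      rw [← Matrix.det_pow, hk]
      simp
    exact IsNilpotent.eq_zero ⟨k, h3⟩
  have hCH : N * N = N.trace • N - N.det • (1 : M2 F) := by
    ext i j
    fin_cases i <;> fin_cases j <;>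
      simp [Matrix.mul_apply, Fin.sum_univ_two, Matrix.trace_fin_two, Matrix.det_fin_two] <;> ring
  rw [hCH, htr, hdet, zero_smul, zero_smul, sub_zero]

/-- QA-PLIFT -/
theorem psl2_lift {F : Type*} [Field F] {p : ℕ} [Fact p.Prime] [CharP F p] (hp2 : p ≠ 2)
    (a : PSL2 F) (hap : a ^ p = 1) :
    ∃ u : SL2 F, (QuotientGroup.mk u : PSL2 F) = a ∧
      ((u : M2 F) - 1) * ((u : M2 F) - 1) = 0 := by
  have hp : p.Prime := Fact.out
  have hodd : Odd p := hp.odd_of_ne_two hp2
  have key : ∃ u : SL2 F, (QuotientGroup.mk u : PSL2 F) = a ∧ (u : M2 F) ^ p = 1 := by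
    obtain ⟨u₀, rfl⟩ := QuotientGroup.mk_surjective a
    have h1 : u₀ ^ p ∈ Subgroup.center (SL2 F) := by
      rw [← QuotientGroup.eq_one_iff, QuotientGroup.mk_pow]
      exact hap
    obtain ⟨r, hr, hr2⟩ := Matrix.SpecialLinearGroup.mem_center_iff.mp h1
    have hr' : r = 1 ∨ r = -1 := by
      have h3 : r ^ 2 = 1 := by simpa using hr
      have h4 : (r - 1) * (r + 1) = 0 := by linear_combination h3
      rcases mul_eq_zero.mp h4 with h | h
      · left
        exact sub_eq_zero.mp h
      · right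
        exact eq_neg_of_add_eq_zero_left h
    have hU : (u₀ : M2 F) ^ p = Matrix.scalar (Fin 2) r := by
      rw [← Matrix.SpecialLinearGroup.coe_pow, hr2]
    rcases hr' with rfl | rfl
    · refine ⟨u₀, rfl, ?_⟩
      rw [hU]
      simp
    · have hdet : (-(u₀ : M2 F)).det = 1 := by
        rw [Matrix.det_neg, u₀.2]
        simp
      obtain ⟨u, hu⟩ : ∃ u : SL2 F, (u : M2 F) = -(u₀ : M2 F) := ⟨⟨-(u₀ : M2 F), hdet⟩, rfl⟩
      refine ⟨u, ?_, ?_⟩
      · symm
        rw [QuotientGroup.eq, Matrix.SpecialLinearGroup.mem_center_iff]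
        refine ⟨-1, by simp, ?_⟩
        rw [Matrix.SpecialLinearGroup.coe_mul, hu, mul_neg, ← Matrix.SpecialLinearGroup.coe_mul,
          inv_mul_cancel, Matrix.SpecialLinearGroup.coe_one]
        ext i j
        fin_cases i <;> fin_cases j <;> simp
      · rw [hu, hodd.neg_pow, hU]
        simp
  obtain ⟨u, hu, hup⟩ := key
  refine ⟨u, hu, ?_⟩
  apply plift_sq_zero
  refine ⟨p, ?_⟩
  have hc : Commute (u : M2 F) 1 := Commute.one_right _
  rw [sub_pow_char_of_commute p hc, hup, one_pow, sub_self]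

end Cfsg.Agent.Lib.Helper48.QA
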