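import Mathlib
import Cfsg.Agent.Lib.Helper48.RCBase

/-! Project QB (helper48, S2359): piece `QB-TORUSCYC`. In the abstract rank-one setting `Ok0` the
torus `{H s}` is a cyclic subgroup of order `q - 1`. -/

set_option autoImplicit false

namespace Cfsg.Agent.Lib.Helper48.QB

open Cfsg.Agent.Lib.Helper48.RC

variable {F : Type*} [Field F] [Finite F] [CharP F 3] {G : Type*} [Group G] [Finite G]
variable {θ : F →+* F} {T : F → F → F → G} {H : Fˣ → G} {w : G}

-- QB-TORUSCYC
theorem torus_cyclic (h : Ok0 θ T H w) :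
    ∃ Tor : Subgroup G, IsCyclic Tor ∧ Nat.card Tor = Nat.card F - 1 ∧
      ∀ g : G, g ∈ Tor ↔ ∃ s : Fˣ, g = H s := by
  obtain ⟨f, hf⟩ : ∃ f : Fˣ →* G, ∀ s, f s = H s :=
    ⟨{ toFun := H, map_one' := h.H_one, map_mul' := h.H_mul }, fun _ => rfl⟩
  have hinj : Function.Injective f := by
    intro s s' hss
    rw [hf, hf] at hss
    exact h.H_injective hss
  refine ⟨f.range, ?_, ?_, ?_⟩
  · exact isCyclic_of_surjective f.rangeRestrict f.rangeRestrict_surjective
  · rw [← Nat.card_congr (MonoidHom.ofInjective hinj).toEquiv, Nat.card_units]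
  · intro g
    rw [MonoidHom.mem_range]
    constructor
    · rintro ⟨s, hs⟩
      exact ⟨s, by rw [← hs, hf]⟩
    · rintro ⟨s, hs⟩
      exact ⟨s, by rw [hs, hf]⟩

end Cfsg.Agent.Lib.Helper48.QB
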