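import Mathlib
import Cfsg.Agent.Lib.Helper52.OutDefs
import Cfsg.Agent.Lib.Helper54.OrthMinus
import Cfsg.Agent.Lib.Helper44.Dickson
import Cfsg.Agent.Lib.Helper51.OAF

/-!
# Piece OU-M3 (helper75, for helper52): `[pgoAut : Inn] = 2` for the minus form in characteristic 2
-/

set_option autoImplicit false
set_option linter.unusedSectionVars false

namespace Cfsg.Agent.Lib.Helper75.OUM3

open Module QuadraticMap Cfsg
open Cfsg.Agent.Lib.Helper51 Cfsg.Agent.Lib.Helper52.OU Cfsg.Agent.Lib.Helper54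
open Cfsg.Agent.Lib.Helper44

section Core

variable {ι : Type} [Fintype ι] [DecidableEq ι] {F : Type*} [Field F] [Fintype F]
variable (Q : QuadraticForm F (ι → F))

/-- every similarity differs from an isometry by a scalar (finite field of characteristic 2) -/
theorem exists_isometry_simAut (h2 : (2 : F) = 0)
    (g : ↥(Geo.quadSimilarityGroup (F := F) ⇑Q)) :
    ∃ t : ↥(isometryGroup F ⇑Q),
      simAut ⇑Q g = simAut ⇑Q ⟨(t : GL ι F), isometry_le_similarity ⇑Q t.2⟩ := by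
  obtain ⟨c, hc⟩ := g.2
  have : CharP F 2 := CharTwo.of_one_ne_zero_of_two_eq_zero one_ne_zero h2
  obtain ⟨l, hl⟩ := FiniteField.isSquare_of_char_two (ringChar.eq F 2) (c : F)
  have hl0 : l ≠ 0 := by
    rintro rfl
    rw [mul_zero] at hl
    exact c.ne_zero hl
  -- the scalar
  let zGL : GL ι F := ⟨l • (1 : Matrix ι ι F), l⁻¹ • (1 : Matrix ι ι F), by
    rw [Matrix.smul_mul, Matrix.mul_smul, smul_smul, Matrix.one_mul, mul_inv_cancel₀ hl0,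
      one_smul], by
    rw [Matrix.smul_mul, Matrix.mul_smul, smul_smul, Matrix.one_mul, inv_mul_cancel₀ hl0,
      one_smul]⟩
  have hzmat : (zGL : Matrix ι ι F) = l • (1 : Matrix ι ι F) := rfl
  have hzS : zGL ∈ Geo.quadSimilarityGroup (F := F) ⇑Q := by
    refine ⟨Units.mk0 (l * l) (mul_ne_zero hl0 hl0), fun v => ?_⟩
    rw [hzmat, Matrix.smul_mulVec, Matrix.one_mulVec, QuadraticMap.map_smul]
    rfl
  let z : ↥(Geo.quadSimilarityGroup (F := F) ⇑Q) := ⟨zGL, hzS⟩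
  have hz1 : simAut ⇑Q z = 1 := simAut_of_scalar Q z l hzmat
  have ht : ((z⁻¹ * g : ↥(Geo.quadSimilarityGroup (F := F) ⇑Q)) : GL ι F) ∈
      isometryGroup F ⇑Q := by
    rw [mem_isometryGroup_iff']
    intro v
    have e1 : (((z⁻¹ * g : ↥(Geo.quadSimilarityGroup (F := F) ⇑Q)) : GL ι F) : Matrix ι ι F)
        = l⁻¹ • ((g : GL ι F) : Matrix ι ι F) := by
      show (l⁻¹ • (1 : Matrix ι ι F)) * ((g : GL ι F) : Matrix ι ι F) = _
      rw [Matrix.smul_mul, Matrix.one_mul]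
    rw [e1, Matrix.smul_mulVec, QuadraticMap.map_smul, hc v, hl, smul_eq_mul]
    field_simp
  refine ⟨⟨_, ht⟩, ?_⟩
  have e2 : (⟨((z⁻¹ * g : ↥(Geo.quadSimilarityGroup (F := F) ⇑Q)) : GL ι F),
      isometry_le_similarity ⇑Q ht⟩ : ↥(Geo.quadSimilarityGroup (F := F) ⇑Q)) = z⁻¹ * g := rfl
  rw [e2, map_mul, map_inv, hz1, inv_one, one_mul]

theorem relIndex_char_two [Nonempty ι] (h2 : (2 : F) = 0) (hQ : (polarBilin Q).Nondegenerate)
    (hcard : Fintype.card F ≠ 2 ∨ Fintype.card ι ≠ 4) (u : ι → F) (hu : Q u ≠ 0)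
    (hscal : ∀ h : GL ι F, Ind ⇑Q 1 h (RingEquiv.refl F) →
      ∃ c : Fˣ, (h : Matrix ι ι F) = (c : F) • (1 : Matrix ι ι F)) :
    (Inn (POmega F ⇑Q)).relIndex (pgoAut F ⇑Q) = 2 := by
  classical
  have hOS := isometry_le_similarity (F := F) ⇑Q
  -- membership in `Ω`
  have hmem : ∀ t : ↥(isometryGroup F ⇑Q), t ∈ Omega F ⇑Q ↔
      Even (((t : GL ι F) : Matrix ι ι F) - 1).rank :=
    fun t => mem_commutator_iff_even_rank Q h2 hQ hcard t
  -- the reflection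
  obtain ⟨r, hr⟩ : ∃ r : ↥(isometryGroup F ⇑Q), r = refl Q u hu := ⟨_, rfl⟩
  have hflip : ∀ t : ↥(isometryGroup F ⇑Q), r * t ∈ Omega F ⇑Q ↔ t ∉ Omega F ⇑Q := by
    intro t
    rw [hmem, hmem, hr]
    exact even_rank_flip Q hQ t u hu
  have hflip' : ∀ t : ↥(isometryGroup F ⇑Q), t * r ∈ Omega F ⇑Q ↔ t ∉ Omega F ⇑Q := by
    intro t
    rw [← hflip t]
    exact (inferInstance : (Omega F ⇑Q).Normal).mem_comm_iff
  -- `simAut t ∈ Inn` iff `t ∈ Ω`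
  have hinn : ∀ t : ↥(isometryGroup F ⇑Q),
      simAut ⇑Q ⟨(t : GL ι F), hOS t.2⟩ ∈ Inn (POmega F ⇑Q) ↔ t ∈ Omega F ⇑Q := by
    intro t
    rw [inn_eq]
    constructor
    · rintro ⟨g, hg, hgt⟩
      obtain ⟨s, hs, hsg⟩ := Subgroup.mem_subgroupOf.mp hg
      have hsg' : ((s : ↥(isometryGroup F ⇑Q)) : GL ι F) = (g : GL ι F) := hsg
      -- the quotient `g⁻¹ t`
      obtain ⟨h, hh⟩ : ∃ h : ↥(Geo.quadSimilarityGroup (F := F) ⇑Q),
          h = g⁻¹ * ⟨(t : GL ι F), hOS t.2⟩ := ⟨_, rfl⟩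
      have hh1 : simAut ⇑Q h = 1 := by
        rw [hh, map_mul, map_inv, hgt, inv_mul_cancel]
      have hhGL : (h : GL ι F) = ((s⁻¹ * t : ↥(isometryGroup F ⇑Q)) : GL ι F) := by
        rw [hh]
        show (g : GL ι F)⁻¹ * (t : GL ι F) = (s : GL ι F)⁻¹ * (t : GL ι F)
        rw [hsg']
      have hhO : (h : GL ι F) ∈ isometryGroup F ⇑Q := by
        rw [hhGL]
        exact (s⁻¹ * t).2
      have hind : Ind ⇑Q 1 (h : GL ι F) (RingEquiv.refl F) := by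
        refine ⟨⟨1, fun v => ?_⟩, (induced_iff ⇑Q h 1).mpr hh1.symm⟩
        have := (mem_isometryGroup_iff' ⇑Q (h : GL ι F)).mp hhO v
        rw [Units.val_one, one_mul]
        exact this
      obtain ⟨c, hc⟩ := hscal (h : GL ι F) hind
      have hc1 : (c : F) = 1 := by
        have h3 := (mem_isometryGroup_iff' ⇑Q (h : GL ι F)).mp hhO u
        rw [hc, Matrix.smul_mulVec, Matrix.one_mulVec, QuadraticMap.map_smul, smul_eq_mul] at h3
        have h4 : (c : F) * (c : F) = 1 := by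
          have h5 : ((c : F) * (c : F) - 1) * Q u = 0 := by linear_combination h3
          rcases mul_eq_zero.1 h5 with h6 | h6
          · linear_combination h6
          · exact absurd h6 hu
        have h7 : ((c : F) - 1) * ((c : F) - 1) = 0 := by
          linear_combination h4 + (1 - (c : F)) * h2
        have h8 : (c : F) - 1 = 0 := by
          rcases mul_eq_zero.1 h7 with h | h <;> exact h
        linear_combination h8
      have hh_one : (h : GL ι F) = 1 := by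
        apply Units.ext
        rw [hc, hc1, one_smul]
        rfl
      have hts : t = s := by
        have h9 : ((s⁻¹ * t : ↥(isometryGroup F ⇑Q)) : GL ι F) = 1 := by rw [← hhGL, hh_one]
        have h10 : s⁻¹ * t = 1 := Subtype.ext h9
        exact (inv_mul_eq_one.1 h10).symm
      rw [hts]
      exact hs
    · intro ht
      exact ⟨⟨(t : GL ι F), hOS t.2⟩, Subgroup.mem_subgroupOf.mpr ⟨t, ht, rfl⟩, rfl⟩
  rw [pgoAut_eq, Subgroup.relIndex, Subgroup.index_eq_two_iff]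
  refine ⟨⟨simAut ⇑Q ⟨(r : GL ι F), hOS r.2⟩, ⟨_, rfl⟩⟩, ?_⟩
  rintro ⟨b, g, rfl⟩
  obtain ⟨t, ht⟩ := exists_isometry_simAut Q h2 g
  have e1 : (⟨simAut ⇑Q g, ⟨g, rfl⟩⟩ * ⟨simAut ⇑Q ⟨(r : GL ι F), hOS r.2⟩, ⟨_, rfl⟩⟩ :
      ↥(simAut ⇑Q).range) ∈ (Inn (POmega F ⇑Q)).subgroupOf (simAut ⇑Q).range ↔
      t * r ∈ Omega F ⇑Q := by
    rw [Subgroup.mem_subgroupOf, ← hinn (t * r)]
    show simAut ⇑Q g * simAut ⇑Q ⟨(r : GL ι F), hOS r.2⟩ ∈ Inn (POmega F ⇑Q) ↔ _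
    rw [ht, ← map_mul]
    rfl
  have e2 : (⟨simAut ⇑Q g, ⟨g, rfl⟩⟩ : ↥(simAut ⇑Q).range) ∈
      (Inn (POmega F ⇑Q)).subgroupOf (simAut ⇑Q).range ↔ t ∈ Omega F ⇑Q := by
    rw [Subgroup.mem_subgroupOf, ← hinn t]
    show simAut ⇑Q g ∈ Inn (POmega F ⇑Q) ↔ _
    rw [ht]
  rw [e1, e2, hflip']
  by_cases htΩ : t ∈ Omega F ⇑Q
  · exact Or.inr ⟨htΩ, fun h => h htΩ⟩
  · exact Or.inl ⟨htΩ, htΩ⟩

end Core

theorem minus_relIndex_char_two {F : Type*} [Field F] [Fintype F] (h2 : (2 : F) = 0) {m : ℕ}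
    (hm : 3 ≤ m) (a b : F)
    (hab : ∀ z₁ z₂ : F, z₁ ^ 2 + a * z₁ * z₂ + b * z₂ ^ 2 = 0 → z₁ = 0 ∧ z₂ = 0)
    (hscal : ∀ (h : GL ((Fin m ⊕ Fin m) ⊕ Fin 2) F),
      Ind (Cfsg.quadFormMinus m F a b) 1 h (RingEquiv.refl F) →
      ∃ c : Fˣ, (h : Matrix ((Fin m ⊕ Fin m) ⊕ Fin 2) ((Fin m ⊕ Fin m) ⊕ Fin 2) F)
        = (c : F) • (1 : Matrix ((Fin m ⊕ Fin m) ⊕ Fin 2) ((Fin m ⊕ Fin m) ⊕ Fin 2) F)) :
    (Cfsg.Inn (Cfsg.POmega F (Cfsg.quadFormMinus m F a b))).relIndex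
      (Cfsg.pgoAut F (Cfsg.quadFormMinus m F a b)) = 2 := by
  obtain ⟨Q, hQ, hnd, hcard, -⟩ := Cfsg.Agent.Lib.Helper51.OAF.minus_data hm a b hab
  have hne : Nonempty ((Fin m ⊕ Fin m) ⊕ Fin 2) := ⟨Sum.inr 0⟩
  have hu : Q (Pi.single (Sum.inr 0) 1) ≠ 0 := by
    rw [hQ]
    simp [Cfsg.quadFormMinus]
  rw [← hQ] at hscal ⊢
  exact relIndex_char_two Q h2 hnd (Or.inr (by omega)) _ hu hscal

end Cfsg.Agent.Lib.Helper75.OUM3
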