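import Cfsg.Agent.Lib.Helper80.BaerBasic
import Cfsg.Agent.Lib.Helper42.BaerCL

/-!
# q-Baer groups (S4125), piece X3: no normal subgroup `C_p × C_p` in the Sylow `p`-subgroup
-/

set_option autoImplicit false

namespace Cfsg.Agent.Lib.Helper75

open Cfsg.Agent.Lib.Helper80

section Aux

variable {p : ℕ} {H V : Type*} [Group H] [AddCommGroup V] [DistribMulAction H V]

/-- the norm operator of `b`: `v ↦ ∑_{m<p} b^m • v` -/
def baerX3_N (p : ℕ) (b : H) : V →+ V :=
  ∑ m ∈ Finset.range p, DistribSMul.toAddMonoidHom V (b ^ m)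

theorem baerX3_N_apply (b : H) (v : V) :
    baerX3_N p b v = ∑ m ∈ Finset.range p, b ^ m • v := by
  unfold baerX3_N
  rw [AddMonoidHom.finsetSum_apply]
  rfl

theorem baerX3_N_fixed (b : H) (hb : b ^ p = 1) (v : V) :
    b • baerX3_N p b v = baerX3_N p b v := by
  rw [baerX3_N_apply, Finset.smul_sum]
  have e : ∀ m, b • b ^ m • v = b ^ (m + 1) • v := fun m => by rw [← mul_smul, ← pow_succ']
  simp only [e]
  have h1 := Finset.sum_range_succ (fun m => b ^ m • v) p
  have h2 := Finset.sum_range_succ' (fun m => b ^ m • v) p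
  rw [h1] at h2
  simp only [hb, pow_zero] at h2
  exact (add_right_cancel h2).symm

theorem baerX3_N_of_fixed (b : H) (v : V) (hv : b • v = v) : baerX3_N p b v = p • v := by
  rw [baerX3_N_apply]
  have e : ∀ m : ℕ, b ^ m • v = v := by
    intro m
    induction m with
    | zero => rw [pow_zero, one_smul]
    | succ m ih => rw [pow_succ, mul_smul, hv, ih]
  simp only [e, Finset.sum_const, Finset.card_range]

theorem baerX3_N_comm (b c : H) (hbc : Commute c b) (w : V) (hw : c • w = w) :
    c • baerX3_N p b w = baerX3_N p b w := by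
  rw [baerX3_N_apply, Finset.smul_sum]
  apply Finset.sum_congr rfl
  intro m _
  rw [← mul_smul, (hbc.pow_right m).eq, mul_smul, hw]

theorem baerX3_fix_of_pow [Fact p.Prime] (z : H) (hzp : z ^ p = 1) (d : ℕ) (hd0 : 0 < d)
    (hdp : d < p) (v : V) (hv : z ^ d • v = v) : z • v = v := by
  have hp : p.Prime := Fact.out
  have hcop : Nat.Coprime d p :=
    Nat.Coprime.symm ((Nat.Prime.coprime_iff_not_dvd hp).2 (Nat.not_dvd_of_pos_of_lt hd0 hdp))
  obtain ⟨e, -, he⟩ := Nat.exists_mul_mod_eq_one_of_coprime hcop hp.one_lt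
  have h1 : z = (z ^ d) ^ e := by
    rw [← pow_mul, pow_eq_pow_mod (d * e) hzp, he, pow_one]
  have h2 : ∀ n : ℕ, (z ^ d) ^ n • v = v := by
    intro n
    induction n with
    | zero => rw [pow_zero, one_smul]
    | succ n ih => rw [pow_succ, mul_smul, hv, ih]
  have h3 : (z ^ d) ^ e • v = v := h2 e
  rwa [← h1] at h3

end Aux

variable {p : ℕ} [Fact p.Prime] {H V : Type*} [Group H] [Finite H] [AddCommGroup V] [Finite V]
  [DistribMulAction H V]

theorem no_rank2 (hm : BaerMin p H V) (P : Sylow p H) (z a : H) (hzP : z ∈ P) (haP : a ∈ P)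
    (hzc : ∀ x ∈ P, x * z = z * x) (hz1 : z ≠ 1) (hzp : z ^ p = 1) (hap : a ^ p = 1)
    (haz : ∀ k : ℕ, a ≠ z ^ k) (hn : ∀ x ∈ P, ∃ k : ℕ, x * a * x⁻¹ = a * z ^ k) :
    Group.IsSolvable H := by
  classical
  have hp : p.Prime := Fact.out
  have hfix : ∀ v : V, z • v = v → v = 0 := fun v hv => hm.fixed_eq_zero P z hzP hzc hz1 v hv
  have hpH : p ∣ Nat.card H := by
    have h1 : orderOf z = p := orderOf_eq_prime hzp hz1
    rw [← h1]
    exact orderOf_dvd_natCard z
  have hcop : Nat.gcd (Nat.card H) (Nat.card V) = 1 := hm.coprime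
  have hpV : ∀ v : V, p • v = 0 → v = 0 := by
    intro v hv
    have h1 : addOrderOf v ∣ p := addOrderOf_dvd_of_nsmul_eq_zero hv
    have h2 : addOrderOf v ∣ Nat.card V := addOrderOf_dvd_natCard v
    have h3 : addOrderOf v ∣ Nat.gcd (Nat.card H) (Nat.card V) := Nat.dvd_gcd (h1.trans hpH) h2
    rw [hcop] at h3
    exact AddMonoid.addOrderOf_eq_one_iff.1 (Nat.dvd_one.1 h3)
  have haz_comm : Commute a z := hzc a haP
  have hza : Commute z a := haz_comm.symm
  let b : ℕ → H := fun k => a * z ^ k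
  have hbp : ∀ k, b k ^ p = 1 := by
    intro k
    show (a * z ^ k) ^ p = 1
    rw [(haz_comm.pow_right k).mul_pow, hap, one_mul, ← pow_mul, mul_comm, pow_mul, hzp, one_pow]
  have hb1 : ∀ k, b k ≠ 1 := by
    intro k h
    apply haz (k * (p - 1))
    have h1 : a = (z ^ k)⁻¹ := eq_inv_of_mul_eq_one_left h
    rw [h1]
    apply inv_eq_of_mul_eq_one_right
    rw [← pow_add, Nat.mul_sub_one, Nat.add_sub_of_le (Nat.le_mul_of_pos_right k hp.pos),
      mul_comm, pow_mul, hzp, one_pow]
  let Wk : ℕ → AddSubgroup V := fun k =>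
    { carrier := {v | b k • v = v}
      add_mem' := by
        intro x y hx hy
        show b k • (x + y) = x + y
        rw [smul_add, show b k • x = x from hx, show b k • y = y from hy]
      zero_mem' := smul_zero _
      neg_mem' := by
        intro x hx
        show b k • (-x) = -x
        rw [smul_neg, show b k • x = x from hx] }
  have hWk : ∀ k v, v ∈ Wk k ↔ b k • v = v := fun k v => Iff.rfl
  have hbcomm : ∀ k l, Commute (b k) (b l) := by
    intro k l
    show Commute (a * z ^ k) (a * z ^ l)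
    exact ((Commute.refl a).mul_right (haz_comm.pow_right l)).mul_left
      ((hza.pow_left k).mul_right ((Commute.refl z).pow_pow k l))
  have hkey : ∀ k l, k < p → l < p → k ≠ l → ∀ u : V, b k • u = u → b l • u = u → u = 0 := by
    have aux : ∀ k l, k < l → l < p → ∀ u : V, b k • u = u → b l • u = u → u = 0 := by
      intro k l hkl hlp u hk hl
      apply hfix
      apply baerX3_fix_of_pow z hzp (l - k) (by omega) (by omega)
      have e : z ^ (l - k) * b k = b l := by
        show z ^ (l - k) * (a * z ^ k) = a * z ^ l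
        rw [← mul_assoc, (hza.pow_left (l - k)).eq, mul_assoc, ← pow_add, Nat.sub_add_cancel hkl.le]
      calc z ^ (l - k) • u = z ^ (l - k) • b k • u := by rw [hk]
        _ = b l • u := by rw [← mul_smul, e]
        _ = u := hl
    intro k l hk hl hne u hku hlu
    rcases Nat.lt_or_gt_of_ne hne with h | h
    · exact aux k l h hl u hku hlu
    · exact aux l k h hk u hlu hku
  have hsum : ∀ v : V, ∑ k ∈ Finset.range p, baerX3_N p (b k) v = p • v := by
    intro v
    simp only [baerX3_N_apply]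
    rw [Finset.sum_comm]
    have hm0 : ∀ m ∈ Finset.range p, m ≠ 0 → ∑ k ∈ Finset.range p, b k ^ m • v = 0 := by
      intro m hm hm0
      rw [Finset.mem_range] at hm
      have e : ∀ k, b k ^ m • v = a ^ m • (z ^ m) ^ k • v := by
        intro k
        show (a * z ^ k) ^ m • v = _
        rw [(haz_comm.pow_right k).mul_pow, mul_smul, ← pow_mul, ← pow_mul, mul_comm k m]
      simp only [e]
      rw [← Finset.smul_sum, ← baerX3_N_apply (p := p) (z ^ m) v]
      have h1 : z ^ m • baerX3_N p (z ^ m) v = baerX3_N p (z ^ m) v :=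
        baerX3_N_fixed (z ^ m) (by rw [← pow_mul, mul_comm, pow_mul, hzp, one_pow]) v
      have h2 := hfix _ (baerX3_fix_of_pow z hzp m (Nat.pos_of_ne_zero hm0) hm _ h1)
      rw [h2, smul_zero]
    rw [Finset.sum_eq_single_of_mem 0 (Finset.mem_range.2 hp.pos) hm0]
    simp
  have hnot : ∀ k0, k0 < p → ¬ (∀ k, k < p → k ≠ k0 → Wk k = ⊥) := by
    intro k0 hk0 hall
    apply hb1 k0
    apply hm.faithful
    intro v
    have h1 : ∑ k ∈ Finset.range p, baerX3_N p (b k) v = baerX3_N p (b k0) v := by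
      apply Finset.sum_eq_single_of_mem k0 (Finset.mem_range.2 hk0)
      intro k hk hkne
      have h2 : baerX3_N p (b k) v ∈ Wk k := baerX3_N_fixed (b k) (hbp k) v
      rw [hall k (Finset.mem_range.1 hk) hkne, AddSubgroup.mem_bot] at h2
      exact h2
    rw [hsum v] at h1
    have h3 : b k0 • (p • v) = p • v := by
      rw [h1]
      exact baerX3_N_fixed (b k0) (hbp k0) v
    have h4 : p • (b k0 • v - v) = 0 := by rw [smul_sub, ← smul_comm, h3, sub_self]
    exact sub_eq_zero.1 (hpV _ h4)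
  let ι := {k : Fin p // Wk k ≠ ⊥}
  have hcard2 : 2 ≤ Fintype.card ι := by
    have h0 : ∃ k1 : Fin p, Wk k1 ≠ ⊥ := by
      by_contra hcon
      push Not at hcon
      exact hnot 0 hp.pos (fun k hk _ => hcon ⟨k, hk⟩)
    obtain ⟨k1, hk1⟩ := h0
    have h1 : ∃ k2 : Fin p, k2 ≠ k1 ∧ Wk k2 ≠ ⊥ := by
      by_contra hcon
      push Not at hcon
      exact hnot k1 k1.isLt (fun k hk hne => hcon ⟨k, hk⟩ (fun h => hne (congrArg Fin.val h)))
    obtain ⟨k2, hk21, hk2⟩ := h1
    have hne : (⟨k1, hk1⟩ : ι) ≠ ⟨k2, hk2⟩ := fun h => hk21 (congrArg Subtype.val h).symm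
    exact Fintype.one_lt_card_iff_nontrivial.2 ⟨⟨_, _, hne⟩⟩
  have hcardp : Fintype.card ι ≤ p := by
    calc Fintype.card ι ≤ Fintype.card (Fin p) := Fintype.card_subtype_le _
      _ = p := Fintype.card_fin p
  apply Cfsg.Agent.Lib.Helper42.component_lemma hm (fun i : ι => Wk i.1) (fun i => i.2) ?_ ?_
    hcard2 hcardp
  · intro f hf hsum0 i0
    have h1 : baerX3_N p (b i0.1) (∑ i, f i) = 0 := by rw [hsum0, map_zero]
    rw [map_sum] at h1
    rw [Finset.sum_eq_single_of_mem i0 (Finset.mem_univ _)] at h1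
    · rw [baerX3_N_of_fixed (b i0.1) (f i0) (hf i0)] at h1
      exact hpV _ h1
    · intro i _ hne
      have hne' : (i.1 : ℕ) ≠ i0.1 := fun h => hne (Subtype.ext (Fin.ext h))
      apply hkey i.1 i0.1 i.1.isLt i0.1.isLt hne'
      · exact baerX3_N_comm (b i0.1) (b i.1) (hbcomm _ _) (f i) (hf i)
      · exact baerX3_N_fixed (b i0.1) (hbp _) (f i)
  · intro h i w hw
    by_cases hw0 : w = 0
    · exact ⟨i, by rw [hw0, smul_zero]; exact zero_mem _⟩
    obtain ⟨x, hx, hxw⟩ := hm.toBaerAct.sylow_orbit P h w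
    obtain ⟨k', hk'⟩ := hn x hx
    have hkp : (i.1.val + k') % p < p := Nat.mod_lt _ hp.pos
    have hmem : x • w ∈ Wk ((i.1.val + k') % p) := by
      show b ((i.1.val + k') % p) • x • w = x • w
      have e1 : b ((i.1.val + k') % p) = x * b i.1.val * x⁻¹ := by
        show a * z ^ ((i.1.val + k') % p) = x * (a * z ^ i.1.val) * x⁻¹
        rw [← pow_eq_pow_mod _ hzp]
        have hxz : x * z ^ i.1.val * x⁻¹ = z ^ i.1.val := by
          rw [← conj_pow, hzc x hx, mul_inv_cancel_right]
        calc a * z ^ (i.1.val + k') = (a * z ^ k') * z ^ i.1.val := by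
              rw [mul_assoc, ← pow_add, add_comm]
          _ = (x * a * x⁻¹) * (x * z ^ i.1.val * x⁻¹) := by rw [hk', hxz]
          _ = x * (a * z ^ i.1.val) * x⁻¹ := by group
      rw [e1, ← mul_smul, inv_mul_cancel_right, mul_smul, (hWk _ _).1 hw]
    have hne : Wk ((i.1.val + k') % p) ≠ ⊥ := by
      intro hbot
      rw [hbot, AddSubgroup.mem_bot, smul_eq_zero_iff_eq] at hmem
      exact hw0 hmem
    exact ⟨⟨⟨_, hkp⟩, hne⟩, hxw ▸ hmem⟩

end Cfsg.Agent.Lib.Helper75
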