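import Cfsg.Agent.Lib.Helper80.BaerBasic
import Cfsg.Agent.Lib.Helper42.BaerCL

/-!
# q-Baer groups (S4125), piece X7A: the linear-algebra context for `p = 2`
-/

set_option autoImplicit false

namespace Cfsg.Agent.Lib.Helper75

open Cfsg.Agent.Lib.Helper80

variable {H V : Type*} [Group H] [Finite H] [AddCommGroup V] [Finite V] [DistribMulAction H V]

omit [Finite H] in
/-- a group of order `2 ^ (s + 1)` is generated by an element of order `2 ^ s` and any element
outside the cyclic group it generates -/
theorem baerX7_closure [Finite H] (P : Subgroup H) (s : ℕ) (c j : H) (hcP : c ∈ P) (hjP : j ∈ P)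
    (hc : orderOf c = 2 ^ s) (hcard : Nat.card P = 2 ^ (s + 1))
    (hj : j ∉ Subgroup.zpowers c) : Subgroup.closure {c, j} = P := by
  set Q := Subgroup.closure ({c, j} : Set H) with hQ
  have hQP : Q ≤ P := by
    rw [hQ, Subgroup.closure_le]
    rintro x (rfl | rfl)
    · exact hcP
    · exact hjP
  have hcQ : Subgroup.zpowers c ≤ Q := by
    rw [Subgroup.zpowers_le]
    exact Subgroup.subset_closure (by simp)
  have hjQ : j ∈ Q := Subgroup.subset_closure (by simp)
  have h1 : Nat.card (Subgroup.zpowers c) = 2 ^ s := by rw [Nat.card_zpowers, hc]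
  have h2 : Nat.card (Subgroup.zpowers c) ∣ Nat.card Q := Subgroup.card_dvd_of_le hcQ
  have h3 : Nat.card Q ∣ Nat.card P := Subgroup.card_dvd_of_le hQP
  rw [hcard] at h3
  obtain ⟨t, ht, hQt⟩ := (Nat.dvd_prime_pow Nat.prime_two).1 h3
  rw [h1, hQt] at h2
  have hst : s ≤ t := (Nat.pow_dvd_pow_iff_le_right (by norm_num)).1 h2
  have hne : t ≠ s := by
    rintro rfl
    have : Subgroup.zpowers c = Q := Subgroup.eq_of_le_of_card_ge hcQ (by rw [h1, hQt])
    exact hj (this ▸ hjQ)
  have hts : t = s + 1 := by omega
  exact Subgroup.eq_of_le_of_card_ge hQP (by rw [hcard, hQt, hts])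

omit [Finite H] in
/-- induction over a finite group generated by two elements -/
theorem baerX7_induction [Finite H] (P : Subgroup H) (c j : H)
    (hP : Subgroup.closure {c, j} = P) (C : H → Prop) (h1 : C 1) (hc : C c) (hj : C j)
    (hmul : ∀ x y, C x → C y → C (x * y)) : ∀ x ∈ P, C x := by
  intro x hx
  rw [← hP] at hx
  have hpow : ∀ (y : H), C y → ∀ n : ℕ, C (y ^ n) := by
    intro y hy n
    induction n with
    | zero => rw [pow_zero]; exact h1
    | succ n ih => rw [pow_succ]; exact hmul _ _ ih hy
  induction hx using Subgroup.closure_induction with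
  | mem y hy =>
    rcases hy with rfl | rfl
    · exact hc
    · exact hj
  | one => exact h1
  | mul y z _ _ hy hz => exact hmul y z hy hz
  | inv y _ hy =>
    have e : y⁻¹ = y ^ (orderOf y - 1) :=
      inv_eq_of_mul_eq_one_left (by
        rw [← pow_succ, Nat.sub_add_cancel (orderOf_pos y), pow_orderOf_eq_one])
    rw [e]
    exact hpow y hy _

theorem semiCtx_of_min (hm : BaerMin 2 H V) (hns : ¬ Group.IsSolvable H) (P : Sylow 2 H) (s : ℕ)
    (c j : H) (hcP : c ∈ P) (hjP : j ∈ P) (hs : 2 ≤ s) (hc : orderOf c = 2 ^ s)
    (hcard : Nat.card P = 2 ^ (s + 1)) (hj : j ∉ Subgroup.zpowers c)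
    (hrel : j * c * j⁻¹ = c⁻¹ ∨ (3 ≤ s ∧ j * c * j⁻¹ = c⁻¹ * c ^ (2 ^ (s - 1))))
    (hj2 : j * j = 1 ∨ j * j = c ^ (2 ^ (s - 1))) :
    ∃ q : ℕ, SemiCtx q V (DistribMulAction.toAddMonoidEnd H V c)
      (DistribMulAction.toAddMonoidEnd H V j) s := by
  have : Fact (Nat.Prime 2) := ⟨Nat.prime_two⟩
  have hnt : Nontrivial V := by
    by_contra hV
    rw [not_nontrivial_iff_subsingleton] at hV
    apply hns
    have : Subsingleton H := ⟨fun x y => by
      have hx := hm.faithful x (fun v => Subsingleton.elim _ _)
      have hy := hm.faithful y (fun v => Subsingleton.elim _ _)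
      rw [hx, hy]⟩
    infer_instance
  obtain ⟨q, hq, hqV⟩ := hm.exists_prime
  have h2H : 2 ∣ Nat.card H := by
    have h : orderOf c ∣ Nat.card H := orderOf_dvd_natCard c
    rw [hc] at h
    exact (dvd_pow_self 2 (by omega)).trans h
  have hcop : Nat.gcd (Nat.card H) (Nat.card V) = 1 := hm.coprime
  have hqcard : q ∣ Nat.card V := by
    obtain ⟨v, hv⟩ := exists_ne (0 : V)
    have h1 : addOrderOf v ∣ q := addOrderOf_dvd_of_nsmul_eq_zero (hqV v)
    have h2 : addOrderOf v = q := by
      rcases (Nat.dvd_prime hq).1 h1 with h | h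
      · exact absurd (AddMonoid.addOrderOf_eq_one_iff.1 h) hv
      · exact h
    rw [← h2]
    exact addOrderOf_dvd_natCard v
  have hq2 : q ≠ 2 := by
    rintro rfl
    have h := Nat.dvd_gcd h2H hqcard
    rw [hcop] at h
    omega
  have h2tf : ∀ v : V, 2 • v = 0 → v = 0 := by
    intro v hv
    have hodd : q % 2 = 1 := (hq.eq_two_or_odd).resolve_left hq2
    have h : (q % 2 + q / 2 * 2) • v = 0 := by rw [Nat.mod_add_div']; exact hqV v
    rw [add_smul, mul_smul, hv, smul_zero, add_zero, hodd, one_smul] at h
    exact h
  set z := c ^ (2 ^ (s - 1)) with hz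
  have hzP : z ∈ P := pow_mem hcP _
  have hz1 : z ≠ 1 := by
    intro h
    have h1 := orderOf_dvd_of_pow_eq_one h
    rw [hc] at h1
    have h2 := (Nat.pow_dvd_pow_iff_le_right (by norm_num : 1 < 2)).1 h1
    omega
  have hzz : z * z = 1 := by
    have e : 2 ^ (s - 1) + 2 ^ (s - 1) = 2 ^ s := by
      have : s = (s - 1) + 1 := by omega
      conv_rhs => rw [this, pow_succ]
      ring
    rw [hz, ← pow_add, e, ← hc, pow_orderOf_eq_one]
  have hzc : z * c = c * z := ((Commute.refl c).pow_left _).eq
  have hzinv : z⁻¹ = z := inv_eq_of_mul_eq_one_left hzz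
  have hzj : z * j = j * z := by
    have hconj : j * z * j⁻¹ = (j * c * j⁻¹) ^ (2 ^ (s - 1)) := by rw [hz, conj_pow]
    have h1 : j * z * j⁻¹ = z := by
      rw [hconj]
      rcases hrel with h | ⟨h3, h⟩
      · rw [h, inv_pow, ← hz, hzinv]
      · rw [h]
        have hcomm : Commute c⁻¹ z := ((Commute.refl c).pow_right _).inv_left
        have hzpow : z ^ (2 ^ (s - 1)) = 1 := by
          have e : 2 ^ (s - 1) = 2 * 2 ^ (s - 2) := by
            have : s - 1 = (s - 2) + 1 := by omega
            rw [this, pow_succ]
            ring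
          rw [e, pow_mul, pow_two, hzz, one_pow]
        rw [hcomm.mul_pow, inv_pow, ← hz, hzinv, hzpow, mul_one]
    calc z * j = (j * z * j⁻¹) * j := by rw [h1]
      _ = j * z := by group
  have hPcl := baerX7_closure (P : Subgroup H) s c j hcP hjP hc hcard hj
  have hzcen : ∀ x ∈ P, x * z = z * x := by
    apply baerX7_induction (P : Subgroup H) c j hPcl (fun x => x * z = z * x)
    · simp
    · exact hzc.symm
    · exact hzj.symm
    · intro x y hx hy
      show x * y * z = z * (x * y)
      rw [mul_assoc, hy, ← mul_assoc, hx, mul_assoc]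
  have hfix : ∀ v : V, z • v = v → v = 0 := fun v hv => hm.fixed_eq_zero P z hzP hzcen hz1 v hv
  have hzneg : ∀ v : V, z • v = -v := by
    intro v
    have h : z • (v + z • v) = v + z • v := by
      rw [smul_add, ← mul_smul, hzz, one_smul, add_comm]
    exact (neg_eq_of_add_eq_zero_right (hfix _ h)).symm
  have hφz : DistribMulAction.toAddMonoidEnd H V z = -1 := by
    apply AddMonoidHom.ext
    intro v
    exact hzneg v
  have hirr : ∀ W : AddSubgroup V, (∀ w ∈ W, c • w ∈ W) → (∀ w ∈ W, j • w ∈ W) →
      W = ⊥ ∨ W = ⊤ := by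
    intro W hWc hWj
    apply hm.sylow_irred P W
    apply baerX7_induction (P : Subgroup H) c j hPcl (fun x => ∀ w ∈ W, x • w ∈ W)
    · intro w hw
      rwa [one_smul]
    · exact hWc
    · exact hWj
    · intro x y hx hy w hw
      rw [mul_smul]
      exact hx _ (hy w hw)
  refine ⟨q, ?_⟩
  refine
    { hs := hs, hq := hq, hodd := hq2, hqV := hqV, hnt := hnt,
      hc := by rw [← map_pow]; exact hφz
      hj := ?_
      hj2 := ?_
      irr := fun W hWc hWj => hirr W hWc hWj
      il := ?_ }
  · rcases hrel with h | ⟨h3, h⟩
    · left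
      have h1 : j * c = c⁻¹ * j := by rw [← h]; group
      have e : c * j * c = j := by rw [mul_assoc, h1, ← mul_assoc, mul_inv_cancel, one_mul]
      rw [← map_mul, ← map_mul, e]
    · right
      refine ⟨h3, ?_⟩
      have h1 : j * c = c⁻¹ * z * j := by rw [← h]; group
      have e : c * j * c = z * j := by rw [mul_assoc, h1]; group
      rw [← map_mul, ← map_mul, e, map_mul, hφz, neg_one_mul]
  · rcases hj2 with h | h
    · left
      rw [← map_mul, h, map_one]
    · right
      rw [← map_mul, h]
      exact hφz
  · intro e hee hec hej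
    have he_inv : ∀ v, e (e v) = v := fun v => congrArg (fun f : AddMonoid.End V => f v) hee
    have hecv : ∀ v, e (c • v) = c • e v := fun v => congrArg (fun f : AddMonoid.End V => f v) hec
    let Wp : AddSubgroup V :=
      { carrier := {v | e v = v}
        add_mem' := by
          intro a b ha hb
          show e (a + b) = a + b
          rw [map_add, show e a = a from ha, show e b = b from hb]
        zero_mem' := map_zero e
        neg_mem' := by
          intro a ha
          show e (-a) = -a
          rw [map_neg, show e a = a from ha] }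
    let Wm : AddSubgroup V :=
      { carrier := {v | e v = -v}
        add_mem' := by
          intro a b ha hb
          show e (a + b) = -(a + b)
          rw [map_add, show e a = -a from ha, show e b = -b from hb, neg_add]
        zero_mem' := by
          show e 0 = -0
          rw [map_zero, neg_zero]
        neg_mem' := by
          intro a ha
          show e (-a) = - -a
          rw [map_neg, show e a = -a from ha] }
    have hWp : ∀ v, v ∈ Wp ↔ e v = v := fun v => Iff.rfl
    have hWm : ∀ v, v ∈ Wm ↔ e v = -v := fun v => Iff.rfl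
    have hplus : ∀ v, v + e v ∈ Wp := by
      intro v
      rw [hWp, map_add, he_inv, add_comm]
    have hminus : ∀ v, v - e v ∈ Wm := by
      intro v
      rw [hWm, map_sub, he_inv, neg_sub]
    have hcp : ∀ w ∈ Wp, c • w ∈ Wp := by
      intro w hw
      rw [hWp] at hw ⊢
      rw [hecv, hw]
    rcases hej with hej | hej
    · have hejv : ∀ v, e (j • v) = j • e v :=
        fun v => (congrArg (fun f : AddMonoid.End V => f v) hej).symm
      have hjp : ∀ w ∈ Wp, j • w ∈ Wp := by
        intro w hw
        rw [hWp] at hw ⊢
        rw [hejv, hw]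
      rcases hirr Wp hcp hjp with h | h
      · right
        apply AddMonoidHom.ext
        intro v
        have h1 := hplus v
        rw [h, AddSubgroup.mem_bot] at h1
        exact (neg_eq_of_add_eq_zero_right h1).symm
      · left
        apply AddMonoidHom.ext
        intro v
        have h1 : v ∈ Wp := by rw [h]; trivial
        exact h1
    · exfalso
      have hejv : ∀ v, e (j • v) = -(j • e v) := by
        intro v
        have h1 : j • e v = -(e (j • v)) := congrArg (fun f : AddMonoid.End V => f v) hej
        rw [h1, neg_neg]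
      have hcm : ∀ w ∈ Wm, c • w ∈ Wm := by
        intro w hw
        rw [hWm] at hw ⊢
        rw [hecv, hw, smul_neg]
      have hjpm : ∀ w ∈ Wp, j • w ∈ Wm := by
        intro w hw
        rw [hWp] at hw
        rw [hWm, hejv, hw]
      have hjmp : ∀ w ∈ Wm, j • w ∈ Wp := by
        intro w hw
        rw [hWm] at hw
        rw [hWp, hejv, hw, smul_neg, neg_neg]
      let W : Bool → AddSubgroup V := fun b => if b then Wp else Wm
      have hWt : W true = Wp := rfl
      have hWf : W false = Wm := rfl
      have hPW : ∀ x ∈ P, ∀ b : Bool, ∃ b' : Bool, ∀ w ∈ W b, x • w ∈ W b' := by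
        apply baerX7_induction (P : Subgroup H) c j hPcl
          (fun x => ∀ b : Bool, ∃ b' : Bool, ∀ w ∈ W b, x • w ∈ W b')
        · intro b
          exact ⟨b, fun w hw => by rwa [one_smul]⟩
        · intro b
          refine ⟨b, ?_⟩
          cases b
          · exact hcm
          · exact hcp
        · intro b
          refine ⟨!b, ?_⟩
          cases b
          · exact hjmp
          · exact hjpm
        · intro x y hx hy b
          obtain ⟨b1, hb1⟩ := hy b
          obtain ⟨b2, hb2⟩ := hx b1
          exact ⟨b2, fun w hw => by rw [mul_smul]; exact hb2 _ (hb1 w hw)⟩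
      have hinv : ∀ (h : H) (b : Bool) (w : V), w ∈ W b → ∃ b', h • w ∈ W b' := by
        intro h b w hw
        obtain ⟨x, hx, hxw⟩ := hm.toBaerAct.sylow_orbit P h w
        obtain ⟨b', hb'⟩ := hPW x hx b
        exact ⟨b', hxw ▸ hb' w hw⟩
      have hne : ∀ b, W b ≠ ⊥ := by
        obtain ⟨v, hv⟩ := exists_ne (0 : V)
        intro b hb
        cases b
        · -- Wm = ⊥
          rw [hWf] at hb
          have h1 : ∀ u : V, u ∈ Wp := by
            intro u
            have h2 := hminus u
            rw [hb, AddSubgroup.mem_bot, sub_eq_zero] at h2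
            rw [hWp]
            exact h2.symm
          have h3 := hjpm v (h1 v)
          rw [hb, AddSubgroup.mem_bot, smul_eq_zero_iff_eq] at h3
          exact hv h3
        · rw [hWt] at hb
          have h1 : ∀ u : V, u ∈ Wm := by
            intro u
            have h2 := hplus u
            rw [hb, AddSubgroup.mem_bot] at h2
            rw [hWm]
            exact (neg_eq_of_add_eq_zero_right h2).symm
          have h3 := hjmp v (h1 v)
          rw [hb, AddSubgroup.mem_bot, smul_eq_zero_iff_eq] at h3
          exact hv h3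
      have hind : ∀ f : Bool → V, (∀ b, f b ∈ W b) → ∑ b, f b = 0 → ∀ b, f b = 0 := by
        intro f hf hsum
        rw [Fintype.sum_bool] at hsum
        have ht : e (f true) = f true := hf true
        have hfl : e (f false) = -f false := hf false
        have h1 : f true = -f false := eq_neg_of_add_eq_zero_left hsum
        have h2 : f true = f false := by
          have h3 : e (f true) = f false := by rw [h1, map_neg, hfl, neg_neg]
          rw [← ht, h3]
        have h4 : f true = 0 := by
          apply h2tf
          rw [two_nsmul]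
          nth_rewrite 2 [h2]
          exact hsum
        intro b
        cases b
        · rw [← h2, h4]
        · exact h4
      exact hns (Cfsg.Agent.Lib.Helper42.component_lemma (p := 2) hm W hne hind hinv
        (by simp) (by simp))

end Cfsg.Agent.Lib.Helper75
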