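import Mathlib
import Cfsg.Agent.Lib.Helper80.CTDefs

/-!
# S5748 (CT-groups), piece TRANS

`A` is transitive on the non-trivial cosets of `N`.
-/

set_option autoImplicit false

namespace Cfsg.Agent.Lib.Helper75.CTTRANS

open Cfsg.Agent.Lib.Helper80.CT

section

variable {G : Type*} [Group G] [Finite G]

variable {A N : Subgroup G} {q : ℕ}

/-- piece TRANS -/
theorem trans_A (hD : Data G A N q) (hidx : N.index = Nat.card A + 1)
    (hfixA : ∀ x ∈ A, x ≠ 1 → ∀ g : G, g⁻¹ * x * g ∈ N → g ∈ N) :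
    ∀ g g' : G, g ∉ N → g' ∉ N → ∃ x ∈ A, (x * g)⁻¹ * g' ∈ N := by
  intro g g' hg hg'
  obtain ⟨φ, hφ⟩ : ∃ φ : A → G ⧸ N, ∀ x : A, φ x = ((x.1 * g : G) : G ⧸ N) :=
    ⟨fun x => ((x.1 * g : G) : G ⧸ N), fun _ => rfl⟩
  have hinj : Function.Injective φ := by
    intro x x' h
    rw [hφ, hφ] at h
    have h1 : (x.1 * g)⁻¹ * (x'.1 * g) ∈ N := QuotientGroup.eq.1 h
    have h2 : g⁻¹ * (x.1⁻¹ * x'.1) * g ∈ N := by
      have e : g⁻¹ * (x.1⁻¹ * x'.1) * g = (x.1 * g)⁻¹ * (x'.1 * g) := by group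
      rw [e]
      exact h1
    by_contra hne
    have h3 : x.1⁻¹ * x'.1 ≠ 1 := by
      intro h4
      apply hne
      apply Subtype.ext
      exact inv_mul_eq_one.1 h4
    exact hg (hfixA _ (A.mul_mem (A.inv_mem x.2) x'.2) h3 g h2)
  have hS : (φ '' Set.univ).ncard = Nat.card A := by
    rw [Set.ncard_image_of_injective _ hinj, Set.ncard_univ]
  have hT : ({((1 : G) : G ⧸ N)}ᶜ : Set (G ⧸ N)).ncard = Nat.card A := by
    rw [Set.ncard_compl, Set.ncard_singleton]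
    have h1 : Nat.card (G ⧸ N) = N.index := rfl
    rw [h1, hidx]
    omega
  have hsub : φ '' Set.univ ⊆ ({((1 : G) : G ⧸ N)}ᶜ : Set (G ⧸ N)) := by
    rintro _ ⟨x, -, rfl⟩
    rw [Set.mem_compl_iff, Set.mem_singleton_iff, hφ]
    intro h
    have h1 : (x.1 * g)⁻¹ * 1 ∈ N := QuotientGroup.eq.1 h
    apply hg
    rw [mul_one] at h1
    have h2 := N.inv_mem h1
    rw [inv_inv] at h2
    have h3 : g = x.1⁻¹ * (x.1 * g) := by group
    rw [h3]
    exact N.mul_mem (N.inv_mem (hD.le x.2)) h2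
  have heq := Set.eq_of_subset_of_ncard_le hsub (by rw [hS, hT])
  have hmem : ((g' : G) : G ⧸ N) ∈ ({((1 : G) : G ⧸ N)}ᶜ : Set (G ⧸ N)) := by
    rw [Set.mem_compl_iff, Set.mem_singleton_iff]
    intro h
    have h1 : g'⁻¹ * 1 ∈ N := QuotientGroup.eq.1 h
    rw [mul_one] at h1
    have h2 := N.inv_mem h1
    rw [inv_inv] at h2
    exact hg' h2
  rw [← heq] at hmem
  obtain ⟨x, -, hx⟩ := hmem
  rw [hφ] at hx
  exact ⟨x.1, x.2, QuotientGroup.eq.1 hx⟩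

end

end Cfsg.Agent.Lib.Helper75.CTTRANS
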