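import Mathlib
import Cfsg.Agent.Lib.Helper4.FCDefs
import Cfsg.Agent.S4033
import Cfsg.Agent.S4034

/-! Project FC (S4146, helper4): piece `S33APP`. The `q`-regular class sizes are `{1, n}`; by
S4033 either there is an abelian `q`-complement (then S4034 makes `n` a power of `q`) or the
group is `(P R) × A` and S33B applies. -/

set_option autoImplicit false

namespace Cfsg.Agent.Lib.Helper4.FC

universe u

theorem fc_s33app : S33BStmt.{u} → S33AppStmt.{u} := by
  intro hB D _ _ q p n hq hp hpq hn hreg w hw hwn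
  obtain ⟨k, hk⟩ := hw
  have hwcop : (orderOf w).Coprime q := by
    rw [hk]
    exact Nat.Coprime.pow_left k ((Nat.coprime_primes hp hq).mpr hpq)
  have hcs1 : cs (1 : D) = 1 := by
    show (Subgroup.centralizer ({1} : Set D)).index = 1
    rw [Subgroup.index_eq_one, eq_top_iff]
    intro g _
    rw [Subgroup.mem_centralizer_iff]
    intro h hh
    rw [Set.mem_singleton_iff.mp hh, one_mul, mul_one]
  have hset : Set.range (fun x : {x : D // (orderOf x).Coprime q} =>
      (ConjClasses.mk (x : D)).carrier.ncard) = {1, n} := by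
    ext t
    constructor
    · rintro ⟨⟨x, hx⟩, rfl⟩
      show (ConjClasses.mk x).carrier.ncard ∈ ({1, n} : Set ℕ)
      rw [Cfsg.Agent.S4034.ncard_carrier_eq_index, Set.mem_insert_iff, Set.mem_singleton_iff]
      exact hreg x hx
    · intro ht
      rw [Set.mem_insert_iff, Set.mem_singleton_iff] at ht
      rcases ht with rfl | rfl
      · refine ⟨⟨1, by rw [orderOf_one]; exact Nat.coprime_one_left q⟩, ?_⟩
        show (ConjClasses.mk (1 : D)).carrier.ncard = 1
        rw [Cfsg.Agent.S4034.ncard_carrier_eq_index]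
        exact hcs1
      · refine ⟨⟨w, hwcop⟩, ?_⟩
        show (ConjClasses.mk w).carrier.ncard = _
        rw [Cfsg.Agent.S4034.ncard_carrier_eq_index]
        exact hwn
  have h2 : Set.ncard (Set.range (fun x : {x : D // (orderOf x).Coprime q} =>
      (ConjClasses.mk (x : D)).carrier.ncard)) = 2 := by
    rw [hset]
    exact Set.ncard_pair (by omega)
  rcases Cfsg.Agent.S4033.result hq h2 with hH | hPQ
  · obtain ⟨j, hj⟩ := (Cfsg.Agent.S4034.result hq).mpr hH w hwcop
    rw [Cfsg.Agent.S4034.ncard_carrier_eq_index] at hj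
    refine ⟨j, 0, ?_⟩
    rw [pow_zero, mul_one, ← hj]
    exact dvd_of_eq hwn.symm
  · obtain ⟨r, hr, P, R, A, hrq, hA, hcard, hnorm, hinf, hsup⟩ := hPQ
    have hwnc : w ∉ Subgroup.center D := by
      intro hc
      have h3 : cs w = 1 := by
        show (Subgroup.centralizer ({w} : Set D)).index = 1
        rw [Subgroup.index_eq_one, eq_top_iff]
        intro g _
        rw [Subgroup.mem_centralizer_iff]
        intro h hh
        rw [Set.mem_singleton_iff.mp hh]
        exact ((Subgroup.mem_center_iff.mp hc) g).symm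
      omega
    obtain ⟨x, y, hxy⟩ :=
      hB D q p r P R A hq hp hr.out hpq hrq hA hcard hnorm hinf hsup w ⟨k, hk⟩ hwnc
    exact ⟨x, y, hwn ▸ hxy⟩

end Cfsg.Agent.Lib.Helper4.FC
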