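import Cfsg.Prelude.Def_JComponents
import Mathlib
import Cfsg.Agent.Lib.Helper78.JcDefs

/-!
S2946 project JC, piece WF (helper75 for helper78): the commutator `⁅V, K⁆` and the norm identity.
-/

set_option autoImplicit false

namespace Cfsg.Agent.Lib.Helper75.Jc

open scoped commutatorElement

variable {G : Type*} [Group G]

theorem wf_conj_mem {V : Subgroup G} {g : G} (hg : g ∈ Subgroup.normalizer (V : Set G)) {v : G}
    (hv : v ∈ V) : g * v * g⁻¹ ∈ V := (Subgroup.mem_normalizer_iff.mp hg v).mp hv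

theorem wf_conj_mem' {V : Subgroup G} {g : G} (hg : g ∈ Subgroup.normalizer (V : Set G)) {v : G}
    (hv : v ∈ V) : g⁻¹ * v * g ∈ V := by
  have h := wf_conj_mem (Subgroup.inv_mem _ hg) hv
  rwa [inv_inv] at h

theorem wf_le (V K : Subgroup G) (hKV : K ≤ Subgroup.normalizer (V : Set G)) : ⁅V, K⁆ ≤ V := by
  rw [Subgroup.commutator_le]
  intro v hv x hx
  have h1 : x * v⁻¹ * x⁻¹ ∈ V := wf_conj_mem (hKV hx) (V.inv_mem hv)
  have e : ⁅v, x⁆ = v * (x * v⁻¹ * x⁻¹) := by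
    rw [commutatorElement_def]
    group
  rw [e]
  exact V.mul_mem hv h1

theorem wf_conj_comm (V K : Subgroup G) (g : G) (hgV : g ∈ Subgroup.normalizer (V : Set G))
    (hgK : g ∈ Subgroup.normalizer (K : Set G)) : ∀ h ∈ ⁅V, K⁆, g * h * g⁻¹ ∈ ⁅V, K⁆ := by
  have hle : ⁅V, K⁆ ≤ (⁅V, K⁆ : Subgroup G).comap (MulAut.conj g).toMonoidHom := by
    rw [Subgroup.commutator_le]
    intro v hv x hx
    rw [Subgroup.mem_comap]
    have e : (MulAut.conj g).toMonoidHom ⁅v, x⁆ = ⁅g * v * g⁻¹, g * x * g⁻¹⁆ := by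
      show g * ⁅v, x⁆ * g⁻¹ = _
      rw [commutatorElement_def, commutatorElement_def]
      group
    rw [e]
    exact Subgroup.commutator_mem_commutator (wf_conj_mem hgV hv) (wf_conj_mem hgK hx)
  intro h hh
  exact hle hh

theorem wf_normalizer (V K : Subgroup G) (g : G) (hgV : g ∈ Subgroup.normalizer (V : Set G))
    (hgK : g ∈ Subgroup.normalizer (K : Set G)) :
    g ∈ Subgroup.normalizer ((⁅V, K⁆ : Subgroup G) : Set G) := by
  rw [Subgroup.mem_normalizer_iff]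
  intro h
  constructor
  · exact wf_conj_comm V K g hgV hgK h
  · intro hh
    have h2 := wf_conj_comm V K g⁻¹ (Subgroup.inv_mem _ hgV) (Subgroup.inv_mem _ hgK) _ hh
    have e : g⁻¹ * (g * h * g⁻¹) * g⁻¹⁻¹ = h := by group
    rwa [e] at h2

theorem wf_fpf (V K Q : Subgroup G) (k : G) (hVab : ∀ a ∈ V, ∀ b ∈ V, a * b = b * a)
    (hQV : ∀ q ∈ Q, ∀ v ∈ V, q * v = v * q) (hKV : K ≤ Subgroup.normalizer (V : Set G))
    (hcases : ∀ x ∈ K, ∃ q ∈ Q, x = q ∨ x = k * q ∨ x = k⁻¹ * q) (hk : k ∈ K) (hk3 : k ^ 3 = 1) :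
    ∀ w ∈ ⁅V, K⁆, w * (k * w * k⁻¹) * (k⁻¹ * w * k) = 1 := by
  have hkV : k ∈ Subgroup.normalizer (V : Set G) := hKV hk
  have hkk : k * k = k⁻¹ := by
    have h : k * k * k = 1 := by
      rw [← hk3, pow_succ, pow_succ, pow_one]
    exact eq_inv_of_mul_eq_one_left h
  obtain ⟨N, hN⟩ : ∃ N : G → G, ∀ u, N u = u * (k * u * k⁻¹) * (k⁻¹ * u * k) :=
    ⟨fun u => u * (k * u * k⁻¹) * (k⁻¹ * u * k), fun _ => rfl⟩
  have hNmul : ∀ u ∈ V, ∀ u' ∈ V, N (u * u') = N u * N u' := by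
    intro u hu u' hu'
    rw [hN, hN, hN]
    have h1 : u' * (k * u * k⁻¹) = (k * u * k⁻¹) * u' := hVab _ hu' _ (wf_conj_mem hkV hu)
    have h2 : u' * (k⁻¹ * u * k) = (k⁻¹ * u * k) * u' := hVab _ hu' _ (wf_conj_mem' hkV hu)
    have h3 : (k * u' * k⁻¹) * (k⁻¹ * u * k) = (k⁻¹ * u * k) * (k * u' * k⁻¹) :=
      hVab _ (wf_conj_mem hkV hu') _ (wf_conj_mem' hkV hu)
    calc u * u' * (k * (u * u') * k⁻¹) * (k⁻¹ * (u * u') * k)
        = u * (u' * (k * u * k⁻¹)) * (k * u' * k⁻¹) * (k⁻¹ * u * k) * (k⁻¹ * u' * k) := by group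
      _ = u * ((k * u * k⁻¹) * u') * (k * u' * k⁻¹) * (k⁻¹ * u * k) * (k⁻¹ * u' * k) := by
          rw [h1]
      _ = u * (k * u * k⁻¹) * u' * ((k * u' * k⁻¹) * (k⁻¹ * u * k)) * (k⁻¹ * u' * k) := by group
      _ = u * (k * u * k⁻¹) * u' * ((k⁻¹ * u * k) * (k * u' * k⁻¹)) * (k⁻¹ * u' * k) := by
          rw [h3]
      _ = u * (k * u * k⁻¹) * (u' * (k⁻¹ * u * k)) * (k * u' * k⁻¹) * (k⁻¹ * u' * k) := by group
      _ = u * (k * u * k⁻¹) * ((k⁻¹ * u * k) * u') * (k * u' * k⁻¹) * (k⁻¹ * u' * k) := by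
          rw [h2]
      _ = u * (k * u * k⁻¹) * (k⁻¹ * u * k) * (u' * (k * u' * k⁻¹) * (k⁻¹ * u' * k)) := by group
  have hN1 : N 1 = 1 := by
    rw [hN]
    group
  have hNinv : ∀ u ∈ V, N u⁻¹ = (N u)⁻¹ := by
    intro u hu
    apply eq_inv_of_mul_eq_one_left
    rw [← hNmul _ (V.inv_mem hu) _ hu, inv_mul_cancel, hN1]
  have hNc1 : ∀ v ∈ V, N (k * v * k⁻¹) = N v := by
    intro v hv
    rw [hN, hN]
    have e2 : k * (k * v * k⁻¹) * k⁻¹ = k⁻¹ * v * k := by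
      calc k * (k * v * k⁻¹) * k⁻¹ = (k * k) * v * (k * k)⁻¹ := by group
        _ = k⁻¹ * v * k := by rw [hkk, inv_inv]
    have e3 : k⁻¹ * (k * v * k⁻¹) * k = v := by group
    rw [e2, e3]
    have h1 : (k * v * k⁻¹) * (k⁻¹ * v * k) * v = v * ((k * v * k⁻¹) * (k⁻¹ * v * k)) :=
      hVab _ (V.mul_mem (wf_conj_mem hkV hv) (wf_conj_mem' hkV hv)) _ hv
    rw [h1]
    group
  have hNc2 : ∀ v ∈ V, N (k⁻¹ * v * k) = N v := by
    intro v hv
    rw [hN, hN]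
    have e2 : k * (k⁻¹ * v * k) * k⁻¹ = v := by group
    have e3 : k⁻¹ * (k⁻¹ * v * k) * k = k * v * k⁻¹ := by
      calc k⁻¹ * (k⁻¹ * v * k) * k = (k * k)⁻¹ * v * (k * k) := by group
        _ = k * v * k⁻¹ := by rw [hkk, inv_inv]
    rw [e2, e3]
    have h1 : (k⁻¹ * v * k) * (v * (k * v * k⁻¹)) = (v * (k * v * k⁻¹)) * (k⁻¹ * v * k) :=
      hVab _ (wf_conj_mem' hkV hv) _ (V.mul_mem hv (wf_conj_mem hkV hv))
    calc k⁻¹ * v * k * v * (k * v * k⁻¹) = (k⁻¹ * v * k) * (v * (k * v * k⁻¹)) := by group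
      _ = (v * (k * v * k⁻¹)) * (k⁻¹ * v * k) := h1
  have hgen : ∀ v ∈ V, ∀ x ∈ K, N ⁅v, x⁆ = 1 := by
    intro v hv x hx
    have hxV : x * v * x⁻¹ ∈ V := wf_conj_mem (hKV hx) hv
    have e : ⁅v, x⁆ = v * (x * v * x⁻¹)⁻¹ := by
      rw [commutatorElement_def]
      group
    have hNx : N (x * v * x⁻¹) = N v := by
      obtain ⟨q, hq, hx' | hx' | hx'⟩ := hcases x hx
      · have e1 : x * v * x⁻¹ = v := by
          rw [hx', hQV q hq v hv]
          group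
        rw [e1]
      · have e1 : x * v * x⁻¹ = k * v * k⁻¹ := by
          rw [hx']
          calc k * q * v * (k * q)⁻¹ = k * (q * v) * q⁻¹ * k⁻¹ := by group
            _ = k * (v * q) * q⁻¹ * k⁻¹ := by rw [hQV q hq v hv]
            _ = k * v * k⁻¹ := by group
        rw [e1]
        exact hNc1 v hv
      · have e1 : x * v * x⁻¹ = k⁻¹ * v * k := by
          rw [hx']
          calc k⁻¹ * q * v * (k⁻¹ * q)⁻¹ = k⁻¹ * (q * v) * q⁻¹ * k := by group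
            _ = k⁻¹ * (v * q) * q⁻¹ * k := by rw [hQV q hq v hv]
            _ = k⁻¹ * v * k := by group
        rw [e1]
        exact hNc2 v hv
    rw [e, hNmul v hv _ (V.inv_mem hxV), hNinv _ hxV, hNx, mul_inv_cancel]
  let T : Subgroup G :=
    { carrier := {u | u ∈ V ∧ N u = 1}
      one_mem' := ⟨V.one_mem, hN1⟩
      mul_mem' := by
        rintro a b ⟨ha, ha1⟩ ⟨hb, hb1⟩
        exact ⟨V.mul_mem ha hb, by rw [hNmul a ha b hb, ha1, hb1, one_mul]⟩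
      inv_mem' := by
        rintro a ⟨ha, ha1⟩
        exact ⟨V.inv_mem ha, by rw [hNinv a ha, ha1, inv_one]⟩ }
  have hle : ⁅V, K⁆ ≤ T := by
    rw [Subgroup.commutator_le]
    intro v hv x hx
    exact ⟨wf_le V K hKV (Subgroup.commutator_mem_commutator hv hx), hgen v hv x hx⟩
  intro w hw
  have h4 : N w = 1 := (hle hw).2
  rw [hN] at h4
  exact h4

end Cfsg.Agent.Lib.Helper75.Jc
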