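import Mathlib
import Cfsg.Prelude.Def_HallClasses

set_option autoImplicit false
open Cfsg
open scoped Pointwise

/-! Pronormal subgroups: basic transfer lemmas (helper75). -/

namespace Cfsg.Agent.Lib.Helper75.Pron

section basic
variable {G : Type*} [Group G]

/-- conjugate subgroup `g H g⁻¹`, in the form used by `Cfsg.IsPronormal` -/
def cj (g : G) (H : Subgroup G) : Subgroup G := H.map (MulAut.conj g).toMonoidHom

theorem cj_def (g : G) (H : Subgroup G) : cj g H = H.map (MulAut.conj g).toMonoidHom := rfl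

theorem mem_cj {g y : G} {H : Subgroup G} : y ∈ cj g H ↔ g⁻¹ * y * g ∈ H := by
  constructor
  · rintro ⟨x, hx, rfl⟩
    simpa [mul_assoc] using hx
  · intro h
    exact ⟨g⁻¹ * y * g, h, by simp [mul_assoc]⟩

theorem conj_mem_cj {g y : G} {H : Subgroup G} (hy : y ∈ H) : g * y * g⁻¹ ∈ cj g H :=
  ⟨y, hy, rfl⟩

theorem cj_mul (a b : G) (H : Subgroup G) : cj (a * b) H = cj a (cj b H) := by
  ext y
  simp only [mem_cj]
  simp [mul_assoc]

theorem cj_one (H : Subgroup G) : cj 1 H = H := by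
  ext y
  rw [mem_cj]
  simp

theorem cj_inv_cj (a : G) (H : Subgroup G) : cj a⁻¹ (cj a H) = H := by
  rw [← cj_mul, inv_mul_cancel, cj_one]

theorem cj_cj_inv (a : G) (H : Subgroup G) : cj a (cj a⁻¹ H) = H := by
  rw [← cj_mul, mul_inv_cancel, cj_one]

theorem cj_mono (a : G) {H K : Subgroup G} (h : H ≤ K) : cj a H ≤ cj a K :=
  Subgroup.map_mono h

theorem cj_of_mem {h : G} {H : Subgroup G} (hh : h ∈ H) : cj h H = H := by
  ext y
  rw [mem_cj]
  constructor
  · intro hy
    have := H.mul_mem (H.mul_mem hh hy) (H.inv_mem hh)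
    simpa [mul_assoc] using this
  · intro hy
    exact H.mul_mem (H.mul_mem (H.inv_mem hh) hy) hh

theorem cj_of_mem_normalizer {n : G} {H : Subgroup G}
    (hn : n ∈ Subgroup.normalizer (H : Set G)) : cj n H = H := by
  ext y
  rw [mem_cj]
  exact ((Subgroup.mem_normalizer_iff''.mp hn) y).symm

theorem mem_normalizer_of_cj {n : G} {H : Subgroup G} (h : cj n H = H) :
    n ∈ Subgroup.normalizer (H : Set G) := by
  rw [Subgroup.mem_normalizer_iff'']
  intro y
  rw [← mem_cj, h]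

theorem cj_of_normal (g : G) (A : Subgroup G) [A.Normal] : cj g A = A :=
  cj_of_mem_normalizer (by rw [Subgroup.normalizer_eq_top]; trivial)

theorem cj_le_of_mem {y : G} {K L : Subgroup G} (hy : y ∈ L) (hK : K ≤ L) : cj y K ≤ L := by
  intro z hz
  rw [mem_cj] at hz
  have h1 := hK hz
  have h2 := L.mul_mem (L.mul_mem hy h1) (L.inv_mem hy)
  have e : y * (y⁻¹ * z * y) * y⁻¹ = z := by group
  rwa [e] at h2

theorem cj_sup (g : G) (H K : Subgroup G) : cj g (H ⊔ K) = cj g H ⊔ cj g K :=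
  Subgroup.map_sup H K _

theorem cj_inf (g : G) (H K : Subgroup G) : cj g (H ⊓ K) = cj g H ⊓ cj g K :=
  Subgroup.map_inf H K _ (MulAut.conj g).injective

theorem card_cj [Finite G] (g : G) (H : Subgroup G) : Nat.card (cj g H) = Nat.card H :=
  Subgroup.card_map_of_injective (MulAut.conj g).injective

theorem map_cj {G' : Type*} [Group G'] (f : G →* G') (g : G) (K : Subgroup G) :
    (cj g K).map f = cj (f g) (K.map f) := by
  ext y
  constructor
  · rintro ⟨z, ⟨k, hk, rfl⟩, rfl⟩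
    exact ⟨f k, ⟨k, hk, rfl⟩, by simp⟩
  · rintro ⟨z, ⟨k, hk, rfl⟩, rfl⟩
    exact ⟨g * k * g⁻¹, ⟨k, hk, rfl⟩, by simp⟩

/-- pronormality at a single element -/
def PronAt (H : Subgroup G) (g : G) : Prop := ∃ x ∈ H ⊔ cj g H, cj g H = cj x H

theorem isPronormal_iff (H : Subgroup G) : IsPronormal H ↔ ∀ g, PronAt H g := Iff.rfl

theorem isPronormal_iff' (H : Subgroup G) :
    IsPronormal H ↔ ∀ g, ∃ x ∈ H ⊔ cj g H, cj g H = cj x H := Iff.rfl

/-- Reduction: if `y ∈ ⟨H, H^g⟩` we may replace `g` by `y⁻¹ g`. -/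
theorem pronAt_of_mul {H : Subgroup G} {g y : G} (hy : y ∈ H ⊔ cj g H)
    (h : PronAt H (y⁻¹ * g)) : PronAt H g := by
  obtain ⟨x', hx', hxe⟩ := h
  have h1 : cj (y⁻¹ * g) H ≤ H ⊔ cj g H := by
    rw [cj_mul]
    exact cj_le_of_mem (Subgroup.inv_mem _ hy) le_sup_right
  have h2 : x' ∈ H ⊔ cj g H := (sup_le le_sup_left h1) hx'
  refine ⟨y * x', Subgroup.mul_mem _ hy h2, ?_⟩
  have e : g = y * (y⁻¹ * g) := by group
  conv_lhs => rw [e]
  rw [cj_mul, hxe, ← cj_mul]

theorem pronAt_of_mem_normalizer {H : Subgroup G} {n : G}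
    (hn : n ∈ Subgroup.normalizer (H : Set G)) : PronAt H n :=
  ⟨1, Subgroup.one_mem _, by rw [cj_of_mem_normalizer hn, cj_one]⟩

theorem pronAt_mul_normalizer {H : Subgroup G} {g n : G}
    (hn : n ∈ Subgroup.normalizer (H : Set G)) (h : PronAt H g) : PronAt H (g * n) := by
  unfold PronAt at h ⊢
  rw [cj_mul, cj_of_mem_normalizer hn]
  exact h

/-- conjugates of pronormal subgroups are pronormal -/
theorem isPronormal_cj {H : Subgroup G} (hH : IsPronormal H) (c : G) : IsPronormal (cj c H) := by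
  rw [isPronormal_iff']
  intro g
  obtain ⟨x, hx, hxe⟩ := (isPronormal_iff' _).mp hH (c⁻¹ * g * c)
  refine ⟨c * x * c⁻¹, ?_, ?_⟩
  · have h1 : c * x * c⁻¹ ∈ cj c (H ⊔ cj (c⁻¹ * g * c) H) := conj_mem_cj hx
    rw [cj_sup, ← cj_mul] at h1
    have e : c * (c⁻¹ * g * c) = g * c := by group
    rw [e, cj_mul] at h1
    exact h1
  · show cj g (cj c H) = cj (c * x * c⁻¹) (cj c H)
    rw [← cj_mul, ← cj_mul]
    have e1 : g * c = c * (c⁻¹ * g * c) := by group
    have e2 : c * x * c⁻¹ * c = c * x := by group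
    rw [e1, e2, cj_mul, hxe, ← cj_mul]

/-- restriction to a subgroup -/
theorem isPronormal_subgroupOf {K M : Subgroup G} (hKM : K ≤ M) (hK : IsPronormal K) :
    IsPronormal (K.subgroupOf M) := by
  rw [isPronormal_iff']
  intro g
  obtain ⟨x, hx, hxe⟩ := (isPronormal_iff' _).mp hK (g : G)
  have hcj : cj (g : G) K ≤ M := cj_le_of_mem g.2 hKM
  have hxM : x ∈ M := (sup_le hKM hcj) hx
  have hmap : ∀ (z : M), (cj z (K.subgroupOf M)).map M.subtype = cj (z : G) K := by
    intro z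
    rw [map_cj, Subgroup.map_subgroupOf_eq_of_le hKM]
    rfl
  refine ⟨⟨x, hxM⟩, ?_, ?_⟩
  · rw [← Subgroup.mem_map_iff_mem M.subtype_injective, Subgroup.map_sup, hmap,
      Subgroup.map_subgroupOf_eq_of_le hKM]
    exact hx
  · apply Subgroup.map_injective M.subtype_injective
    rw [hmap, hmap]
    exact hxe

theorem pronAt_of_subgroupOf {K M : Subgroup G} (hKM : K ≤ M)
    (hK : IsPronormal (K.subgroupOf M)) {g : G} (hg : g ∈ M) : PronAt K g := by
  obtain ⟨x, hx, hxe⟩ := (isPronormal_iff' _).mp hK ⟨g, hg⟩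
  have hmap : ∀ (z : M), (cj z (K.subgroupOf M)).map M.subtype = cj (z : G) K := by
    intro z
    rw [map_cj, Subgroup.map_subgroupOf_eq_of_le hKM]
    rfl
  refine ⟨(x : G), ?_, ?_⟩
  · have := Subgroup.mem_map_of_mem M.subtype hx
    rw [Subgroup.map_sup, hmap, Subgroup.map_subgroupOf_eq_of_le hKM] at this
    exact this
  · have := congrArg (Subgroup.map M.subtype) hxe
    rw [hmap, hmap] at this
    exact this

/-- images under surjective homomorphisms -/
theorem isPronormal_map {G' : Type*} [Group G'] (f : G →* G') (hf : Function.Surjective f)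
    {K : Subgroup G} (hK : IsPronormal K) : IsPronormal (K.map f) := by
  rw [isPronormal_iff']
  intro g'
  obtain ⟨g, rfl⟩ := hf g'
  obtain ⟨x, hx, hxe⟩ := (isPronormal_iff' _).mp hK g
  refine ⟨f x, ?_, ?_⟩
  · have := Subgroup.mem_map_of_mem f hx
    rw [Subgroup.map_sup, map_cj] at this
    exact this
  · have := congrArg (Subgroup.map f) hxe
    rw [map_cj, map_cj] at this
    exact this

/-- lifting from a quotient: conjugacy modulo the kernel -/
theorem exists_of_isPronormal_map {G' : Type*} [Group G'] (f : G →* G')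
    {K : Subgroup G} (hK : IsPronormal (K.map f)) (g : G) :
    ∃ x ∈ K ⊔ cj g K, cj g K ⊔ f.ker = cj x K ⊔ f.ker := by
  obtain ⟨x', hx', hxe⟩ := (isPronormal_iff' _).mp hK (f g)
  rw [← map_cj, ← Subgroup.map_sup] at hx'
  obtain ⟨x, hx, rfl⟩ := hx'
  refine ⟨x, hx, ?_⟩
  rw [← map_cj, ← map_cj] at hxe
  have := congrArg (Subgroup.comap f) hxe
  rwa [Subgroup.comap_map_eq, Subgroup.comap_map_eq] at this

theorem isPronormal_of_map {G' : Type*} [Group G'] (f : G →* G')
    {K : Subgroup G} (hker : f.ker ≤ K) (hK : IsPronormal (K.map f)) : IsPronormal K := by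
  rw [isPronormal_iff']
  intro g
  obtain ⟨x, hx, hxe⟩ := exists_of_isPronormal_map f hK g
  refine ⟨x, hx, ?_⟩
  have h1 : ∀ z : G, f.ker ≤ cj z K := by
    intro z
    have : cj z f.ker = f.ker := cj_of_normal z f.ker
    rw [← this]
    exact cj_mono z hker
  rwa [sup_of_le_left (h1 g), sup_of_le_left (h1 x)] at hxe

end basic

section sylow
variable {G : Type*} [Group G] {p : ℕ} [hp : Fact p.Prime]

/-- `T` is a Sylow `p`-subgroup of the subgroup `M` -/
def SylIn (p : ℕ) (T M : Subgroup G) : Prop := IsPGroup p T ∧ T ≤ M ∧ ¬ p ∣ T.relIndex M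

theorem sylIn_of_sylow [Finite G] {M : Subgroup G} (P : Sylow p M) :
    SylIn p ((P : Subgroup M).map M.subtype) M := by
  refine ⟨P.2.map _, Subgroup.map_subtype_le _, ?_⟩
  have : ((P : Subgroup M).map M.subtype).relIndex M = (P : Subgroup M).index := by
    unfold Subgroup.relIndex Subgroup.subgroupOf
    rw [Subgroup.comap_map_eq_self_of_injective M.subtype_injective]
  rw [this]
  exact P.not_dvd_index

theorem exists_sylow_of_sylIn {T M : Subgroup G} (h : SylIn p T M) :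
    ∃ P : Sylow p M, (P : Subgroup M).map M.subtype = T := by
  obtain ⟨h1, h2, h3⟩ := h
  have hp1 : IsPGroup p (T.subgroupOf M) := h1.comap_subtype
  refine ⟨hp1.toSylow (show ¬ p ∣ (T.subgroupOf M).index from h3), ?_⟩
  rw [IsPGroup.toSylow_coe]
  exact Subgroup.map_subgroupOf_eq_of_le h2

theorem sylIn_top_of_sylow [Finite G] (S : Sylow p G) : SylIn p (S : Subgroup G) ⊤ :=
  ⟨S.2, le_top, by rw [Subgroup.relIndex_top_right]; exact S.not_dvd_index⟩

theorem exists_sylow_of_sylIn_top {T : Subgroup G} (h : SylIn p T ⊤) :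
    ∃ S : Sylow p G, (S : Subgroup G) = T :=
  ⟨h.1.toSylow (by have := h.2.2; rwa [Subgroup.relIndex_top_right] at this),
    IsPGroup.toSylow_coe _ _⟩

omit hp in
theorem SylIn.conj {T M : Subgroup G} (h : SylIn p T M) (g : G) :
    SylIn p (cj g T) (cj g M) := by
  refine ⟨h.1.map _, cj_mono g h.2.1, ?_⟩
  rw [cj_def, cj_def, Subgroup.relIndex_map_map_of_injective _ _ (MulAut.conj g).injective]
  exact h.2.2

omit hp in
theorem SylIn.of_le {T B M : Subgroup G} (h : SylIn p T M) (hTB : T ≤ B) (hBM : B ≤ M) :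
    SylIn p T B :=
  ⟨h.1, hTB, fun hd => h.2.2 (by
    have e := Subgroup.relIndex_mul_relIndex T B M hTB hBM
    rw [← e]; exact Dvd.dvd.mul_right hd _)⟩

/-- Sylow conjugacy inside `M` -/
theorem SylIn.exists_cj_eq [Finite G] {T T' M : Subgroup G} (h : SylIn p T M)
    (h' : SylIn p T' M) : ∃ m ∈ M, cj m T = T' := by
  obtain ⟨P, rfl⟩ := exists_sylow_of_sylIn h
  obtain ⟨P', rfl⟩ := exists_sylow_of_sylIn h'
  obtain ⟨m, rfl⟩ := MulAction.exists_smul_eq M P P'
  refine ⟨m, m.2, ?_⟩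
  rw [Sylow.coe_subgroup_smul]
  exact (map_cj M.subtype m _).symm

theorem SylIn.eq_of_le {T Q M : Subgroup G} (h : SylIn p T M) (hQ : IsPGroup p Q)
    (hTQ : T ≤ Q) (hQM : Q ≤ M) : Q = T := by
  obtain ⟨P, rfl⟩ := exists_sylow_of_sylIn h
  have h1 : IsPGroup p (Q.subgroupOf M) := hQ.comap_subtype
  have h2 : (P : Subgroup M) ≤ Q.subgroupOf M := by
    intro x hx
    rw [Subgroup.mem_subgroupOf]
    exact hTQ (Subgroup.mem_map_of_mem _ hx)
  have h3 := P.3 h1 h2
  rw [← h3]
  exact (Subgroup.map_subgroupOf_eq_of_le hQM).symm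

theorem sylIn_of_sylow_le [Finite G] (S : Sylow p G) {M : Subgroup G}
    (hSM : (S : Subgroup G) ≤ M) : SylIn p (S : Subgroup G) M :=
  ⟨S.2, hSM, fun hd => S.not_dvd_index (by
    rw [← Subgroup.relIndex_mul_index hSM]; exact Dvd.dvd.mul_right hd _)⟩

/-- a Sylow subgroup of a subgroup containing a Sylow subgroup of `G` is Sylow in `G` -/
theorem SylIn.exists_sylow [Finite G] {T M : Subgroup G} (h : SylIn p T M) (S : Sylow p G)
    (hSM : (S : Subgroup G) ≤ M) : ∃ S' : Sylow p G, (S' : Subgroup G) = T := by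
  obtain ⟨m, -, rfl⟩ := (sylIn_of_sylow_le S hSM).exists_cj_eq h
  have h1 := (sylIn_top_of_sylow S).conj m
  rw [cj_of_normal m ⊤] at h1
  exact exists_sylow_of_sylIn_top h1

theorem relIndex_mul_card_inf (H K : Subgroup G) :
    H.relIndex K * Nat.card (H ⊓ K : Subgroup G) = Nat.card K := by
  rw [← Subgroup.inf_relIndex_right]
  have h1 : ((H ⊓ K).subgroupOf K).index * Nat.card ((H ⊓ K).subgroupOf K) = Nat.card K :=
    Subgroup.index_mul_card _
  have h2 : Nat.card ((H ⊓ K).subgroupOf K) = Nat.card (H ⊓ K : Subgroup G) :=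
    Nat.card_congr (Subgroup.subgroupOfEquivOfLe inf_le_right).toEquiv
  rw [← h2]; exact h1

theorem relIndex_dvd_index_of_normal_right [Finite G] (H K : Subgroup G) [H.Normal] :
    K.relIndex H ∣ K.index := by
  have h1 : K.relIndex (H ⊔ K) ∣ K.index := Subgroup.relIndex_dvd_index_of_le le_sup_right
  have h2 : K.relIndex (H ⊔ K) = K.relIndex H := by
    have e1 := relIndex_mul_card_inf K (H ⊔ K)
    have e2 := relIndex_mul_card_inf H (H ⊔ K)
    have e3 : H.relIndex (H ⊔ K) = H.relIndex K := Subgroup.relIndex_sup_left K H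
    have e4 := relIndex_mul_card_inf H K
    have e5 := relIndex_mul_card_inf K H
    rw [inf_of_le_left (le_sup_right : K ≤ H ⊔ K)] at e1
    rw [inf_of_le_left (le_sup_left : H ≤ H ⊔ K)] at e2
    rw [inf_comm] at e5
    have hpos : 0 < Nat.card (H ⊓ K : Subgroup G) := Nat.card_pos
    have hposK : 0 < Nat.card K := Nat.card_pos
    have : K.relIndex (H ⊔ K) * Nat.card K = K.relIndex H * Nat.card K := by
      rw [e1, ← e2, e3, ← e5, ← e4]; ring
    exact Nat.eq_of_mul_eq_mul_right hposK this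
  rw [← h2]; exact h1

/-- a Sylow subgroup of `G` meets a normal subgroup in a Sylow subgroup -/
theorem sylIn_inf_normal [Finite G] (S : Sylow p G) (A : Subgroup G) [A.Normal] :
    SylIn p ((S : Subgroup G) ⊓ A) A := by
  refine ⟨S.2.to_le inf_le_left, inf_le_right, ?_⟩
  rw [Subgroup.inf_relIndex_right]
  exact fun hd => S.not_dvd_index (hd.trans (relIndex_dvd_index_of_normal_right A (S : Subgroup G)))

end sylow

section main
variable {G : Type*} [Group G] [Finite G] {p : ℕ} [hp : Fact p.Prime]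

/-- Frattini-type decomposition -/
theorem exists_mul_normalizer {T B : Subgroup G} (hT : SylIn p T B) {g : G}
    (hg : g ∈ Subgroup.normalizer (B : Set G)) :
    ∃ b ∈ B, b⁻¹ * g ∈ Subgroup.normalizer (T : Set G) := by
  have h1 := hT.conj g
  rw [cj_of_mem_normalizer hg] at h1
  obtain ⟨b, hb, hbe⟩ := hT.exists_cj_eq h1
  refine ⟨b, hb, mem_normalizer_of_cj ?_⟩
  rw [cj_mul, ← hbe, cj_inv_cj]

omit [Finite G] in
theorem sylow_inf_eq (A : Subgroup G) [A.Normal] {T : Subgroup G} (hT : SylIn p T A)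
    (S : Sylow p G) (hTS : T ≤ (S : Subgroup G)) :
    (S : Subgroup G) ⊓ A = T ∧ (S : Subgroup G) ≤ Subgroup.normalizer (T : Set G) := by
  have h1 : (S : Subgroup G) ⊓ A = T :=
    hT.eq_of_le (S.2.to_le inf_le_left) (le_inf hTS hT.2.1) inf_le_right
  refine ⟨h1, fun s hs => mem_normalizer_of_cj ?_⟩
  rw [← h1, cj_inf, cj_of_mem hs, cj_of_normal]

omit [Finite G] in
theorem map_normalizer_le {G' : Type*} [Group G'] (f : G →* G') (K : Subgroup G) :
    (Subgroup.normalizer (K : Set G)).map f ≤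
      Subgroup.normalizer ((K.map f : Subgroup G') : Set G') := by
  rintro _ ⟨n, hn, rfl⟩
  apply mem_normalizer_of_cj
  rw [← map_cj, cj_of_mem_normalizer hn]

/-- (1) ⇒ (2)(i) -/
theorem pp_quot_of_pp (A : Subgroup G) [A.Normal] (T : Subgroup G) (hT : SylIn p T A)
    [(T.subgroupOf (Subgroup.normalizer (T : Set G))).Normal]
    (h : ∀ K : Subgroup G, (∃ P : Sylow p G, (P : Subgroup G) ≤ K) → IsPronormal K) :
    ∀ K : Subgroup (↥(Subgroup.normalizer (T : Set G)) ⧸
        T.subgroupOf (Subgroup.normalizer (T : Set G))),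
      (∃ P : Sylow p (↥(Subgroup.normalizer (T : Set G)) ⧸
        T.subgroupOf (Subgroup.normalizer (T : Set G))),
        (P : Subgroup (↥(Subgroup.normalizer (T : Set G)) ⧸
        T.subgroupOf (Subgroup.normalizer (T : Set G)))) ≤ K) → IsPronormal K := by
  rintro K ⟨P, hPK⟩
  set N := Subgroup.normalizer (T : Set G) with hN
  set ρ := QuotientGroup.mk' (T.subgroupOf N) with hρdef
  have hρ : Function.Surjective ρ := QuotientGroup.mk'_surjective _
  obtain ⟨P', hP'⟩ := Sylow.mapSurjective_surjective hρ p P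
  have hP'K : (P' : Subgroup N) ≤ K.comap ρ := by
    rw [← Subgroup.map_le_iff_le_comap]
    have : ((P'.mapSurjective hρ : Sylow p _) : Subgroup _) = (P' : Subgroup N).map ρ := rfl
    rw [← this, hP']
    exact hPK
  obtain ⟨S, hTS⟩ := hT.1.exists_le_sylow
  have hSN : (S : Subgroup G) ≤ N := (sylow_inf_eq A hT S hTS).2
  obtain ⟨S', hS'⟩ := (sylIn_of_sylow P').exists_sylow S hSN
  have hK1 : IsPronormal ((K.comap ρ).map N.subtype) :=
    h _ ⟨S', by rw [hS']; exact Subgroup.map_mono hP'K⟩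
  have hK2 := isPronormal_subgroupOf (Subgroup.map_subtype_le (K.comap ρ)) hK1
  have e1 : ((K.comap ρ).map N.subtype).subgroupOf N = K.comap ρ := by
    unfold Subgroup.subgroupOf
    exact Subgroup.comap_map_eq_self_of_injective N.subtype_injective _
  rw [e1] at hK2
  have hK3 := isPronormal_map ρ hρ hK2
  rwa [Subgroup.map_comap_eq_self_of_surjective hρ] at hK3

omit [Finite G] in
/-- (1) ⇒ (2)(ii) -/
theorem normalizer_map_of_isPronormal (A : Subgroup G) [A.Normal] (K : Subgroup G)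
    (hK : IsPronormal K) :
    (Subgroup.normalizer (K : Set G)).map (QuotientGroup.mk' A) =
      Subgroup.normalizer ((K.map (QuotientGroup.mk' A) : Subgroup (G ⧸ A)) : Set (G ⧸ A)) := by
  apply le_antisymm (map_normalizer_le _ K)
  intro g' hg'
  obtain ⟨g, rfl⟩ := QuotientGroup.mk'_surjective A g'
  have h1 := cj_of_mem_normalizer hg'
  rw [← map_cj] at h1
  have h2 := congrArg (Subgroup.comap (QuotientGroup.mk' A)) h1
  rw [Subgroup.comap_map_eq, Subgroup.comap_map_eq, QuotientGroup.ker_mk'] at h2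
  obtain ⟨x, hx, hxe⟩ := (isPronormal_iff' _).mp hK g
  have hxKA : x ∈ K ⊔ A := by
    have : K ⊔ cj g K ≤ K ⊔ A := sup_le le_sup_left (by rw [← h2]; exact le_sup_left)
    exact this hx
  have hx' : x ∈ ((K ⊔ A : Subgroup G) : Set G) := hxKA
  rw [Subgroup.mul_normal] at hx'
  obtain ⟨k, hk, a, ha, rfl⟩ := Set.mem_mul.mp hx'
  have hn : (k * a)⁻¹ * g ∈ Subgroup.normalizer (K : Set G) := by
    apply mem_normalizer_of_cj
    rw [cj_mul, hxe, cj_inv_cj]
  refine ⟨k * ((k * a)⁻¹ * g), Subgroup.mul_mem _ (Subgroup.le_normalizer hk) hn, ?_⟩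
  have e : k * ((k * a)⁻¹ * g) = (k * a⁻¹ * k⁻¹) * g := by group
  rw [e, map_mul]
  have h3 : (QuotientGroup.mk' A) (k * a⁻¹ * k⁻¹) = 1 := by
    rw [QuotientGroup.mk'_apply, QuotientGroup.eq_one_iff]
    exact Subgroup.Normal.conj_mem inferInstance _ (A.inv_mem ha) k
  rw [h3, one_mul]

/-- the core of (2) ⇒ (1), for `H` containing a Sylow subgroup `S ≥ T` -/
theorem core (A : Subgroup G) [A.Normal]
    (hA : ∀ K : Subgroup ↥A, (∃ P : Sylow p ↥A, (P : Subgroup ↥A) ≤ K) → IsPronormal K)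
    (hQ : ∀ K : Subgroup (G ⧸ A), (∃ P : Sylow p (G ⧸ A), (P : Subgroup (G ⧸ A)) ≤ K) →
      IsPronormal K)
    (T : Subgroup G) (hT : SylIn p T A)
    [(T.subgroupOf (Subgroup.normalizer (T : Set G))).Normal]
    (h1 : ∀ K : Subgroup (↥(Subgroup.normalizer (T : Set G)) ⧸
        T.subgroupOf (Subgroup.normalizer (T : Set G))),
      (∃ P : Sylow p (↥(Subgroup.normalizer (T : Set G)) ⧸
        T.subgroupOf (Subgroup.normalizer (T : Set G))),
        (P : Subgroup (↥(Subgroup.normalizer (T : Set G)) ⧸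
        T.subgroupOf (Subgroup.normalizer (T : Set G)))) ≤ K) → IsPronormal K)
    (h2 : ∀ K : Subgroup G, (∃ P : Sylow p G, (P : Subgroup G) ≤ K) →
      Subgroup.normalizer ((K.map (QuotientGroup.mk' A) : Subgroup (G ⧸ A)) : Set (G ⧸ A)) ≤
        (Subgroup.normalizer (K : Set G)).map (QuotientGroup.mk' A))
    (S : Sylow p G) (H : Subgroup G) (hSH : (S : Subgroup G) ≤ H) (hTS : T ≤ (S : Subgroup G)) :
    IsPronormal H := by
  set N := Subgroup.normalizer (T : Set G) with hN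
  obtain ⟨hSA, hSN⟩ := sylow_inf_eq A hT S hTS
  set B := H ⊓ A with hB
  have hBA : B ≤ A := inf_le_right
  have hBH : B ≤ H := inf_le_left
  have hTH : T ≤ H := hTS.trans hSH
  have hTB : T ≤ B := le_inf hTH hT.2.1
  have hTsB : SylIn p T B := hT.of_le hTB hBA
  have hHNB : H ≤ Subgroup.normalizer (B : Set G) := by
    intro h hh
    apply mem_normalizer_of_cj
    rw [hB, cj_inf, cj_of_mem hh, cj_of_normal]
  -- Step 4
  have claim3 : ∀ n, n ∈ Subgroup.normalizer (B : Set G) → n ∈ N → PronAt H n := by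
    intro n hnB hnT
    set H₁ := H ⊓ N with hH₁
    have hH₁N : H₁ ≤ N := inf_le_right
    have hH₁H : H₁ ≤ H := inf_le_left
    have hTN : T ≤ N := Subgroup.le_normalizer
    set ρ := QuotientGroup.mk' (T.subgroupOf N) with hρdef
    have hρ : Function.Surjective ρ := QuotientGroup.mk'_surjective _
    have hov : ∃ P : Sylow p (↥N ⧸ T.subgroupOf N),
        (P : Subgroup (↥N ⧸ T.subgroupOf N)) ≤ (H₁.subgroupOf N).map ρ := by
      refine ⟨(S.subtype hSN).mapSurjective hρ, ?_⟩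
      show ((S : Subgroup G).subgroupOf N).map ρ ≤ _
      apply Subgroup.map_mono
      intro x hx
      rw [Subgroup.mem_subgroupOf] at hx ⊢
      exact ⟨hSH hx, x.2⟩
    have hpr1 : IsPronormal ((H₁.subgroupOf N).map ρ) := h1 _ hov
    have hker : ρ.ker ≤ H₁.subgroupOf N := by
      rw [hρdef, QuotientGroup.ker_mk']
      intro x hx
      rw [Subgroup.mem_subgroupOf] at hx ⊢
      exact ⟨hTH hx, x.2⟩
    have hpr2 : IsPronormal (H₁.subgroupOf N) := isPronormal_of_map ρ hker hpr1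
    obtain ⟨x, hx, hxe⟩ := pronAt_of_subgroupOf hH₁N hpr2 hnT
    have hxL : x ∈ H ⊔ cj n H :=
      (sup_le_sup hH₁H (cj_mono n hH₁H)) hx
    apply pronAt_of_mul hxL
    apply pronAt_of_mem_normalizer
    have hH₁NB : H₁ ≤ Subgroup.normalizer (B : Set G) := hH₁H.trans hHNB
    have hxB : x ∈ Subgroup.normalizer (B : Set G) :=
      (sup_le hH₁NB (cj_le_of_mem hnB hH₁NB)) hx
    have hmB : x⁻¹ * n ∈ Subgroup.normalizer (B : Set G) :=
      Subgroup.mul_mem _ (Subgroup.inv_mem _ hxB) hnB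
    have hmH₁ : x⁻¹ * n ∈ Subgroup.normalizer (H₁ : Set G) := by
      apply mem_normalizer_of_cj
      rw [cj_mul, hxe, cj_inv_cj]
    -- any element normalizing B and H₁ maps H into H
    have key : ∀ m, m ∈ Subgroup.normalizer (B : Set G) →
        m ∈ Subgroup.normalizer (H₁ : Set G) → cj m H ≤ H := by
      intro m hmB hmH₁ z hz
      rw [mem_cj] at hz
      obtain ⟨b, hb, hb'⟩ := exists_mul_normalizer hTsB (hHNB hz)
      have hb1 : b⁻¹ * (m⁻¹ * z * m) ∈ H₁ :=
        ⟨H.mul_mem (H.inv_mem (hBH hb)) hz, hb'⟩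
      have e : z = (m * b * m⁻¹) * (m * (b⁻¹ * (m⁻¹ * z * m)) * m⁻¹) := by group
      rw [e]
      refine H.mul_mem (hBH ?_) (hH₁H ?_)
      · have := conj_mem_cj (g := m) hb
        rwa [cj_of_mem_normalizer hmB] at this
      · have := conj_mem_cj (g := m) hb1
        rwa [cj_of_mem_normalizer hmH₁] at this
    apply mem_normalizer_of_cj
    apply le_antisymm (key _ hmB hmH₁)
    have := cj_mono (x⁻¹ * n) (key _ (Subgroup.inv_mem _ hmB) (Subgroup.inv_mem _ hmH₁))
    rwa [cj_cj_inv] at this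
  -- Step 3
  have claim2 : ∀ a, a ∈ Subgroup.normalizer (B : Set G) → PronAt H a := by
    intro a haB
    obtain ⟨b, hb, hb'⟩ := exists_mul_normalizer hTsB haB
    apply pronAt_of_mul (y := b) (Subgroup.mem_sup_left (hBH hb))
    exact claim3 _ (Subgroup.mul_mem _ (Subgroup.inv_mem _ (Subgroup.le_normalizer hb)) haB) hb'
  -- Step 2
  have claim1 : ∀ a ∈ A, PronAt H a := by
    intro a ha
    obtain ⟨P₀, hP₀⟩ := exists_sylow_of_sylIn hT
    have hov : ∃ P : Sylow p ↥A, (P : Subgroup ↥A) ≤ B.subgroupOf A := by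
      refine ⟨P₀, fun x hx => ?_⟩
      rw [Subgroup.mem_subgroupOf]
      apply hTB
      rw [← hP₀]
      exact Subgroup.mem_map_of_mem _ hx
    have hpr := hA _ hov
    obtain ⟨x, hx, hxe⟩ := pronAt_of_subgroupOf hBA hpr ha
    have hxL : x ∈ H ⊔ cj a H := (sup_le_sup hBH (cj_mono a hBH)) hx
    apply pronAt_of_mul hxL
    apply claim2
    apply mem_normalizer_of_cj
    rw [cj_mul, hxe, cj_inv_cj]
  -- Step 1
  rw [isPronormal_iff]
  intro g
  have hov : ∃ P : Sylow p (G ⧸ A), (P : Subgroup (G ⧸ A)) ≤ H.map (QuotientGroup.mk' A) :=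
    ⟨S.mapSurjective (QuotientGroup.mk'_surjective A), Subgroup.map_mono hSH⟩
  have hpr := hQ _ hov
  obtain ⟨y, hy, hye⟩ := exists_of_isPronormal_map (QuotientGroup.mk' A) hpr g
  rw [QuotientGroup.ker_mk'] at hye
  apply pronAt_of_mul hy
  have hm : cj (y⁻¹ * g) H ⊔ A = H ⊔ A := by
    have e1 : cj (y⁻¹ * g) H ⊔ A = cj y⁻¹ (cj g H ⊔ A) := by
      rw [cj_sup, cj_of_normal y⁻¹ A, cj_mul]
    rw [e1, hye, cj_sup, cj_inv_cj, cj_of_normal]
  have hmap : ∀ X : Subgroup G, (X ⊔ A).map (QuotientGroup.mk' A) =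
      X.map (QuotientGroup.mk' A) := by
    intro X
    rw [Subgroup.map_sup, QuotientGroup.map_mk'_self, sup_bot_eq]
  have hmN : (QuotientGroup.mk' A) (y⁻¹ * g) ∈
      Subgroup.normalizer ((H.map (QuotientGroup.mk' A) : Subgroup (G ⧸ A)) : Set (G ⧸ A)) := by
    apply mem_normalizer_of_cj
    rw [← map_cj, ← hmap, hm, hmap]
  obtain ⟨n, hn, hne⟩ := h2 H ⟨S, hSH⟩ hmN
  have ha : (y⁻¹ * g) * n⁻¹ ∈ A := by
    rw [← QuotientGroup.eq_one_iff, ← QuotientGroup.mk'_apply, map_mul, map_inv, hne]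
    exact mul_inv_cancel _
  have e : y⁻¹ * g = ((y⁻¹ * g) * n⁻¹) * n := by group
  rw [e]
  exact pronAt_mul_normalizer hn (claim1 _ ha)

/-- (2) ⇒ (1) -/
theorem pp_of_pp_quot (A : Subgroup G) [A.Normal]
    (hA : ∀ K : Subgroup ↥A, (∃ P : Sylow p ↥A, (P : Subgroup ↥A) ≤ K) → IsPronormal K)
    (hQ : ∀ K : Subgroup (G ⧸ A), (∃ P : Sylow p (G ⧸ A), (P : Subgroup (G ⧸ A)) ≤ K) →
      IsPronormal K)
    (T : Subgroup G) (hT : SylIn p T A)
    [(T.subgroupOf (Subgroup.normalizer (T : Set G))).Normal]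
    (h1 : ∀ K : Subgroup (↥(Subgroup.normalizer (T : Set G)) ⧸
        T.subgroupOf (Subgroup.normalizer (T : Set G))),
      (∃ P : Sylow p (↥(Subgroup.normalizer (T : Set G)) ⧸
        T.subgroupOf (Subgroup.normalizer (T : Set G))),
        (P : Subgroup (↥(Subgroup.normalizer (T : Set G)) ⧸
        T.subgroupOf (Subgroup.normalizer (T : Set G)))) ≤ K) → IsPronormal K)
    (h2 : ∀ K : Subgroup G, (∃ P : Sylow p G, (P : Subgroup G) ≤ K) →
      Subgroup.normalizer ((K.map (QuotientGroup.mk' A) : Subgroup (G ⧸ A)) : Set (G ⧸ A)) ≤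
        (Subgroup.normalizer (K : Set G)).map (QuotientGroup.mk' A)) :
    ∀ K : Subgroup G, (∃ P : Sylow p G, (P : Subgroup G) ≤ K) → IsPronormal K := by
  rintro H ⟨S₀, hS₀⟩
  obtain ⟨c, -, hc⟩ := (sylIn_inf_normal S₀ A).exists_cj_eq hT
  have hcS : ((c • S₀ : Sylow p G) : Subgroup G) = cj c (S₀ : Subgroup G) := by
    rw [Sylow.coe_subgroup_smul]; rfl
  have hpr : IsPronormal (cj c H) := by
    refine core A hA hQ T hT h1 h2 (c • S₀) (cj c H) ?_ ?_
    · rw [hcS]; exact cj_mono c hS₀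
    · rw [hcS, ← hc]; exact cj_mono c inf_le_left
  have := isPronormal_cj hpr c⁻¹
  rwa [cj_inv_cj] at this

/-- overgroups of self-normalizing Sylow subgroups are self-normalizing -/
theorem normalizer_le_of_selfNormalizing (P : Sylow p G)
    (hP : Subgroup.normalizer ((P : Subgroup G) : Set G) = P) (K : Subgroup G)
    (hPK : (P : Subgroup G) ≤ K) : Subgroup.normalizer (K : Set G) ≤ K := by
  intro g hg
  obtain ⟨k, hk, hk'⟩ := exists_mul_normalizer (sylIn_of_sylow_le P hPK) hg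
  rw [hP] at hk'
  have := K.mul_mem hk (hPK hk')
  rwa [mul_inv_cancel_left] at this

/-- overgroups of self-normalizing Sylow subgroups are pronormal -/
theorem isPronormal_of_selfNormalizing (P : Sylow p G)
    (hP : Subgroup.normalizer ((P : Subgroup G) : Set G) = P) (K : Subgroup G)
    (hPK : (P : Subgroup G) ≤ K) : IsPronormal K := by
  rw [isPronormal_iff]
  intro g
  have h1 : SylIn p (P : Subgroup G) (K ⊔ cj g K) :=
    sylIn_of_sylow_le P (hPK.trans le_sup_left)
  have hgP : ((g • P : Sylow p G) : Subgroup G) = cj g (P : Subgroup G) := by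
    rw [Sylow.coe_subgroup_smul]; rfl
  have h2 : SylIn p (cj g (P : Subgroup G)) (K ⊔ cj g K) := by
    rw [← hgP]
    apply sylIn_of_sylow_le
    rw [hgP]
    exact (cj_mono g hPK).trans le_sup_right
  obtain ⟨y, hy, hye⟩ := h1.exists_cj_eq h2
  apply pronAt_of_mul hy
  apply pronAt_of_mem_normalizer
  have h3 : y⁻¹ * g ∈ Subgroup.normalizer ((P : Subgroup G) : Set G) := by
    apply mem_normalizer_of_cj
    rw [cj_mul, ← hye, cj_inv_cj]
  rw [hP] at h3
  exact Subgroup.le_normalizer (hPK h3)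

end main

end Cfsg.Agent.Lib.Helper75.Pron
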