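import Mathlib
import Cfsg.Agent.Lib.Helper23.Embed
import Cfsg.Agent.Lib.Helper23.Syl
import Cfsg.Agent.Lib.Helper23.SignArg
import Cfsg.Agent.Lib.Helper76.SylPrime
import Cfsg.Agent.Lib.Helper76.N22Count

/-!
S0496 piece N40C (helper75 for helper11): order 720, `n_3 = 40`, final contradiction by parity on
the ten cosets of `N(D)`.
-/

set_option autoImplicit false
set_option linter.style.haveILetI false

namespace Cfsg.Agent.S496

open Subgroup

/-- an element conjugating a subgroup of a finite group into itself normalises it -/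
theorem n40c_mem_normalizer {G : Type*} [Group G] [Finite G] (D : Subgroup G) (g : G)
    (hg : ∀ d ∈ D, g * d * g⁻¹ ∈ D) : g ∈ Subgroup.normalizer (D : Set G) := by
  rw [Subgroup.mem_normalizer_iff]
  intro d
  refine ⟨hg d, fun h => ?_⟩
  have hpow : ∀ i : ℕ, ∀ d ∈ D, g ^ i * d * (g ^ i)⁻¹ ∈ D := by
    intro i
    induction i with
    | zero =>
      intro d hd
      simpa using hd
    | succ i ih =>
      intro d hd
      have h1 := hg _ (ih d hd)
      have e : g ^ (i + 1) * d * (g ^ (i + 1))⁻¹ = g * (g ^ i * d * (g ^ i)⁻¹) * g⁻¹ := by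
        rw [pow_succ']
        group
      rw [e]
      exact h1
  have hm : 0 < orderOf g := orderOf_pos g
  have e1 : g ^ (orderOf g - 1) = g⁻¹ := by
    apply eq_inv_of_mul_eq_one_left
    rw [← pow_succ, Nat.sub_add_cancel hm, pow_orderOf_eq_one]
  have h2 := hpow (orderOf g - 1) _ h
  rw [e1, inv_inv] at h2
  have e2 : g⁻¹ * (g * d * g⁻¹) * g = d := by group
  rwa [e2] at h2

theorem n40_final {G : Type*} [Group G] [Finite G] [IsSimpleGroup G] (h : Nat.card G = 720)
    (h40 : Nat.card (Sylow 3 G) = 40)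
    (hnorm : ∀ (P : Sylow 3 G) (D : Subgroup G), D ≤ (P : Subgroup G) →
      Subgroup.normalizer ((P : Subgroup G) : Set G) ≤ Subgroup.normalizer (D : Set G))
    (D : Subgroup G) (hD : Nat.card D = 3)
    (hN : Nat.card (Subgroup.normalizer (D : Set G)) = 72) : False := by
  classical
  haveI : Fact (Nat.Prime 3) := ⟨by norm_num⟩
  haveI : Fact (Nat.Prime 2) := ⟨Nat.prime_two⟩
  obtain ⟨N, hNdef⟩ : ∃ N : Subgroup G, N = Subgroup.normalizer (D : Set G) := ⟨_, rfl⟩
  rw [← hNdef] at hN
  have hDN : D ≤ N := by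
    rw [hNdef]
    exact Subgroup.le_normalizer
  letI : Fintype (G ⧸ N) := Fintype.ofFinite _
  have hcardΩ : Fintype.card (G ⧸ N) = 10 := by
    rw [← Nat.card_eq_fintype_card, ← Subgroup.index_eq_card]
    have h1 := Subgroup.card_mul_index N
    rw [hN, h] at h1
    omega
  have hG : ¬ IsMulCommutative G :=
    Cfsg.Agent.Lib.Helper23.not_comm_of_simple_of_not_prime (by rw [h]; norm_num)
  obtain ⟨φ, hφ⟩ : ∃ φ : G →* Equiv.Perm (G ⧸ N), φ = MulAction.toPermHom G (G ⧸ N) :=
    ⟨_, rfl⟩
  have hφapp : ∀ (g : G) (a : G), φ g (a : G ⧸ N) = ((g * a : G) : G ⧸ N) := by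
    intro g a
    rw [hφ]
    rfl
  have hsmul : ∀ (g : G) (δ : G ⧸ N), g • δ = φ g δ := by
    intro g δ
    rw [hφ]
    rfl
  have hker : φ.ker ≠ ⊤ := by
    intro htop
    have hall : ∀ g : G, g ∈ N := by
      intro g
      have hg : g ∈ φ.ker := by
        rw [htop]
        exact Subgroup.mem_top g
      have h1 : φ g ((1 : G) : G ⧸ N) = ((1 : G) : G ⧸ N) := by
        rw [MonoidHom.mem_ker.mp hg]
        rfl
      rw [hφapp, mul_one] at h1
      have h2 := QuotientGroup.eq.mp h1
      rw [mul_one] at h2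
      exact inv_mem_iff.mp h2
    have hNtop : N = ⊤ := (Subgroup.eq_top_iff' N).mpr hall
    rw [hNtop, Subgroup.card_top, h] at hN
    omega
  obtain ⟨hinj, halt⟩ := Cfsg.Agent.Lib.Helper23.simple_hom_perm_injective_alt hG φ hker
  have hsign : ∀ g, Equiv.Perm.sign (φ g) = 1 := fun g =>
    Equiv.Perm.mem_alternatingGroup.mp (halt g)
  -- a generator of `D`
  obtain ⟨x, hxD, hx1, hx3⟩ :=
    Cfsg.Agent.Lib.Helper76.SylPrime.exists_mem_pow_eq_one D 3 (by rw [hD])
  have hordx : orderOf x = 3 := orderOf_eq_prime hx3 hx1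
  have hDz : D = Subgroup.zpowers x := by
    symm
    apply Subgroup.eq_of_le_of_card_ge (by rw [Subgroup.zpowers_le]; exact hxD)
    rw [Nat.card_zpowers, hordx, hD]
  -- an involution centralising `D`
  have hCN : Subgroup.centralizer (D : Set G) ≤ N := by
    rw [hNdef]
    exact Subgroup.centralizer_le_normalizer _
  have h2C : 2 ∣ Nat.card (Subgroup.centralizer (D : Set G)) := by
    have hr := Cfsg.Agent.Lib.Helper23.relIndex_centralizer_normalizer_dvd_pred (p := 3) D hD
    rw [← hNdef] at hr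
    have hmul : Nat.card (Subgroup.centralizer (D : Set G)) *
        (Subgroup.centralizer (D : Set G)).relIndex N = Nat.card N := by
      have h1 := Subgroup.card_mul_index ((Subgroup.centralizer (D : Set G)).subgroupOf N)
      rw [Nat.card_congr (Subgroup.subgroupOfEquivOfLe hCN).toEquiv] at h1
      exact h1
    rw [hN] at hmul
    obtain ⟨r, hr'⟩ : ∃ r, r = (Subgroup.centralizer (D : Set G)).relIndex N := ⟨_, rfl⟩
    rw [← hr'] at hr hmul
    have hr2 : r ≤ 2 := Nat.le_of_dvd (by norm_num) hr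
    have hr0 : r ≠ 0 := by
      intro h0
      rw [h0] at hmul
      omega
    interval_cases r <;> omega
  obtain ⟨v, hvC, hv1, hv2⟩ :=
    Cfsg.Agent.Lib.Helper76.SylPrime.exists_mem_pow_eq_one (Subgroup.centralizer (D : Set G)) 2 h2C
  have hvx : x * v = v * x := (Subgroup.mem_centralizer_iff.mp hvC) x hxD
  have hvN : v ∈ N := hCN hvC
  have hxN : x ∈ N := hDN hxD
  have hordv : orderOf v = 2 := orderOf_eq_prime hv2 hv1
  -- the only fixed point of `x`
  have hfixx : ∀ a : G, φ x (a : G ⧸ N) = (a : G ⧸ N) →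
      (a : G ⧸ N) = ((1 : G) : G ⧸ N) := by
    intro a ha
    rw [hφapp] at ha
    have hy : a⁻¹ * x * a ∈ N := by
      have h1 := QuotientGroup.eq.mp ha
      have h2 := N.inv_mem h1
      have e : ((x * a)⁻¹ * a)⁻¹ = a⁻¹ * x * a := by group
      rwa [e] at h2
    suffices haN : a ∈ N by
      apply QuotientGroup.eq.mpr
      rw [mul_one]
      exact N.inv_mem haN
    obtain ⟨y, hydef⟩ : ∃ y, y = a⁻¹ * x * a := ⟨_, rfl⟩
    rw [← hydef] at hy
    have hydef' : y = a⁻¹ * x * a⁻¹⁻¹ := by rw [hydef, inv_inv]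
    have hy3 : y ^ 3 = 1 := by
      rw [hydef', conj_pow, hx3]
      group
    have hy1 : y ≠ 1 := by
      intro h1
      apply hx1
      have e : x = a * y * a⁻¹ := by
        rw [hydef]
        group
      rw [e, h1]
      group
    by_cases hyD : y ∈ D
    · have hconj : ∀ d ∈ D, a⁻¹ * d * a⁻¹⁻¹ ∈ D := by
        intro d hd
        rw [hDz] at hd
        obtain ⟨i, rfl⟩ := Subgroup.mem_zpowers_iff.mp hd
        have e : a⁻¹ * x ^ i * a⁻¹⁻¹ = y ^ i := by
          rw [hydef', conj_zpow]
        rw [e]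
        exact D.zpow_mem hyD i
      have h3 := n40c_mem_normalizer D a⁻¹ hconj
      rw [← hNdef] at h3
      exact inv_mem_iff.mp h3
    · exfalso
      have hpD : IsPGroup 3 D := IsPGroup.of_card (n := 1) (by rw [hD]; norm_num)
      have hpy : IsPGroup 3 (Subgroup.zpowers y) :=
        IsPGroup.of_card (n := 1) (by rw [Nat.card_zpowers, orderOf_eq_prime hy3 hy1]; norm_num)
      have hyle : Subgroup.zpowers y ≤ Subgroup.normalizer (D : Set G) := by
        rw [Subgroup.zpowers_le, ← hNdef]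
        exact hy
      have hsup : IsPGroup 3 (Subgroup.zpowers y ⊔ D : Subgroup G) :=
        IsPGroup.to_sup_of_normal_right' hpy hpD hyle
      obtain ⟨P, hP⟩ := hsup.exists_le_sylow
      have hxP : x ∈ (P : Subgroup G) := hP (Subgroup.mem_sup_right hxD)
      have hyP : y ∈ (P : Subgroup G) := hP (Subgroup.mem_sup_left (Subgroup.mem_zpowers y))
      have hcardP : Nat.card (P : Subgroup G) = 3 ^ 2 :=
        Cfsg.Agent.Lib.Helper23.sylow_card_of_eq (p := 3) (k := 2) (m := 80)
          (by rw [h]; norm_num) (by norm_num) P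
      haveI : IsMulCommutative (P : Subgroup G) :=
        IsPGroup.isMulCommutative_of_card_eq_prime_sq hcardP
      obtain ⟨n, hn, hyn⟩ := P.conj_eq_normalizer_conj_of_mem x a hxP (by rw [← hydef]; exact hyP)
      have hnD := hnorm P D ((le_sup_right).trans hP) hn
      have hninv := Subgroup.inv_mem _ hnD
      have h5 := (Subgroup.mem_normalizer_iff.mp hninv x).mp hxD
      rw [inv_inv, ← hyn, ← hydef] at h5
      exact hyD h5
  -- the fixed points of `v`
  obtain ⟨Xf, hXf⟩ : ∃ Xf : Finset (G ⧸ N), Xf = Finset.univ.filter (fun ω => φ v ω = ω) :=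
    ⟨_, rfl⟩
  have hmem : ∀ ω, ω ∈ Xf ↔ φ v ω = ω := by
    intro ω
    rw [hXf]
    simp
  have h4 : Xf.card % 4 = 2 := by
    have h1 := Cfsg.Agent.Lib.Helper23.card_fixed_mod_four (φ v)
      (by rw [orderOf_injective φ hinj v]; exact hordv) (hsign v)
    rw [hcardΩ] at h1
    rw [hXf]
    exact h1
  have h3 : Xf.card % 3 = 1 := by
    have hX : ∀ δ ∈ (Xf : Set (G ⧸ N)), x • δ ∈ (Xf : Set (G ⧸ N)) := by
      intro δ hδ
      rw [Finset.mem_coe, hmem] at hδ ⊢
      rw [hsmul]
      calc φ v (φ x δ) = φ (v * x) δ := by rw [map_mul]; rfl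
        _ = φ (x * v) δ := by rw [hvx]
        _ = φ x (φ v δ) := by rw [map_mul]; rfl
        _ = φ x δ := by rw [hδ]
    have hmod := Cfsg.Agent.Lib.Helper76.N22.card_modEq_fixedBy (Ω := G ⧸ N) 3 x 1
      (by rw [pow_one]; exact hx3) (Xf : Set (G ⧸ N)) hX
    have hinter : (Xf : Set (G ⧸ N)) ∩ MulAction.fixedBy (G ⧸ N) x = {((1 : G) : G ⧸ N)} := by
      ext ω
      simp only [Set.mem_inter_iff, Finset.mem_coe, MulAction.mem_fixedBy, Set.mem_singleton_iff]
      constructor
      · rintro ⟨-, hω⟩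
        obtain ⟨a, rfl⟩ := QuotientGroup.mk_surjective ω
        rw [hsmul] at hω
        exact hfixx a hω
      · rintro rfl
        refine ⟨(hmem _).mpr ?_, ?_⟩
        · rw [hφapp, mul_one]
          exact QuotientGroup.eq.mpr (by rw [mul_one]; exact N.inv_mem hvN)
        · rw [hsmul, hφapp, mul_one]
          exact QuotientGroup.eq.mpr (by rw [mul_one]; exact N.inv_mem hxN)
    rw [hinter, Set.ncard_singleton, Set.ncard_coe_finset] at hmod
    have hmod' : Xf.card % 3 = 1 % 3 := hmod
    omega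
  have hle : Xf.card ≤ 10 := by
    rw [← hcardΩ]
    exact Finset.card_le_univ _
  have h10 : Xf.card = 10 := by omega
  have hall : Xf = Finset.univ := by
    apply Finset.eq_univ_of_card
    rw [h10, hcardΩ]
  have hv : φ v = 1 := by
    apply Equiv.Perm.ext
    intro ω
    have h1 := (hmem ω).mp (by rw [hall]; exact Finset.mem_univ ω)
    rw [h1]
    rfl
  exact hv1 (hinj (by rw [hv, map_one]))

end Cfsg.Agent.S496
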