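import Mathlib
import Cfsg.Agent.Lib.Helper18.SLMDefs

/-! Project SLM (helper18; S2332): piece `E2`. For `SL_3(q)`, `q ∉ {2, 4}`: an element of the
Levi `SL_2` fixing a non-zero weight acts trivially on its (one-dimensional) weight space. -/

set_option autoImplicit false

namespace Cfsg.Agent.Lib.Helper18.SLM

open Matrix

universe u

variable {F : Type u} [Field F] [Fintype F]

omit [Fintype F] in
theorem e2_x1m_eq (u : Fin 2 → F) :
    (x1m u : Matrix (Fin 3) (Fin 3) F) = !![1, u 0, u 1; 0, 1, 0; 0, 0, 1] := by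
  ext i j
  fin_cases i <;> fin_cases j <;> (simp [x1m, vecMulVec]; try rfl)

omit [Fintype F] in
theorem e2_blk_eq (M : Matrix (Fin 2) (Fin 2) F) :
    (blk M : Matrix (Fin 3) (Fin 3) F) = !![1, 0, 0; 0, M 0 0, M 0 1; 0, M 1 0, M 1 1] := by
  ext i j
  fin_cases i <;> fin_cases j <;> rfl

omit [Fintype F] in
theorem e2_transport {V : Type*} [AddCommGroup V] [Module ℂ V] (ψ : AddChar F ℂ)
    (ρ : Representation ℂ (Matrix.SpecialLinearGroup (Fin 3) F) V)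
    (P : Matrix.SpecialLinearGroup (Fin 3) F) (τ : (Fin 2 → F) → (Fin 2 → F))
    (l l' : Fin 2 → F) (h1 : ∀ u, x1 u * P = P * x1 (τ u))
    (h2 : ∀ u, l ⬝ᵥ τ u = l' ⬝ᵥ u) :
    ∀ v ∈ wt ψ ρ l, ρ P v ∈ wt ψ ρ l' := by
  intro v hv u
  have h3 : ρ (x1 u) (ρ P v) = ρ (x1 u * P) v := by rw [map_mul]; rfl
  have h4 : ρ (P * x1 (τ u)) v = ρ P (ρ (x1 (τ u)) v) := by rw [map_mul]; rfl
  rw [h3, h1 u, h4, hv (τ u), map_smul, h2 u]

omit [Fintype F] in
theorem e2_lev_x1 (g : Matrix.SpecialLinearGroup (Fin 2) F) (u : Fin 2 → F) :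
    x1 u * lev g = lev g * x1 (Matrix.vecMul u (g : Matrix (Fin 2) (Fin 2) F)) := by
  apply Subtype.ext
  show x1m u * blk g.1 = blk g.1 * x1m (Matrix.vecMul u g.1)
  rw [e2_x1m_eq, e2_x1m_eq, e2_blk_eq]
  ext i j
  fin_cases i <;> fin_cases j <;>
    simp [Matrix.mul_apply, Fin.sum_univ_three, Matrix.vecMul, dotProduct, Fin.sum_univ_two]

omit [Fintype F] in
theorem e2_wt_map {V : Type*} [AddCommGroup V] [Module ℂ V] (ψ : AddChar F ℂ)
    (ρ : Representation ℂ (Matrix.SpecialLinearGroup (Fin 3) F) V)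
    (g : Matrix.SpecialLinearGroup (Fin 2) F) (l : Fin 2 → F) :
    ∀ v ∈ wt ψ ρ l, ρ (lev g) v ∈ wt ψ ρ ((g : Matrix (Fin 2) (Fin 2) F) *ᵥ l) := by
  apply e2_transport ψ ρ (lev g) (fun u => Matrix.vecMul u (g : Matrix (Fin 2) (Fin 2) F))
  · intro u
    exact e2_lev_x1 g u
  · intro u
    rw [dotProduct_comm, ← Matrix.dotProduct_mulVec, dotProduct_comm]

theorem e2_exists_t (hq2 : Fintype.card F ≠ 2) (hq4 : Fintype.card F ≠ 4) :
    ∃ t s : F, t * s = 1 ∧ t ^ 3 - 1 ≠ 0 := by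
  classical
  by_contra hcon
  push Not at hcon
  have hall : ∀ x : Fˣ, x ^ 3 = 1 := by
    intro x
    have h := hcon (x : F) ((x⁻¹ : Fˣ) : F)
      (by rw [← Units.val_mul, mul_inv_cancel, Units.val_one])
    apply Units.ext
    rw [Units.val_pow_eq_pow_val, Units.val_one]
    exact sub_eq_zero.mp h
  have hdvd : Monoid.exponent Fˣ ∣ 3 := Monoid.exponent_dvd_of_forall_pow_eq_one hall
  rw [IsCyclic.exponent_eq_card, Nat.card_eq_fintype_card, Fintype.card_units] at hdvd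
  rcases (Nat.dvd_prime Nat.prime_three).mp hdvd with h | h
  · omega
  · omega

theorem e2_base {V : Type*} [AddCommGroup V] [Module ℂ V] (ψ : AddChar F ℂ)
    (hq2 : Fintype.card F ≠ 2) (hq4 : Fintype.card F ≠ 4)
    (ρ : Representation ℂ (Matrix.SpecialLinearGroup (Fin 3) F) V)
    (h1 : Module.finrank ℂ (wt ψ ρ (![1, 0] : Fin 2 → F)) = 1)
    (g : Matrix.SpecialLinearGroup (Fin 2) F) (β : F)
    (hg : (g : Matrix (Fin 2) (Fin 2) F) = !![1, β; 0, 1]) :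
    ∀ v ∈ wt ψ ρ (![1, 0] : Fin 2 → F), ρ (lev g) v = v := by
  obtain ⟨t, s, hts, ht3⟩ := e2_exists_t (F := F) hq2 hq4
  obtain ⟨β', hβ'⟩ : ∃ β' : F, t ^ 3 * β' - β' = β := by
    refine ⟨β * (t ^ 3 - 1)⁻¹, ?_⟩
    field_simp
  have hmul : ∀ (a b : Matrix.SpecialLinearGroup (Fin 3) F) (x : V), ρ (a * b) x = ρ a (ρ b x) :=
    fun a b x => by rw [map_mul]; rfl
  -- the torus element
  have hdet : (!![t, 0, 0; 0, t, 0; 0, 0, s * s] : Matrix (Fin 3) (Fin 3) F).det = 1 := by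
    rw [Matrix.det_fin_three]
    simp
    linear_combination (t * s + 1) * hts
  obtain ⟨h, hh⟩ : ∃ h : Matrix.SpecialLinearGroup (Fin 3) F,
      (h : Matrix (Fin 3) (Fin 3) F) = !![t, 0, 0; 0, t, 0; 0, 0, s * s] := ⟨⟨_, hdet⟩, rfl⟩
  obtain ⟨y, hy⟩ : ∃ y : Matrix.SpecialLinearGroup (Fin 2) F,
      (y : Matrix (Fin 2) (Fin 2) F) = !![1, β'; 0, 1] :=
    ⟨⟨!![1, β'; 0, 1], by rw [Matrix.det_fin_two_of]; ring⟩, rfl⟩
  -- `h` preserves the weight space
  have hpres_h : ∀ v ∈ wt ψ ρ (![1, 0] : Fin 2 → F), ρ h v ∈ wt ψ ρ (![1, 0] : Fin 2 → F) := by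
    apply e2_transport ψ ρ h (fun u => ![u 0, s * s * s * u 1])
    · intro u
      apply Subtype.ext
      show x1m u * h.1 = h.1 * x1m _
      have hh' : h.1 = !![t, 0, 0; 0, t, 0; 0, 0, s * s] := hh
      rw [hh', e2_x1m_eq, e2_x1m_eq]
      ext i j
      fin_cases i <;> fin_cases j <;> simp [Matrix.mul_apply, Fin.sum_univ_three]
      · ring
      · linear_combination (-(u 1 * s * s)) * hts
    · intro u
      simp [dotProduct, Fin.sum_univ_two]
  have hpres_y : ∀ v ∈ wt ψ ρ (![1, 0] : Fin 2 → F),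
      ρ (lev y) v ∈ wt ψ ρ (![1, 0] : Fin 2 → F) := by
    intro v hv
    have h3 := e2_wt_map ψ ρ y ![1, 0] v hv
    have he : (y : Matrix (Fin 2) (Fin 2) F) *ᵥ ![1, 0] = ![1, 0] := by
      rw [hy]
      ext i
      fin_cases i <;> simp [Matrix.mulVec, dotProduct, Fin.sum_univ_two]
    rwa [he] at h3
  -- the commutator relation
  have hrel : h * lev y = lev (g * y) * h := by
    apply Subtype.ext
    show h.1 * blk y.1 = blk (g.1 * y.1) * h.1
    have hh' : h.1 = !![t, 0, 0; 0, t, 0; 0, 0, s * s] := hh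
    have hy' : y.1 = !![1, β'; 0, 1] := hy
    have hg' : g.1 = !![1, β; 0, 1] := hg
    rw [hh', hy', hg', e2_blk_eq, e2_blk_eq]
    ext i j
    fin_cases i <;> fin_cases j <;>
      simp [Matrix.mul_apply, Fin.sum_univ_three, Fin.sum_univ_two]
    · linear_combination (-(t * β' * (t * s + 1))) * hts + (s * s) * hβ'
  -- scalar action on the line
  obtain ⟨v₀, hv₀, hspan⟩ := finrank_eq_one_iff'.mp h1
  have hv₀' : (v₀ : V) ≠ 0 := fun h0 => hv₀ (Subtype.ext h0)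
  obtain ⟨lam, hlam⟩ := hspan ⟨ρ h v₀.1, hpres_h v₀.1 v₀.2⟩
  obtain ⟨mu, hmu⟩ := hspan ⟨ρ (lev y) v₀.1, hpres_y v₀.1 v₀.2⟩
  have hlam' : ρ h v₀.1 = lam • v₀.1 := by
    have h3 := congrArg Subtype.val hlam
    exact h3.symm
  have hmu' : ρ (lev y) v₀.1 = mu • v₀.1 := by
    have h3 := congrArg Subtype.val hmu
    exact h3.symm
  have hlam0 : lam ≠ 0 := by
    intro h0
    rw [h0, zero_smul] at hlam'
    have h3 : ρ h⁻¹ (ρ h v₀.1) = v₀.1 := by
      rw [← hmul, inv_mul_cancel, map_one]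
      rfl
    rw [hlam', map_zero] at h3
    exact hv₀' h3.symm
  have hmu0 : mu ≠ 0 := by
    intro h0
    rw [h0, zero_smul] at hmu'
    have h3 : ρ (lev y)⁻¹ (ρ (lev y) v₀.1) = v₀.1 := by
      rw [← hmul, inv_mul_cancel, map_one]
      rfl
    rw [hmu', map_zero] at h3
    exact hv₀' h3.symm
  have hL : ρ (h * lev y) v₀.1 = (lam * mu) • v₀.1 := by
    rw [hmul, hmu', map_smul, hlam', smul_smul, mul_comm]
  have hR : ρ (lev (g * y) * h) v₀.1 = (lam * mu) • ρ (lev g) v₀.1 := by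
    rw [map_mul lev, hmul, hmul, hlam', map_smul, hmu', map_smul, map_smul, smul_smul]
  have hne : lam * mu ≠ 0 := mul_ne_zero hlam0 hmu0
  have hfix0 : ρ (lev g) v₀.1 = v₀.1 := by
    have h3 : (lam * mu) • ρ (lev g) v₀.1 = (lam * mu) • v₀.1 := by
      rw [← hR, ← hrel, hL]
    have h4 := congrArg (fun w => (lam * mu)⁻¹ • w) h3
    simpa only [inv_smul_smul₀ hne] using h4
  intro v hv
  obtain ⟨c, hc⟩ := hspan ⟨v, hv⟩
  have hc' : v = c • v₀.1 := by
    have h3 := congrArg Subtype.val hc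
    exact h3.symm
  rw [hc', map_smul, hfix0]

omit [Fintype F] in
theorem e2_move (l : Fin 2 → F) (hl : l ≠ 0) :
    ∃ g₀ : Matrix.SpecialLinearGroup (Fin 2) F,
      (g₀ : Matrix (Fin 2) (Fin 2) F) *ᵥ l = ![1, 0] := by
  by_cases h0 : l 0 = 0
  · have h1 : l 1 ≠ 0 := by
      intro h1
      apply hl
      ext i
      fin_cases i
      · exact h0
      · exact h1
    refine ⟨⟨!![0, (l 1)⁻¹; -(l 1), 0], ?_⟩, ?_⟩
    · rw [Matrix.det_fin_two_of]
      field_simp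
      ring
    · ext i
      fin_cases i
      · simp [Matrix.mulVec, dotProduct, Fin.sum_univ_two, h1]
      · simp [Matrix.mulVec, dotProduct, Fin.sum_univ_two, h0]
  · refine ⟨⟨!![(l 0)⁻¹, 0; -(l 1), l 0], ?_⟩, ?_⟩
    · rw [Matrix.det_fin_two_of]
      field_simp
      ring
    · ext i
      fin_cases i
      · simp [Matrix.mulVec, dotProduct, Fin.sum_univ_two, h0]
      · simp [Matrix.mulVec, dotProduct, Fin.sum_univ_two]
        ring

-- piece E2
theorem ep_of_m1_2 {V : Type*} [AddCommGroup V] [Module ℂ V] (ψ : AddChar F ℂ)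
    (hq2 : Fintype.card F ≠ 2) (hq4 : Fintype.card F ≠ 4)
    (ρ : Representation ℂ (Matrix.SpecialLinearGroup (Fin 3) F) V) (hM : M1 ψ ρ) :
    EP ψ ρ := by
  intro l hl g _ hgl v hv
  obtain ⟨g₀, hg₀⟩ := e2_move l hl
  have hmul : ∀ (a b : Matrix.SpecialLinearGroup (Fin 3) F) (x : V), ρ (a * b) x = ρ a (ρ b x) :=
    fun a b x => by rw [map_mul]; rfl
  have he0 : (![1, 0] : Fin 2 → F) ≠ 0 := by
    intro h
    have h3 := congrFun h 0
    simp at h3
  obtain ⟨g', hg'⟩ : ∃ g' : Matrix.SpecialLinearGroup (Fin 2) F, g' = g₀ * g * g₀⁻¹ := ⟨_, rfl⟩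
  have hfix : (g' : Matrix (Fin 2) (Fin 2) F) *ᵥ ![1, 0] = ![1, 0] := by
    rw [← hg₀, Matrix.mulVec_mulVec, ← Matrix.SpecialLinearGroup.coe_mul, hg',
      inv_mul_cancel_right, Matrix.SpecialLinearGroup.coe_mul, ← Matrix.mulVec_mulVec, hgl]
  have h00 : (g' : Matrix (Fin 2) (Fin 2) F) 0 0 = 1 := by
    have h3 := congrFun hfix 0
    simpa [Matrix.mulVec, dotProduct, Fin.sum_univ_two] using h3
  have h10 : (g' : Matrix (Fin 2) (Fin 2) F) 1 0 = 0 := by
    have h3 := congrFun hfix 1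
    simpa [Matrix.mulVec, dotProduct, Fin.sum_univ_two] using h3
  have h11 : (g' : Matrix (Fin 2) (Fin 2) F) 1 1 = 1 := by
    have hdet := g'.2
    rw [Matrix.det_fin_two, h00, h10] at hdet
    simpa using hdet
  have hmat : (g' : Matrix (Fin 2) (Fin 2) F)
      = !![1, (g' : Matrix (Fin 2) (Fin 2) F) 0 1; 0, 1] := by
    ext i j
    fin_cases i <;> fin_cases j <;> simp [h00, h10, h11]
  have hw : ρ (lev g₀) v ∈ wt ψ ρ (![1, 0] : Fin 2 → F) := by
    have h3 := e2_wt_map ψ ρ g₀ l v hv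
    rwa [hg₀] at h3
  have hbase := e2_base ψ hq2 hq4 ρ (hM _ he0) g' _ hmat (ρ (lev g₀) v) hw
  have h4 : ρ (lev g') (ρ (lev g₀) v) = ρ (lev g₀) (ρ (lev g) v) := by
    rw [← hmul, ← hmul, ← map_mul, ← map_mul, hg', inv_mul_cancel_right]
  have h3 : ρ (lev g₀) (ρ (lev g) v) = ρ (lev g₀) v := by
    rw [← h4, hbase]
  have hcancel : ∀ x : V, ρ (lev g₀)⁻¹ (ρ (lev g₀) x) = x := by
    intro x
    rw [← hmul, inv_mul_cancel, map_one]
    rfl
  have h5 := congrArg (fun w => ρ (lev g₀)⁻¹ w) h3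
  simpa only [hcancel] using h5

end Cfsg.Agent.Lib.Helper18.SLM
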