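import Mathlib
import Cfsg.Agent.Lib.Helper93.Sp4Defs
import Cfsg.Agent.Lib.Helper23.PresSURJ

/-!
# S2293, piece SP4-COMMA: `x_α` commutes with `x_{2α+β}`
-/

set_option autoImplicit false

namespace Cfsg.Agent.Lib.Helper93.Sp4

variable {F : Type*} [Field F] {P : Type*} [Group P] {ζ : F} {n : ℕ} {xa xb : F → P}
  {ha ta hb tb : P}

/-- COMMA -/
theorem comm_a_aab [Fintype F] (D : C2Root ζ n xa xb ha ta hb tb)
    (M : C2Moves ζ xa xb ha ta hb tb) (hζ0 : ζ ≠ 0)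
    (hζ : ∀ a : F, a ≠ 0 → ∃ j : ℕ, a = ζ ^ j) :
    ∀ a d : F, Commute (xa a) (ta * xb d * ta⁻¹) := by
  have hxa0 : xa 0 = 1 := by
    have h := D.adda 0 0
    rw [add_zero] at h
    exact (left_eq_mul.1 h)
  have hxb0 : xb 0 = 1 := by
    have h := D.addb 0 0
    rw [add_zero] at h
    exact (left_eq_mul.1 h)
  -- step 1: powers of ζ against X 1
  have h1 : ∀ i : ℕ, Commute (xa (ζ ^ i)) (ta * xb 1 * ta⁻¹) := by
    intro i
    induction i with
    | zero => rw [pow_zero]; exact D.s2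
    | succ i ih =>
      have h := (Commute.conj_iff hb).2 ih
      rw [M.a_hb, M.aab_hb] at h
      rw [pow_succ']
      exact h
  have h2 : ∀ a : F, a ≠ 0 → Commute (xa a) (ta * xb 1 * ta⁻¹) := by
    intro a ha0
    obtain ⟨j, rfl⟩ := hζ a ha0
    exact h1 j
  have h3 : ∀ j : ℕ, ∀ a : F, a ≠ 0 → Commute (xa a) (ta * xb ((ζ⁻¹ ^ 2) ^ j) * ta⁻¹) := by
    intro j
    induction j with
    | zero => intro a ha0; rw [pow_zero]; exact h2 a ha0
    | succ j ih =>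
      intro a ha0
      have h := (Commute.conj_iff ha).2 (ih (ζ ^ 2 * a) (mul_ne_zero (pow_ne_zero 2 hζ0) ha0))
      rw [M.a_ha, M.aab_ha] at h
      have e1 : ζ⁻¹ ^ 2 * (ζ ^ 2 * a) = a := by
        field_simp
      rw [e1] at h
      rw [pow_succ']
      exact h
  have h4 : ∀ (a c : F), a ≠ 0 → Commute (xa a) (ta * xb (c ^ 2) * ta⁻¹) := by
    intro a c ha0
    by_cases hc : c = 0
    · rw [hc, zero_pow two_ne_zero, hxb0, mul_one, mul_inv_cancel]
      exact Commute.one_right _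
    · obtain ⟨j, hj⟩ := hζ c⁻¹ (inv_ne_zero hc)
      have e : c ^ 2 = (ζ⁻¹ ^ 2) ^ j := by
        have : c = ζ⁻¹ ^ j := by
          rw [inv_pow, ← hj, inv_inv]
        rw [this, ← pow_mul, ← pow_mul, mul_comm]
      rw [e]
      exact h3 j a ha0
  intro a d
  by_cases ha0 : a = 0
  · rw [ha0, hxa0]
    exact Commute.one_left _
  · obtain ⟨c1, c2, hc⟩ := Cfsg.Agent.Lib.Helper93.Pres.h23_sum_two_sq d
    have e : ta * xb d * ta⁻¹ = (ta * xb (c1 ^ 2) * ta⁻¹) * (ta * xb (c2 ^ 2) * ta⁻¹) := by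
      rw [← hc, D.addb]
      group
    rw [e]
    exact (h4 a c1 ha0).mul_right (h4 a c2 ha0)

end Cfsg.Agent.Lib.Helper93.Sp4
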