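import Mathlib

/-!
Project TG (S2197, helper99), piece TG-TRANSPORT: transport of the subgroup hypotheses about the
Tits group along an isomorphism `G ≃* ↥T`.
-/

set_option autoImplicit false

namespace Cfsg.Agent.Lib.Helper99.TG

theorem tg_transport {Γ : Type*} [Group Γ] [Finite Γ] (T S P : Subgroup Γ) (z : Γ)
    (hSP : S ≤ P) (hPT : P ≤ T) (hT : Nat.card T = 17971200) (hS : Nat.card S = 2048)
    (hzS : z ∈ S) (hz1 : z ≠ 1) (hzc : ∀ g ∈ P, g * z = z * g) (hP : Nat.card P = 10240)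
    (hc : ∀ K : Subgroup Γ, K ≤ S → 128 ≤ Nat.card K → z ∈ K)
    (he : ∀ H : Subgroup Γ, P ≤ H → H ≤ T → Nat.card H ≠ 276480)
    (hf : ∀ R : Subgroup Γ, R ≤ P → Nat.card R ≠ 1280)
    {G : Type*} [Group G] (e : G ≃* ↥T)
    (hcore : ∀ (S' P' : Subgroup G) (z' : G), Nat.card G = 17971200 → Nat.card S' = 2048 →
      z' ∈ S' → z' ≠ 1 → (∀ g ∈ P', g * z' = z' * g) → S' ≤ P' → Nat.card P' = 10240 →
      (∀ K : Subgroup G, K ≤ S' → 128 ≤ Nat.card K → z' ∈ K) →
      (∀ H : Subgroup G, P' ≤ H → Nat.card H ≠ 276480) →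
      (∀ R : Subgroup G, R ≤ P' → Nat.card R ≠ 1280) → False) : False := by
  obtain ⟨φ, hφ⟩ : ∃ φ : G →* Γ, φ = T.subtype.comp e.toMonoidHom := ⟨_, rfl⟩
  have hφe : ∀ g, φ g = (e g : Γ) := fun g => by rw [hφ]; rfl
  have hinj : Function.Injective φ := by
    intro a b hab
    rw [hφe, hφe] at hab
    exact e.injective (Subtype.ext hab)
  have hrange : ∀ x ∈ T, ∃ g, φ g = x := fun x hx =>
    ⟨e.symm ⟨x, hx⟩, by rw [hφe, MulEquiv.apply_symm_apply]⟩
  have hφT : ∀ g, φ g ∈ T := fun g => by rw [hφe]; exact (e g).2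
  have hcardmap : ∀ K : Subgroup G, Nat.card (K.map φ) = Nat.card K :=
    fun K => Subgroup.card_map_of_injective hinj
  have hmapcomap : ∀ X : Subgroup Γ, X ≤ T → (X.comap φ).map φ = X := by
    intro X hX
    rw [Subgroup.map_comap_eq, inf_eq_right]
    intro x hx
    obtain ⟨g, hg⟩ := hrange x (hX hx)
    exact ⟨g, hg⟩
  have hcardcomap : ∀ X : Subgroup Γ, X ≤ T → Nat.card (X.comap φ) = Nat.card X := by
    intro X hX
    rw [← hcardmap, hmapcomap X hX]
  obtain ⟨z', hz'⟩ := hrange z (hPT (hSP hzS))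
  apply hcore (S.comap φ) (P.comap φ) z'
  · rw [Nat.card_congr e.toEquiv, hT]
  · rw [hcardcomap S (hSP.trans hPT), hS]
  · show φ z' ∈ S
    rw [hz']; exact hzS
  · intro h
    apply hz1
    rw [← hz', h, map_one]
  · intro g hg
    apply hinj
    rw [map_mul, map_mul, hz']
    exact hzc _ hg
  · exact Subgroup.comap_mono hSP
  · rw [hcardcomap P hPT, hP]
  · intro K hK hcard
    have h1 : K.map φ ≤ S := by
      rw [Subgroup.map_le_iff_le_comap]; exact hK
    have h2 := hc (K.map φ) h1 (by rw [hcardmap]; exact hcard)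
    obtain ⟨k, hk, hkz⟩ := h2
    have h3 : k = z' := hinj (by rw [hkz, hz'])
    rw [← h3]; exact hk
  · intro H hH
    have h1 : P ≤ H.map φ := by
      rw [← hmapcomap P hPT]; exact Subgroup.map_mono hH
    have h2 : H.map φ ≤ T := by
      rintro x ⟨g, _, rfl⟩
      exact hφT g
    have h3 := he (H.map φ) h1 h2
    rwa [hcardmap] at h3
  · intro R hR
    have h1 : R.map φ ≤ P := by
      rw [Subgroup.map_le_iff_le_comap]; exact hR
    have h3 := hf (R.map φ) h1
    rwa [hcardmap] at h3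

end Cfsg.Agent.Lib.Helper99.TG
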